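import Cfsg.Agent.H19.Bfb1b0
import Cfsg.Agent.H27.Bfb1a

/-! Piece `b1b`. -/

set_option autoImplicit false

namespace Cfsg.Agent.H7.Bf

open Subgroup Cfsg.Agent.H19.Gt Cfsg.Agent.H1.G2

universe u

variable {G : Type u} {K : Type*} [Group G] [Finite G] [CommGroup K] {τ : K × K →* G} {u v : G}
  {z : K} {S : Sylow 2 G}

theorem b1b [IsSimpleGroup G] (h : Gz (S : Subgroup G) τ u v z) (h4 : Nat.card K = 4)
    (h2 : ∃ x y : G, orderOf x = 2 ∧ orderOf y = 2 ∧ ¬ IsConj x y)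
    (hGo : ∀ A : Subgroup G, A ≠ ⊥ → IsMulCommutative A → ¬ IsStronglyClosed A (S : Subgroup G)) :
    ∃ u', Tw S τ u' v z :=
  b1b_of h h4 h2 hGo fun hy _ hρ => b1a h h4 hy hρ

end Cfsg.Agent.H7.Bf
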