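import Cfsg.Agent.H7.Bf0

/-! Piece `b1b`: the fusion pattern in a simple group with two classes of involutions. -/

set_option autoImplicit false
set_option linter.unusedVariables false
set_option linter.unusedSectionVars false

namespace Cfsg.Agent.H7.Bf

open Subgroup Cfsg.Agent.H19.Gt Cfsg.Agent.H1.G2

universe u

variable {G : Type u} {K : Type*} [Group G] [Finite G] [CommGroup K] {τ : K × K →* G} {u v : G}
  {z : K} {S : Sylow 2 G}

theorem b1b_sq (h : Gz (S : Subgroup G) τ u v z) (h4 : Nat.card K = 4) (a : K) :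
    IsSquare a ↔ a * a = 1 := by
  constructor
  · rintro ⟨b, rfl⟩
    have := pow_card_eq_one' (x := b)
    rw [h4] at this
    rw [← this]; simp only [pow_succ, pow_zero, one_mul, mul_assoc]
  · intro e
    rcases h.inv2 e with rfl | rfl
    exacts [IsSquare.one, h.zsq]

theorem b1b_ns (h : Gz (S : Subgroup G) τ u v z) (h4 : Nat.card K = 4) {ρ : K} (hρ : ρ * ρ = z)
    {a : K} (ha : ¬ IsSquare a) : ∃ c, a = ρ * (c * c) := by
  have e : a * a = z := (h.inv2 ((b1b_sq h h4 _).1 ⟨a, rfl⟩)).resolve_left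
    fun e => ha ((b1b_sq h h4 _).2 e)
  obtain ⟨c, hc⟩ := (b1b_sq h h4 (ρ⁻¹ * a)).2 (by
    rw [mul_mul_mul_comm, ← mul_inv, hρ, e, inv_mul_cancel])
  exact ⟨c, by rw [← hc, mul_inv_cancel_left]⟩

theorem b1b_T (h : Gz (S : Subgroup G) τ u v z) (a b c d : K) :
    IsConj (τ (a * (c * c), b * (d * d)) * u) (τ (a, b) * u) := by
  have g := h.toGs
  have : τ (a * (c * c), b * (d * d)) * u = τ (c, d) * (τ (a, b) * u) * (τ (c, d))⁻¹ := by
    rw [tinv, mul_assoc, mul_assoc, g.ut, inv_inv, inv_inv, tm', tm', mul_left_inj, g.teq]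
    exact ⟨by ac_rfl, by ac_rfl⟩
  rw [this]; exact cj _ _

theorem b1b_v (h : Gz (S : Subgroup G) τ u v z) (a b : K) :
    IsConj (τ (b, a) * u) (τ (a, b) * u) := by
  have g := h.toGs
  have : τ (b, a) * u = v * (τ (a, b) * u) * v⁻¹ := by
    rw [g.vt', ← g.uv, mul_assoc, mul_inv_cancel_right]
  rw [this]; exact cj _ _

theorem b1b_u (h : Gz (S : Subgroup G) τ u v z) {a b : K} (ha : IsSquare a) (hb : IsSquare b) :
    IsConj (τ (a, b) * u) u := by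
  obtain ⟨c, rfl⟩ := ha
  obtain ⟨d, rfl⟩ := hb
  simpa [t1] using b1b_T h 1 1 c d

theorem b1b_e (h : Gz (S : Subgroup G) τ u v z) (h4 : Nat.card K = 4) {ρ : K} (hρ : ρ * ρ = z)
    (hx : IsConj (τ (ρ, ρ) * u) (τ (ρ, 1) * u)) {a b : K} (hab : ¬ IsSquare a ∨ ¬ IsSquare b) :
    IsConj (τ (a, b) * u) (τ (ρ, ρ) * u) := by
  have k : ∀ {a b : K}, ¬ IsSquare a → IsSquare b → IsConj (τ (a, b) * u) (τ (ρ, ρ) * u) := by
    rintro a _ ha ⟨d, rfl⟩
    obtain ⟨c, rfl⟩ := b1b_ns h h4 hρ ha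
    exact (by simpa using b1b_T h ρ 1 c d : IsConj _ (τ (ρ, 1) * u)).trans hx.symm
  by_cases ha : IsSquare a
  · exact (b1b_v h b a).trans (k (hab.resolve_left (not_not.2 ha)) ha)
  by_cases hb : IsSquare b
  · exact k ha hb
  obtain ⟨c, rfl⟩ := b1b_ns h h4 hρ ha
  obtain ⟨d, rfl⟩ := b1b_ns h h4 hρ hb
  exact b1b_T h ρ ρ c d

/-- subgroups of `T⟨u⟩` -/
def b1b_A (h : Gz (S : Subgroup G) τ u v z) (L : Subgroup K) (P : Prop) : Subgroup G where
  carrier := {g | ∃ a ∈ L, ∃ b ∈ L, g = τ (a, b) ∨ (P ∧ g = τ (a, b) * u)}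
  one_mem' := ⟨1, one_mem _, 1, one_mem _, .inl (t1 τ).symm⟩
  mul_mem' := by
    have g := h.toGs
    rintro _ _ ⟨a, ha, b, hb, rfl | ⟨p, rfl⟩⟩ ⟨c, hc, d, hd, rfl | ⟨q, rfl⟩⟩
    · exact ⟨_, mul_mem ha hc, _, mul_mem hb hd, .inl (tm ..)⟩
    · exact ⟨_, mul_mem ha hc, _, mul_mem hb hd, .inr ⟨q, tm' ..⟩⟩
    · exact ⟨_, mul_mem ha (inv_mem hc), _, mul_mem hb (inv_mem hd),
        .inr ⟨p, by rw [mul_assoc, g.ut, tm']⟩⟩
    · exact ⟨_, mul_mem ha (inv_mem hc), _, mul_mem hb (inv_mem hd),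
        .inl (by rw [mul_assoc, g.ut', g.uu, mul_one, tm])⟩
  inv_mem' := by
    have g := h.toGs
    rintro _ ⟨a, ha, b, hb, rfl | ⟨p, rfl⟩⟩
    · exact ⟨_, inv_mem ha, _, inv_mem hb, .inl (tinv ..)⟩
    · exact ⟨a, ha, b, hb, .inr ⟨p, by rw [mul_inv_rev, g.ui, tinv, g.ut, inv_inv, inv_inv]⟩⟩

theorem b1b_le (h : Gz (S : Subgroup G) τ u v z) (L : Subgroup K) (P : Prop) :
    b1b_A h L P ≤ S := by
  rintro _ ⟨a, -, b, -, rfl | ⟨-, rfl⟩⟩
  exacts [h.toGs.tS a b, mul_mem (h.toGs.tS a b) h.toGs.uS]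

theorem b1b_gz (h : Gz (S : Subgroup G) τ u v z) (ρ : K) :
    Gz (S : Subgroup G) τ (τ (ρ, ρ) * u) v z := by
  have g := h.toGs
  refine ⟨⟨g.cyc, g.four, g.inj, ?_, g.vv, ?_, fun a b => ?_, g.vt, fun s => ?_⟩, h.fin, h.two, h.z1, h.zz⟩
  · rw [mul_assoc, g.ut', g.uu, mul_one, tm, mul_inv_cancel, t1]
  · rw [g.vt', mul_assoc, g.uv]
  · rw [mul_assoc, g.ut, tm', tm', mul_comm ρ, mul_comm ρ]
  · rw [g.mem]
    constructor
    · rintro ⟨a, b, e | e | e | e⟩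
      · exact ⟨a, b, .inl e⟩
      · exact ⟨a * ρ⁻¹, b * ρ⁻¹, .inr (.inl (by rw [tm', inv_mul_cancel_right, inv_mul_cancel_right, e]))⟩
      · exact ⟨a, b, .inr (.inr (.inl e))⟩
      · exact ⟨a * ρ⁻¹, b * ρ⁻¹, .inr (.inr (.inr (by
          rw [mul_assoc, tm', inv_mul_cancel_right, inv_mul_cancel_right, e])))⟩
    · rintro ⟨a, b, e | e | e | e⟩
      · exact ⟨a, b, .inl e⟩
      · exact ⟨_, _, .inr (.inl (by rw [e, tm']))⟩
      · exact ⟨a, b, .inr (.inr (.inl e))⟩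
      · exact ⟨_, _, .inr (.inr (.inr (by rw [e, mul_assoc, tm'])))⟩

theorem b1b_hz [IsSimpleGroup G] (h : Gz (S : Subgroup G) τ u v z) (a b : K)
    (e1 : τ (a, b) * τ (a, b) = 1) (e2 : τ (a, b) ≠ 1) : IsConj (τ (a, b)) (τ (z, z)) := by
  have := h.fin
  obtain ⟨ρ, hρ, -⟩ := h.rho
  exact hρ ▸ four_fus S h.toGs (hρ ▸ h.z1) (hρ ▸ h.zz) (fun a e => hρ ▸ h.inv2 e) a b e1 e2

theorem b1b_core [IsSimpleGroup G] (h : Gz (S : Subgroup G) τ u v z) (h4 : Nat.card K = 4)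
    (h2 : ∃ x y : G, orderOf x = 2 ∧ orderOf y = 2 ∧ ¬ IsConj x y)
    (hGo : ∀ A : Subgroup G, A ≠ ⊥ → IsMulCommutative A → ¬ IsStronglyClosed A (S : Subgroup G))
    {ρ : K} (hρ : ρ * ρ = z) (hx : IsConj (τ (ρ, ρ) * u) (τ (ρ, 1) * u)) : Tw S τ u v z := by
  have := h.fin
  have g := h.toGs
  have hz := b1b_hz h
  have c1 := cls S g hz
  have c2 := cls S g.flip (z := τ (z, z)) (fun a b => hz a b⁻¹)
  obtain ⟨x, y, ox, oy, nxy⟩ := h2
  have nc : ∀ r : G, (∀ s : G, orderOf s = 2 → IsConj s (τ (z, z)) ∨ IsConj s r) →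
      ¬ IsConj r (τ (z, z)) := fun r c e => nxy
    (((c x ox).elim id fun f => f.trans e).trans ((c y oy).elim id fun f => f.trans e).symm)
  have nv := nc v c1
  have nw := nc (u * v) c2
  have c0 : ∀ s ∈ (S : Subgroup G), IsConj s (τ (z, z)) →
      (∃ a b, a * a = 1 ∧ b * b = 1 ∧ s = τ (a, b)) ∨ ∃ a b, s = τ (a, b) * u := fun s hs e => by
    have q := conj_sq e h.tt
    obtain ⟨a, b, rfl | rfl | rfl | rfl⟩ := (g.mem _).1 hs
    · rw [tm, g.teq1] at q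
      exact .inl ⟨a, b, q.1, q.2, rfl⟩
    · exact .inr ⟨a, b, rfl⟩
    · rw [g.invv q] at e
      exact (nv ((cj _ _).symm.trans e)).elim
    · rw [g.invw q] at e
      exact (nw ((cj _ _).symm.trans e)).elim
  have sq := b1b_sq h h4
  have he : IsConj (τ (ρ, ρ) * u) (τ (z, z)) := by
    by_contra ne
    let L : Subgroup K := (powMonoidHom 2 : K →* K).ker
    have mL : ∀ a, a ∈ L ↔ a * a = 1 := fun a => by rw [MonoidHom.mem_ker, powMonoidHom_apply, pow_two]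
    refine hGo (b1b_A h L (IsConj u (τ (z, z)))) (fun e => h.t_ne (mem_bot.1 (e ▸
      ⟨z, (mL z).2 h.zz, z, (mL z).2 h.zz, .inl rfl⟩))) ⟨⟨?_⟩⟩ ⟨b1b_le h _ _, fun s hs k hk => ?_⟩
    · rintro ⟨_, a, ha, b, hb, rfl | ⟨-, rfl⟩⟩ ⟨_, c, hc, d, hd, rfl | ⟨-, rfl⟩⟩ <;>
        refine Subtype.ext ?_
      · show τ _ * τ _ = τ _ * τ _
        rw [tm, tm, mul_comm a, mul_comm b]
      · exact g.cu.2 ⟨(mL _).1 ha, (mL _).1 hb⟩
      · exact (g.cu.2 ⟨(mL _).1 hc, (mL _).1 hd⟩).symm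
      · show τ _ * u * (τ _ * u) = τ _ * u * (τ _ * u)
        rw [← mul_assoc, ← mul_assoc (τ (c, d) * u), ← g.cu.2 ⟨(mL _).1 hc, (mL _).1 hd⟩,
          ← g.cu.2 ⟨(mL _).1 ha, (mL _).1 hb⟩, tm', tm', mul_comm a, mul_comm b]
    · by_cases s1 : s = 1
      · rw [s1, mul_one, mul_inv_cancel]; exact one_mem _
      have e : IsConj s (τ (z, z)) := by
        obtain ⟨a, ha, b, hb, rfl | ⟨p, rfl⟩⟩ := hs
        · exact hz a b (by rw [tm, (mL _).1 ha, (mL _).1 hb, t1]) s1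
        · exact (b1b_u h ((sq a).2 ((mL _).1 ha)) ((sq b).2 ((mL _).1 hb))).trans p
      have e' := (cj k s).trans e
      rcases c0 _ hk e' with ⟨a, b, ha, hb, f⟩ | ⟨a, b, f⟩
      · exact ⟨a, (mL _).2 ha, b, (mL _).2 hb, .inl f⟩
      · rw [f] at e'
        have hab : IsSquare a ∧ IsSquare b := by
          by_contra n
          exact ne ((b1b_e h h4 hρ hx (not_and_or.1 n)).symm.trans e')
        exact ⟨a, (mL _).2 ((sq a).1 hab.1), b, (mL _).2 ((sq b).1 hab.2),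
          .inr ⟨(b1b_u h hab.1 hab.2).symm.trans e', f⟩⟩
  have ov : orderOf v = 2 := orderOf_eq_prime (by rw [pow_two, g.vv])
    fun e => h.ne_v 1 1 1 1 (by rw [e, mul_one])
  have ou : orderOf u = 2 := orderOf_eq_prime (by rw [pow_two, g.uu])
    fun e => h.ne_u 1 1 1 1 (by rw [e, mul_one])
  have nu : ¬ IsConj u (τ (z, z)) := fun p => by
    have nvA : v ∉ b1b_A h ⊤ True := by
      rintro ⟨a, -, b, -, e | ⟨-, e⟩⟩
      · exact h.ne_v 1 1 a b (by rw [t1, one_mul, e])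
      · refine h.ne_w 1 1 a⁻¹ b⁻¹ ?_
        rw [t1, one_mul, e, g.ut', g.uu, mul_one]
    have idx : (b1b_A h ⊤ True).relIndex S = 2 := by
      refine index_eq_two_iff_exists_notMem_and.2 ⟨⟨v, g.vS⟩, nvA, fun s => ?_⟩
      obtain ⟨a, b, e | e | e | e⟩ := (g.mem _).1 s.2
      · exact .inr ⟨a, trivial, b, trivial, .inl e⟩
      · exact .inr ⟨a, trivial, b, trivial, .inr ⟨trivial, e⟩⟩
      · exact .inl ⟨a, trivial, b, trivial,
          .inl (by change s.1 * v = _; rw [e, mul_assoc, g.vv, mul_one])⟩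
      · exact .inl ⟨a, trivial, b, trivial, .inr ⟨trivial, by
          change s.1 * v = _; rw [e, mul_assoc, mul_assoc, g.vv, mul_one]⟩⟩
    rcases S0111.result S _ (b1b_le h ⊤ True) idx v ov g.vS nvA with ⟨M, m1, m2, -⟩ | ⟨k, hk⟩
    · rcases m1.eq_bot_or_eq_top with rfl | rfl
      · rw [index_bot] at m2
        have h1 := (S : Subgroup G).card_subgroup_dvd_card
        rw [g.card, m2, h4] at h1
        omega
      · simp at m2
    · refine nv ((cj k v).symm.trans ?_)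
      have q := conj_sq (cj k v) g.vv
      have n1 : k * v * k⁻¹ ≠ 1 := fun e => h.ne_v 1 1 1 1 (by rw [conj_eq_one_iff.1 e, mul_one])
      obtain ⟨a, -, b, -, e | ⟨-, e⟩⟩ := hk <;> rw [e] at q n1 ⊢
      · exact hz a b q n1
      · by_cases hab : IsSquare a ∧ IsSquare b
        · exact (b1b_u h hab.1 hab.2).trans p
        · exact (b1b_e h h4 hρ hx (not_and_or.1 hab)).trans he
  refine ⟨h, h4, fun s hs => ⟨fun e => ?_, ?_⟩, (c1 u ou).resolve_left nu, (c2 u ou).resolve_left nu⟩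
  · rcases c0 s hs e with ⟨a, b, ha, hb, rfl⟩ | ⟨a, b, rfl⟩
    · rcases h.inv2 ha with rfl | rfl <;> rcases h.inv2 hb with f | f <;> rw [f] at e ⊢
      · rw [t1, isConj_one_right] at e
        exact (h.t_ne e).elim
      · exact .inr (.inr (.inl rfl))
      · exact .inr (.inl rfl)
      · exact .inl rfl
    · refine .inr (.inr (.inr ⟨a, b, not_and_or.1 fun hab => ?_, rfl⟩))
      exact nu ((b1b_u h hab.1 hab.2).symm.trans e)
  · rintro (rfl | rfl | rfl | ⟨a, b, hab, rfl⟩)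
    · exact IsConj.refl _
    · exact hz _ _ (by rw [tm, h.zz, mul_one, t1]) fun e => h.z1 (g.teq1.1 e).1
    · exact hz _ _ (by rw [tm, h.zz, mul_one, t1]) fun e => h.z1 (g.teq1.1 e).2
    · exact (b1b_e h h4 hρ hx hab).trans he

theorem b1b_of [IsSimpleGroup G] (h : Gz (S : Subgroup G) τ u v z) (h4 : Nat.card K = 4)
    (h2 : ∃ x y : G, orderOf x = 2 ∧ orderOf y = 2 ∧ ¬ IsConj x y)
    (hGo : ∀ A : Subgroup G, A ≠ ⊥ → IsMulCommutative A → ¬ IsStronglyClosed A (S : Subgroup G))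
    (H : IsConj (τ (z, 1)) (τ (z, z)) → ∀ ρ : K, ρ * ρ = z →
      IsConj u (τ (ρ, 1) * u) ∨ IsConj (τ (ρ, ρ) * u) (τ (ρ, 1) * u)) :
    ∃ u', Tw S τ u' v z := by
  obtain ⟨ρ, hρ, -⟩ := h.rho
  rcases H (b1b_hz h _ _ (by rw [tm, h.zz, mul_one, t1]) fun e => h.z1 (h.toGs.teq1.1 e).1) ρ hρ with
    e | e
  · refine ⟨_, b1b_core (b1b_gz h ρ) h4 h2 hGo hρ ?_⟩
    rw [tm', tm', one_mul]
    refine ((b1b_u h ⟨_, rfl⟩ ⟨_, rfl⟩).trans e).trans (((b1b_v h ρ 1).symm.trans ?_))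
    simpa using (b1b_T h 1 ρ ρ 1).symm
  · exact ⟨u, b1b_core h h4 h2 hGo hρ e⟩

end Cfsg.Agent.H7.Bf
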