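import Cfsg.Agent.H19.Gt1
import Cfsg.Agent.S0215

/-! Pieces `rZ`, `rX`: conjugates of a `2`-central involution. -/

set_option autoImplicit false

namespace Cfsg.Agent.GO.Fg

open Subgroup

theorem rZ {G : Type*} [Group G] [Finite G] [IsSimpleGroup G] (hna : ¬ IsMulCommutative G)
    (P : Sylow 2 G) {z : G} (hz : orderOf z = 2) (hc : ∀ p ∈ (P : Subgroup G), p * z = z * p) :
    ∃ g : G, g * z * g⁻¹ ∈ (P : Subgroup G) ∧ g * z * g⁻¹ ≠ z := by
  by_contra! hn
  have hp : IsPGroup 2 (zpowers z) := IsPGroup.of_card (n := 1) (by rw [Nat.card_zpowers, hz, pow_one])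
  have hzP : z ∈ (P : Subgroup G) := by
    have h1 : z ∈ zpowers z ⊓ normalizer ((P : Subgroup G) : Set G) :=
      ⟨mem_zpowers z, mem_normalizer_fintype fun s hs => by
        rw [← hc s hs, mul_inv_cancel_right]; exact hs⟩
    exact ((hp.inf_normalizer_sylow P).le h1).2
  obtain ⟨N, h1, h2, h3⟩ := S0215.result P z hz hzP hn
  rcases h1.eq_bot_or_eq_top with rfl | rfl
  · have hc : z ∈ center G := mem_center_iff.2 fun g => by
      have := mem_bot.1 (h3 g)
      rw [mul_inv_eq_one, mul_inv_eq_iff_eq_mul] at this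
      exact this.symm
    rcases (inferInstance : (center G).Normal).eq_bot_or_eq_top with e | e
    · rw [e, mem_bot] at hc
      rw [hc, orderOf_one] at hz
      omega
    · exact hna ⟨⟨fun a b => mem_center_iff.1 (e ▸ mem_top b : b ∈ center G) a⟩⟩
  · rw [card_top] at h2
    exact Nat.not_even_iff_odd.2 h2 (even_iff_two_dvd.2 (hz ▸ orderOf_dvd_natCard z))

theorem rX {G : Type*} [Group G] [Finite G] (P : Sylow 2 G) {z s g0 : G}
    (hc : ∀ p ∈ (P : Subgroup G), p * z = z * p) (hs : g0 * z * g0⁻¹ = s) :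
    ∃ g : G, g * s * g⁻¹ = z ∧
      ∀ c ∈ (P : Subgroup G), c * s = s * c → g * c * g⁻¹ ∈ (P : Subgroup G) := by
  obtain ⟨k, k', e1, e2, e3⟩ := H19.Gt.twosyl P (x := z) (y := s) (g := g0⁻¹) (by rw [← hs]; group)
  have hk : k ∈ normalizer ((P : Subgroup G) : Set G) :=
    mem_normalizer_fintype fun s hs => e2 s hs (hc s hs)
  refine ⟨k⁻¹ * k', ?_, fun c hc e4 => (mem_normalizer_iff.1 hk _).2 ?_⟩
  · calc k⁻¹ * k' * s * (k⁻¹ * k')⁻¹ = k⁻¹ * (k' * s * k'⁻¹) * k := by group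
      _ = z := by rw [← e1]; group
  · simpa [mul_assoc] using e3 c hc e4

end Cfsg.Agent.GO.Fg
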