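import Cfsg.Agent.H19.Gt1
import Cfsg.Agent.S0111
import Cfsg.Agent.S0215

/-! Fusion of involutions in simple groups with Sylow `2`-subgroups of type `G₂(q)`. -/

set_option autoImplicit false

namespace Cfsg.Agent.H19.Gt

open Subgroup

variable {G K : Type*} [Group G] [CommGroup K] {τ : K × K →* G} {u v : G}

/-- the maximal subgroup `T⟨v⟩` -/
def Gs.Q {S : Subgroup G} (h : Gs S τ u v) : Subgroup G where
  carrier := {g | ∃ a b, g = τ (a, b) ∨ g = τ (a, b) * v}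
  one_mem' := ⟨1, 1, .inl (t1 τ).symm⟩
  mul_mem' := by
    rintro _ _ ⟨a, b, rfl | rfl⟩ ⟨c, d, rfl | rfl⟩
    · exact ⟨_, _, .inl (tm ..)⟩
    · exact ⟨_, _, .inr (tm' ..)⟩
    · exact ⟨_, _, .inr (by rw [mul_assoc, h.vt, tm'])⟩
    · exact ⟨_, _, .inl (by rw [mul_assoc, h.vt', h.vv, mul_one, tm])⟩
  inv_mem' := by
    rintro _ ⟨a, b, rfl | rfl⟩
    · exact ⟨_, _, .inl (tinv ..)⟩
    · exact ⟨_, _, .inr (by rw [mul_inv_rev, h.vi, tinv, h.vt])⟩

theorem Gs.Qle {S : Subgroup G} (h : Gs S τ u v) : h.Q ≤ S := by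
  rintro _ ⟨a, b, rfl | rfl⟩
  exacts [h.tS a b, S.mul_mem (h.tS a b) h.vS]

theorem Gs.Qidx [Finite K] {S : Subgroup G} (h : Gs S τ u v) : h.Q.relIndex S = 2 := by
  obtain ⟨ρ, r1, -⟩ := cyc_data h.cyc h.four
  have k : τ (ρ, ρ) * u ≠ u * τ (ρ, ρ) := fun e =>
    r1 ((h.cu (a := 1) (b := 1)).1 (by rwa [t1, one_mul])).1
  refine index_eq_two_iff_exists_notMem_and.2 ⟨⟨u, h.uS⟩, ?_, fun g => ?_⟩
  · rintro ⟨a, b, e | e⟩ <;> change u = _ at e <;> apply k <;> rw [e]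
    · rw [tm, tm, mul_comm a, mul_comm b]
    · exact h.cv.2 rfl
  · obtain ⟨a, b, e | e | e | e⟩ := (h.mem _).1 g.2
    · exact .inr ⟨a, b, .inl e⟩
    · exact .inl ⟨a, b, .inl (by change g.1 * u = _; rw [e, mul_assoc, h.uu, mul_one])⟩
    · exact .inr ⟨a, b, .inr e⟩
    · exact .inl ⟨a, b, .inr (by change g.1 * u = _; rw [e, mul_assoc, h.uv, mul_assoc, h.uu, mul_one])⟩

theorem Gs.card [Finite K] {S : Subgroup G} (h : Gs S τ u v) :
    Nat.card S = 4 * (Nat.card K * Nat.card K) := by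
  obtain ⟨ρ, r1, -⟩ := cyc_data h.cyc h.four
  have hle : τ.range ≤ h.Q := by rintro _ ⟨⟨a, b⟩, rfl⟩; exact ⟨a, b, .inl rfl⟩
  have h1 : τ.range.relIndex h.Q = 2 := by
    refine index_eq_two_iff_exists_notMem_and.2 ⟨⟨v, 1, 1, .inr (by rw [t1, one_mul])⟩, ?_, fun g => ?_⟩
    · rintro ⟨⟨a, b⟩, e⟩
      change _ = v at e
      have := (h.cv (a := 1) (b := 1) (c := ρ) (d := 1)).1 (by
        rw [t1, one_mul, ← e, tm, tm, mul_comm a, mul_comm b])
      exact r1 (by rw [this, one_mul])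
    · obtain ⟨a, b, e | e⟩ := g.2
      · exact .inr ⟨(a, b), e.symm⟩
      · exact .inl ⟨(a, b), by change _ = g.1 * v; rw [e, mul_assoc, h.vv, mul_one]⟩
  have h2 := (h.Q.subgroupOf S).index_mul_card
  have h3 := (τ.range.subgroupOf h.Q).index_mul_card
  rw [Nat.card_congr (subgroupOfEquivOfLe h.Qle).toEquiv] at h2
  rw [Nat.card_congr (subgroupOfEquivOfLe hle).toEquiv,
    ← Nat.card_congr (MonoidHom.ofInjective h.inj).toEquiv, Nat.card_prod] at h3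
  have h4 := h.Qidx
  rw [relIndex] at h1 h4
  rw [← h2, ← h3, h1, h4]; ring

theorem conj_sq {x y : G} (h : IsConj x y) (hy : y * y = 1) : x * x = 1 := by
  obtain ⟨g, rfl⟩ := isConj_iff.1 h
  have : x * x = g⁻¹ * (g * x * g⁻¹ * (g * x * g⁻¹)) * g := by group
  rw [this, hy]; group

theorem cj (g x : G) : IsConj (g * x * g⁻¹) x := (isConj_iff.2 ⟨g, rfl⟩).symm

variable [Finite G] [Finite K]

theorem sylconj (S : Sylow 2 G) (N : Subgroup G) (hS : (S : Subgroup G) ≤ N) {x : G} (hx : x ∈ N)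
    {m : ℕ} (hm : x ^ 2 ^ m = 1) : ∃ n ∈ N, n * x * n⁻¹ ∈ (S : Subgroup G) := by
  have hp : IsPGroup 2 (zpowers (⟨x, hx⟩ : N)) := by
    obtain ⟨k, -, hk⟩ := (Nat.dvd_prime_pow Nat.prime_two).1
      (orderOf_dvd_of_pow_eq_one (show (⟨x, hx⟩ : N) ^ 2 ^ m = 1 from Subtype.ext hm))
    exact IsPGroup.of_card (n := k) (by rw [Nat.card_zpowers, hk])
  obtain ⟨Q, hQ⟩ := hp.exists_le_sylow
  obtain ⟨n, hn⟩ := MulAction.exists_smul_eq N Q (S.subtype hS)
  have : n * ⟨x, hx⟩ * n⁻¹ ∈ ((S.subtype hS : Sylow 2 N) : Subgroup N) := by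
    rw [← hn]; exact ⟨_, hQ (mem_zpowers _), rfl⟩
  exact ⟨n, n.2, this⟩

theorem cls [IsSimpleGroup G] (S : Sylow 2 G) (h : Gs (S : Subgroup G) τ u v) {z : G}
    (hz : ∀ a b, τ (a, b) * τ (a, b) = 1 → τ (a, b) ≠ 1 → IsConj (τ (a, b)) z) (t : G)
    (ht : orderOf t = 2) : IsConj t z ∨ IsConj t v := by
  have hG : ∀ M : Subgroup G, M.Normal → M.index ≠ 2 := fun M hM e => by
    rcases hM.eq_bot_or_eq_top with rfl | rfl
    · rw [index_bot] at e
      have h1 := (S : Subgroup G).card_subgroup_dvd_card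
      rw [h.card, e] at h1
      have := Nat.le_of_dvd two_pos h1
      have := Nat.card_pos (α := K)
      nlinarith
    · simp at e
  have key : ∀ y ∈ h.Q, IsConj t y → IsConj t z ∨ IsConj t v := by
    have h2 : t * t = 1 := by rw [← pow_two, ← ht, pow_orderOf_eq_one]
    rintro _ ⟨a, b, rfl | rfl⟩ e
    · refine .inl (e.trans (hz a b (conj_sq e.symm h2) fun e1 => ?_))
      rw [e1, isConj_one_left] at e
      rw [e, orderOf_one] at ht; omega
    · refine .inr (e.trans ?_)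
      rw [h.invv (conj_sq e.symm h2)]; exact cj _ _
  obtain ⟨n, -, hn⟩ := sylconj S ⊤ le_top (mem_top t) (m := 1) (by rw [pow_one, ← ht, pow_orderOf_eq_one])
  by_cases hq : n * t * n⁻¹ ∈ h.Q
  · exact key _ hq (cj _ _).symm
  rcases S0111.result S h.Q h.Qle h.Qidx _ (by rw [← ht]; exact (MulAut.conj n).orderOf_eq _) hn hq with
    ⟨M, h1, h2, -⟩ | ⟨g, hg⟩
  · exact absurd h2 (hG M h1)
  · exact key _ hg ((cj _ _).trans (cj _ _)).symm

theorem four_fus [IsSimpleGroup G] (S : Sylow 2 G) (h : Gs (S : Subgroup G) τ u v) {ρ : K}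
    (r1 : ρ * ρ ≠ 1) (r2 : ρ * ρ * (ρ * ρ) = 1) (r3 : ∀ a : K, a * a = 1 → a = 1 ∨ a = ρ * ρ)
    (a b : K) (e1 : τ (a, b) * τ (a, b) = 1) (e2 : τ (a, b) ≠ 1) :
    IsConj (τ (a, b)) (τ (ρ * ρ, ρ * ρ)) := by
  set ι := ρ * ρ with hι
  set z := τ (ι, ι) with hz
  have ii : ι⁻¹ = ι := inv_eq_of_mul_eq_one_right r2
  have zz : z * z = 1 := by rw [hz, tm, r2, t1]
  have z1 : z ≠ 1 := fun e => r1 (h.teq1.1 e).1
  have zc : ∀ s ∈ (S : Subgroup G), s * z = z * s := fun s hs => by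
    obtain ⟨a, b, rfl | rfl | rfl | rfl⟩ := (h.mem _).1 hs
    · rw [hz, tm, tm, mul_comm a, mul_comm b]
    · exact (h.cu.2 ⟨r2, r2⟩).symm
    · exact (h.cv.2 rfl).symm
    · exact (h.cw.2 ii.symm).symm
  have ba : IsConj (τ (1, ι)) (τ (ι, 1)) := isConj_iff.2 ⟨v, by rw [h.vt, mul_inv_cancel_right]⟩
  suffices za : IsConj (τ (ι, 1)) z by
    rw [tm, h.teq1] at e1
    rcases r3 a e1.1 with rfl | rfl <;> rcases r3 b e1.2 with rfl | rfl
    exacts [(e2 (t1 τ)).elim, ba.trans za, za, IsConj.refl _]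
  by_contra hn
  have A0 : ∀ a b, IsConj (τ (a, b)) z → τ (a, b) = z := fun a b e => by
    have e1 := conj_sq e zz
    rw [tm, h.teq1] at e1
    rcases r3 a e1.1 with rfl | rfl <;> rcases r3 b e1.2 with rfl | rfl
    · rw [t1, isConj_one_right] at e; exact (z1 e).elim
    exacts [(hn (ba.symm.trans e)).elim, (hn e).elim, rfl]
  have ext : ∀ y, IsConj y z → ∃ k, k * y * k⁻¹ = z ∧
      ∀ s ∈ (S : Subgroup G), s * y = y * s → k * s * k⁻¹ ∈ (S : Subgroup G) := fun y e => by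
    obtain ⟨g, hg⟩ := isConj_iff.1 e
    obtain ⟨k, k', e1, e2, e3⟩ := twosyl S hg
    have hk : k ∈ normalizer ((S : Subgroup G) : Set G) :=
      mem_normalizer_fintype fun s hs => e2 s hs (zc s hs)
    refine ⟨k⁻¹ * k', ?_, fun s hs e4 => (mem_normalizer_iff.1 hk _).2 ?_⟩
    · calc k⁻¹ * k' * y * (k⁻¹ * k')⁻¹ = k⁻¹ * (k' * y * k'⁻¹) * k := by group
        _ = z := by rw [← e1]; group
    · simpa [mul_assoc] using e3 s hs e4
  have cancel : ∀ k x y : G, k * x * k⁻¹ = k * y * k⁻¹ → x = y := fun k x y e =>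
    mul_left_cancel (mul_right_cancel e)
  have B0 : ∀ y, IsConj y z → ∀ s ∈ (S : Subgroup G), s * y = y * s → s * s = z → y = z := by
    intro y e s hs e1 e2
    obtain ⟨k, e3, e4⟩ := ext y e
    obtain ⟨a, b, e5⟩ := h.sq (e4 s hs e1)
    have e6 : k * z * k⁻¹ = τ (a, b) := by rw [← e5, ← e2]; group
    have := A0 a b (e6 ▸ cj k z)
    exact cancel k _ _ (by rw [e3, e6, this])
  have B : ∀ y ∈ (S : Subgroup G), IsConj y z → y ≠ z → ∃ a b, y = τ (a, b) * u := by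
    intro y hy e ne
    obtain ⟨a, b, rfl | rfl | rfl | rfl⟩ := (h.mem _).1 hy
    · exact (ne (A0 a b e)).elim
    · exact ⟨a, b, rfl⟩
    · exact (ne (B0 _ e _ (h.tS ρ ρ) (h.cv.2 rfl) (tm ..))).elim
    · exact (ne (B0 _ e _ (h.tS ρ ρ⁻¹) (h.cw.2 rfl) (by rw [tm, ← mul_inv, ii]))).elim
  obtain ⟨g, hg, ne⟩ : ∃ g : G, g * z * g⁻¹ ∈ S ∧ g * z * g⁻¹ ≠ z := by
    by_contra hc
    push Not at hc
    obtain ⟨N, hN, ho, hh⟩ := S0215.result S z (orderOf_eq_prime (by rw [pow_two, zz]) z1)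
      (h.tS ι ι) hc
    rcases hN.eq_bot_or_eq_top with rfl | rfl
    · have hc : center G ≠ ⊥ := fun e => z1 (by
        rw [← mem_bot, ← e, mem_center_iff]
        intro g
        have := mem_bot.1 (hh g)
        calc g * z = (z * g * z⁻¹ * g⁻¹)⁻¹ * (z * g) := by group
          _ = _ := by rw [this]; group)
      have := ((inferInstance : (center G).Normal).eq_bot_or_eq_top).resolve_left hc
      exact r1 ((h.cu (a := 1) (b := 1) (c := ρ) (d := ρ)).1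
        (mem_center_iff.1 (this ▸ mem_top _) _)).1
    · have h1 := (S : Subgroup G).card_subgroup_dvd_card
      rw [h.card] at h1
      rw [card_top] at ho
      exact (Nat.not_even_iff_odd.2 ho) (even_iff_two_dvd.2 (Dvd.dvd.trans (Dvd.dvd.mul_right (by norm_num : 2 ∣ 4) _) h1))
  obtain ⟨a, b, hx⟩ := B _ hg (cj g z) ne
  have xz : IsConj (τ (a, b) * u) z := hx ▸ cj g z
  rw [hx] at ne
  obtain ⟨k, e3, e4⟩ := ext _ xz
  have xS := (S : Subgroup G).mul_mem (h.tS a b) h.uS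
  have C : ∀ c d : K, c * c * (c * c) = 1 → d * d * (d * d) = 1 → τ (c * c, d * d) ≠ 1 →
      ∃ a' b', k * (τ (c * c, d * d) * (τ (a, b) * u)) * k⁻¹ = τ (a', b') * u := by
    intro c d h1 h2 h3
    refine B _ (e4 _ ((S : Subgroup G).mul_mem (h.tS _ _) xS) ?_) ((cj _ _).trans ?_) fun e => ?_
    · rw [← mul_assoc (τ (a, b) * u), ← h.cu.2 ⟨h1, h2⟩, mul_assoc]
    · refine IsConj.trans ?_ xz
      have : τ (c * c, d * d) * (τ (a, b) * u) = τ (c, d) * (τ (a, b) * u) * (τ (c, d))⁻¹ := by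
        rw [tinv, mul_assoc, mul_assoc, h.ut, tm', tm', tm', inv_inv, inv_inv, mul_right_comm c,
          mul_right_comm d]
      rw [this]; exact cj _ _
    · exact h3 (by simpa using cancel k _ _ (e.trans e3.symm))
  obtain ⟨a1, b1, f1⟩ := C ρ 1 r2 (by simp) fun e => r1 (h.teq1.1 e).1
  obtain ⟨a2, b2, f2⟩ := C 1 ρ (by simp) r2 fun e => r1 (h.teq1.1 e).2
  have f3 : k * z * k⁻¹ = τ (a1 * a2⁻¹, b1 * b2⁻¹) := by
    have f4 : τ (a1, b1) * u * (τ (a2, b2) * u) = τ (a1 * a2⁻¹, b1 * b2⁻¹) := by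
      rw [mul_assoc, h.ut', h.uu, mul_one, tm]
    have f5 : τ (ρ * ρ, 1 * 1) * (τ (a, b) * u) * (τ (1 * 1, ρ * ρ) * (τ (a, b) * u)) = z := by
      rw [tm', tm', mul_assoc, h.ut', h.uu, mul_one (τ _), tm, hz, h.teq]
      exact ⟨by simp [hι], by rw [mul_inv, ← hι, ii]; simp [mul_comm]⟩
    rw [← f4, ← f1, ← f2, ← f5]; group
  have := A0 _ _ (f3 ▸ cj k z)
  exact ne (cancel k _ _ (by rw [e3, f3, this]))

end Cfsg.Agent.H19.Gt
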