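import Cfsg.Agent.H19.Gt2

/-! The fusion theorem for Sylow `2`-subgroups of type `G₂(q)`. -/

set_option autoImplicit false

namespace Cfsg.Agent.H19.Gt

open Subgroup

variable {G K : Type*} [Group G] [CommGroup K] {τ : K × K →* G} {u v : G}

theorem cj_comm {k x y : G} (e : x * y = y * x) :
    k * x * k⁻¹ * (k * y * k⁻¹) = k * y * k⁻¹ * (k * x * k⁻¹) := by
  calc k * x * k⁻¹ * (k * y * k⁻¹) = k * (x * y) * k⁻¹ := by group
    _ = _ := by rw [e]; group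

theorem cj_mul (k x y : G) : k * x * k⁻¹ * (k * y * k⁻¹) = k * (x * y) * k⁻¹ := by group

theorem cj_one {k x : G} : k * x * k⁻¹ = 1 ↔ x = 1 := conj_eq_one_iff

/-- the torus is weakly closed -/
theorem Gs.wc {S : Subgroup G} (h : Gs S τ u v) {ρ : K}
    (r1 : ρ * ρ ≠ 1) (r2 : ρ * ρ * (ρ * ρ) = 1) (r3 : ∀ a : K, a * a = 1 → a = 1 ∨ a = ρ * ρ)
    {k : G} (hk : ∀ a b, k * τ (a, b) * k⁻¹ ∈ S) (a b : K) :
    ∃ a' b', k * τ (a, b) * k⁻¹ = τ (a', b') := by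
  have sq : ∀ c d, ∃ a' b', k * τ (c * c, d * d) * k⁻¹ = τ (a', b') := fun c d => by
    obtain ⟨a', b', e⟩ := h.sq (hk c d)
    exact ⟨a', b', by rw [← e, cj_mul, tm]⟩
  have tc : ∀ a b c d, τ (a, b) * τ (c, d) = τ (c, d) * τ (a, b) := fun a b c d => by
    rw [tm, tm, mul_comm a, mul_comm b]
  obtain ⟨c, d, e, f, h1, h2, h3⟩ : ∃ c d e f, k * τ (c, d) * k⁻¹ = τ (e, f) ∧ e ≠ f ∧ e * e = 1 := by
    have key : ∀ c d : K, c * c = 1 → d * d = 1 → ¬ (c = 1 ∧ d = 1) → ∀ e f,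
        k * τ (c, d) * k⁻¹ = τ (e, f) → e * e = 1 ∧ (e = f → e = ρ * ρ ∧ f = ρ * ρ) := by
      intro c d h1 h2 h3 e f h4
      have h5 : τ (e * e, f * f) = 1 := by rw [← tm, ← h4, cj_mul, tm, h1, h2, t1]; group
      refine ⟨(h.teq1.1 h5).1, ?_⟩
      rintro rfl
      rcases r3 e (h.teq1.1 h5).1 with rfl | rfl
      · rw [t1, cj_one, h.teq1] at h4; exact (h3 h4).elim
      · exact ⟨rfl, rfl⟩
    obtain ⟨e, f, h1⟩ := sq ρ 1
    obtain ⟨e', f', h2⟩ := sq 1 ρ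
    have h3 := key _ _ r2 (by simp) (fun e => r1 e.1) e f h1
    have h4 := key _ _ (by simp) r2 (fun e => r1 e.2) e' f' h2
    by_cases h5 : e = f
    · by_cases h6 : e' = f'
      · rw [(h3.2 h5).1, (h3.2 h5).2] at h1
        rw [(h4.2 h6).1, (h4.2 h6).2, ← h1] at h2
        have := h.teq.1 (mul_left_cancel (mul_right_cancel h2))
        exact (r1 (by simpa using this.2)).elim
      · exact ⟨_, _, e', f', h2, h6, h4.1⟩
    · exact ⟨_, _, e, f, h1, h5, h3.1⟩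
  have h4 := cj_comm (k := k) (tc c d a b)
  rw [h1] at h4
  obtain ⟨x, y, e1 | e1 | e1 | e1⟩ := (h.mem _).1 (hk a b)
  · exact ⟨x, y, e1⟩
  · have h5 : τ (a * a, b * b) = 1 := by
      rw [← cj_one (k := k), ← tm, ← cj_mul, e1, mul_assoc, h.ut', h.uu, mul_one, tm]; simp [t1]
    rcases r3 a (h.teq1.1 h5).1 with rfl | rfl <;> rcases r3 b (h.teq1.1 h5).2 with rfl | rfl
    exacts [by simpa using sq 1 1, by simpa using sq 1 ρ, by simpa using sq ρ 1, sq ρ ρ]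
  · rw [e1] at h4; exact (h2 (h.cv.1 h4)).elim
  · rw [e1] at h4
    exact (h2 (by rw [h.cw.1 h4]; exact eq_inv_of_mul_eq_one_left h3)).elim

variable [Finite G] [Finite K]

theorem not_cd (S : Sylow 2 G) (h : Gs (S : Subgroup G) τ u v) {ρ : K}
    (r1 : ρ * ρ ≠ 1) (r2 : ρ * ρ * (ρ * ρ) = 1) (r3 : ∀ a : K, a * a = 1 → a = 1 ∨ a = ρ * ρ) :
    ¬ IsConj (τ (ρ, ρ⁻¹)) (τ (ρ, ρ)) := by
  intro hc
  obtain ⟨g, hg⟩ := isConj_iff.1 hc
  obtain ⟨k, k', e1, e2, e3⟩ := twosyl S hg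
  have tc : ∀ a b c d, τ (a, b) * τ (c, d) = τ (c, d) * τ (a, b) := fun a b c d => by
    rw [tm, tm, mul_comm a, mul_comm b]
  have w1 := h.wc r1 r2 r3 (k := k) fun a b => e2 _ (h.tS a b) (tc ..)
  have w2 := h.wc r1 r2 r3 (k := k') fun a b => e3 _ (h.tS a b) (tc ..)
  set T := τ.range with hT
  have nm : ∀ {k : G}, (∀ a b, ∃ a' b', k * τ (a, b) * k⁻¹ = τ (a', b')) →
      k ∈ normalizer (T : Set G) := fun {k} hk => mem_normalizer_fintype (by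
    rintro _ ⟨⟨a, b⟩, rfl⟩
    obtain ⟨a', b', e⟩ := hk a b
    exact ⟨(a', b'), e.symm⟩)
  have hSN : (S : Subgroup G) ≤ normalizer (T : Set G) := fun s hs =>
    nm (h.wc r1 r2 r3 fun a b => (S : Subgroup G).mul_mem ((S : Subgroup G).mul_mem hs (h.tS a b))
      ((S : Subgroup G).inv_mem hs))
  have hTC : T ≤ centralizer (T : Set G) := by
    rintro _ ⟨⟨a, b⟩, rfl⟩ _ ⟨⟨c, d⟩, rfl⟩; exact tc ..
  have n1 := nm w1
  have n2 := nm w2
  obtain ⟨e, f, hy⟩ := w1 ρ ρ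
  have y2 : ¬ (e * e = 1 ∧ f * f = 1) := fun hh => by
    have : k * τ (ρ * ρ, ρ * ρ) * k⁻¹ = 1 := by rw [← tm, ← cj_mul, hy, tm, hh.1, hh.2, t1]
    rw [cj_one, h.teq1] at this
    exact r1 this.1
  have hρ : ρ ≠ 1 := fun e => r1 (by rw [e, one_mul])
  have cv0 : v * τ (ρ, ρ) = τ (ρ, ρ) * v := h.vt ..
  have cw0 : u * v * τ (ρ, ρ⁻¹) = τ (ρ, ρ⁻¹) * (u * v) := by
    rw [mul_assoc, h.vt, h.ut', inv_inv]
  have V1 := e2 v h.vS cv0
  have V2 := e3 (u * v) ((S : Subgroup G).mul_mem h.uS h.vS) cw0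
  have c1 := cj_comm (k := k) cv0
  have c2 := cj_comm (k := k') cw0
  rw [hy] at c1
  rw [← e1, hy] at c2
  have nv : ∀ a b, k * v * k⁻¹ ≠ τ (a, b) := fun a b e0 => by
    obtain ⟨⟨c, d⟩, e4⟩ : v ∈ T := (mem_normalizer_iff.1 n1 v).2 ⟨(a, b), e0.symm⟩
    exact hρ ((h.cv (a := 1) (b := 1) (c := ρ) (d := 1)).1 (by rw [t1, one_mul, ← e4, tc]))
  have nw : ∀ a b, k' * (u * v) * k'⁻¹ ≠ τ (a, b) := fun a b e0 => by
    obtain ⟨⟨c, d⟩, e4⟩ : u * v ∈ T := (mem_normalizer_iff.1 n2 _).2 ⟨(a, b), e0.symm⟩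
    have := (h.cw (a := 1) (b := 1) (c := ρ) (d := 1)).1 (by rw [t1, one_mul, ← e4, tc])
    exact hρ (inv_eq_one.1 this.symm)
  have hd : k * v * k⁻¹ * (k' * (u * v) * k'⁻¹)⁻¹ ∈ T := by
    obtain ⟨a, b, f1 | f1 | f1 | f1⟩ := (h.mem _).1 V1
    · exact (nv a b f1).elim
    · rw [f1] at c1; exact (y2 (h.cu.1 c1.symm)).elim
    all_goals
      obtain ⟨a', b', f2 | f2 | f2 | f2⟩ := (h.mem _).1 V2
      · exact (nw a' b' f2).elim
      · rw [f2] at c2; exact (y2 (h.cu.1 c2.symm)).elim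
    · rw [f1, f2]; exact ⟨(a, b) * (a', b')⁻¹, by rw [map_mul, map_inv]; group⟩
    · rw [f1] at c1; rw [f2] at c2
      have g1 := h.cv.1 c1.symm
      have g2 := h.cw.1 c2.symm
      subst g1
      exact (y2 ⟨mul_eq_one_iff_eq_inv.2 g2, mul_eq_one_iff_eq_inv.2 g2⟩).elim
    · rw [f1] at c1; rw [f2] at c2
      have g1 := h.cv.1 c2.symm
      have g2 := h.cw.1 c1.symm
      subst g1
      exact (y2 ⟨mul_eq_one_iff_eq_inv.2 g2, mul_eq_one_iff_eq_inv.2 g2⟩).elim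
    · rw [f1, f2]; exact ⟨(a, b) * (a', b')⁻¹, by rw [map_mul, map_inv]; group⟩
  let φ := T.normalizerMonoidHom
  have hφ : ∀ x : normalizer (T : Set G), (x : G) ∈ T → φ x = 1 := fun x hx => by
    rw [← MonoidHom.mem_ker, normalizerMonoidHom_ker]; exact hTC hx
  let u' : normalizer (T : Set G) := ⟨u, hSN h.uS⟩
  let v' : normalizer (T : Set G) := ⟨v, hSN h.vS⟩
  let m : normalizer (T : Set G) := (⟨k', n2⟩ : normalizer (T : Set G))⁻¹ * ⟨k, n1⟩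
  have hU : ∀ t : T, φ u' t = t⁻¹ := by
    rintro ⟨_, ⟨a, b⟩, rfl⟩
    ext
    show u * τ (a, b) * u⁻¹ = (τ (a, b))⁻¹
    rw [h.ut, mul_inv_cancel_right, tinv]
  refine grp_contra φ.range (U := φ u') (V := φ v') (k := φ m) (fun x => ?_) ?_ (fun e0 => ?_) ?_ ?_
    ⟨_, rfl⟩ ⟨_, rfl⟩ ?_
  · ext t
    rw [MulAut.mul_apply, MulAut.mul_apply, hU, hU, map_inv]
  · rw [← map_mul, show u' * u' = 1 from Subtype.ext h.uu, map_one]
  · have := hU ⟨τ (ρ, ρ), (ρ, ρ), rfl⟩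
    rw [e0] at this
    have e5 : τ (ρ, ρ) = (τ (ρ, ρ))⁻¹ := congrArg Subtype.val this
    rw [tinv, h.teq] at e5
    exact r1 (mul_eq_one_iff_eq_inv.2 e5.1)
  · rw [← map_mul, show v' * v' = 1 from Subtype.ext h.vv, map_one]
  · rw [← mul_inv_eq_one, ← map_mul, ← map_mul, ← map_mul, ← map_inv, ← map_mul]
    apply hφ
    refine (mem_normalizer_iff.1 n2 _).2 ?_
    convert hd using 1
    show k' * (k'⁻¹ * k * v * (u * v * (k'⁻¹ * k))⁻¹) * k'⁻¹ = _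
    group
  · rintro _ ⟨x, rfl⟩
    obtain ⟨a, o, ⟨j, rfl⟩, hm⟩ := Nat.exists_eq_two_pow_mul_odd (orderOf_pos x).ne'
    refine ⟨j, ?_⟩
    rw [← map_pow]
    apply hφ
    obtain ⟨n, hn, h1⟩ := sylconj S _ hSN (x ^ (2 * j + 1)).2 (m := a) (by
      rw [← coe_pow, ← pow_mul, mul_comm, ← hm, pow_orderOf_eq_one]; rfl)
    obtain ⟨c, d, h2⟩ := h.sq h1
    refine (mem_normalizer_iff.1 hn _).2 ⟨(c, d), ?_⟩
    rw [← h2, cj_mul, ← coe_mul, ← pow_two, ← pow_mul, mul_comm _ 2]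

theorem gF [IsSimpleGroup G] (S : Sylow 2 G) (hK : IsPGroup 2 K) (h : Gs (S : Subgroup G) τ u v) :
    (∀ x y : G, orderOf x = 2 → orderOf y = 2 → IsConj x y) ∨
      (Nat.card ↥(S : Subgroup G) = 64 ∧ ∃ x y : G, orderOf x = 2 ∧ orderOf y = 2 ∧ ¬ IsConj x y ∧
        ∀ z : G, orderOf z = 2 → IsConj z x ∨ IsConj z y) := by
  obtain ⟨ρ, r1, r2, r3, r4⟩ := cyc_data h.cyc h.four
  have hz := four_fus S h r1 r2 r3
  have hc := cls S h hz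
  by_cases hv : IsConj v (τ (ρ * ρ, ρ * ρ))
  · refine .inl fun x y hx hy => ?_
    have : ∀ x : G, orderOf x = 2 → IsConj x (τ (ρ * ρ, ρ * ρ)) := fun x hx =>
      (hc x hx).elim id fun e => e.trans hv
    exact (this x hx).trans (this y hy).symm
  have hρ : ρ ≠ 1 := fun e => r1 (by rw [e, one_mul])
  have v1 : v ≠ 1 := fun e => hρ ((h.cv (a := 1) (b := 1) (c := ρ) (d := 1)).1 (by simp [e, t1]))
  have ov : orderOf v = 2 := orderOf_eq_prime (by rw [pow_two, h.vv]) v1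
  by_cases h8 : 8 ∣ Nat.card K
  swap
  · refine .inr ⟨?_, _, v, orderOf_eq_prime (by rw [pow_two, tm, r2, t1])
      fun e => r1 (h.teq1.1 e).1, ov, fun e => hv e.symm, hc⟩
    obtain ⟨n, hn⟩ := IsPGroup.iff_card.1 hK
    have h4 := h.four
    rw [h.card]
    rw [hn] at h4 h8 ⊢
    rcases n with _ | _ | _ | n
    · omega
    · omega
    · norm_num
    · exact (h8 ⟨2 ^ n, by ring⟩).elim
  exfalso
  obtain ⟨σ, hσ⟩ := r4 h8
  have hw : IsConj v (u * v) :=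
    (cls S h.flip (z := τ (ρ * ρ, ρ * ρ)) (fun a b => hz a b⁻¹) v ov).resolve_left hv
  obtain ⟨g, hg⟩ := isConj_iff.1 hw.symm
  obtain ⟨k, k', e1, e2, e3⟩ := twosyl S hg
  have cv0 : τ (σ, σ) * v = v * τ (σ, σ) := (h.vt ..).symm
  have cw0 : τ (σ, σ⁻¹) * (u * v) = u * v * τ (σ, σ⁻¹) := by
    rw [mul_assoc, h.vt, h.ut', inv_inv]
  obtain ⟨e, f, p1⟩ := h.sq (e2 _ (h.tS σ σ) cv0)
  obtain ⟨e', f', p2⟩ := h.sq (e3 _ (h.tS σ σ⁻¹) cw0)
  rw [cj_mul, tm, hσ] at p1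
  rw [cj_mul, tm, ← mul_inv, hσ] at p2
  have c1 := cj_comm (k := k) (h.vt ρ ρ).symm
  have c2 := cj_comm (k := k') (show τ (ρ, ρ⁻¹) * (u * v) = u * v * τ (ρ, ρ⁻¹) by
    rw [mul_assoc, h.vt, h.ut', inv_inv])
  rw [p1] at c1
  rw [p2, ← e1] at c2
  have o1 : ∀ {k : G} {a b e f : K}, a * a ≠ 1 → a * a * (a * a) = 1 → b * b * (b * b) = 1 →
      k * τ (a, b) * k⁻¹ = τ (e, f) → ¬ (e * e = 1 ∧ f * f = 1) ∧ e * e * (e * e) = 1 := by
    intro k a b e f h1 h2 h3 h4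
    have h5 : k * τ (a * a, b * b) * k⁻¹ = τ (e * e, f * f) := by rw [← tm, ← cj_mul, h4, tm]
    constructor
    · rintro ⟨h6, h7⟩
      rw [h6, h7, t1, cj_one, h.teq1] at h5
      exact h1 h5.1
    · have h6 : τ (e * e * (e * e), f * f * (f * f)) = 1 := by
        rw [← tm, ← h5, cj_mul, tm, h2, h3, t1]; group
      exact (h.teq1.1 h6).1
  have q1 := o1 r1 r2 r2 p1
  have q2 := o1 r1 r2 (by rw [← mul_inv, ← mul_inv, r2, inv_one]) p2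
  have o4 : ∀ {a b : K}, a * a ≠ 1 → a * a * (a * a) = 1 → b * b ≠ 1 → b * b * (b * b) = 1 →
      b = a ∨ b = a⁻¹ := by
    intro a b h1 h2 h3 h4
    have h5 := (r3 _ h2).resolve_left h1
    have h6 := (r3 _ h4).resolve_left h3
    rcases r3 (a * b) (by rw [mul_mul_mul_comm, h5, h6, r2]) with h7 | h7
    · exact .inr (eq_inv_of_mul_eq_one_right h7)
    · exact .inl (mul_left_cancel (h7.trans h5.symm))
  have iu : ∀ a b : K, IsConj (τ (a⁻¹, b⁻¹)) (τ (a, b)) := fun a b =>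
    (isConj_iff.2 ⟨u, by rw [h.ut, mul_inv_cancel_right]⟩).symm
  refine not_cd S h r1 r2 r3 ((p2 ▸ cj k' _ : IsConj (τ (e', f')) _).symm.trans
    (IsConj.trans ?_ (p1 ▸ cj k _ : IsConj (τ (e, f)) _)))
  obtain ⟨a, b, f1 | f1 | f1 | f1⟩ := (h.mem _).1 (e2 v h.vS rfl)
  · refine (hv ((cj k v).symm.trans ?_)).elim
    rw [f1]
    exact hz a b (by rw [← f1, cj_mul, h.vv]; group) (by rw [← f1, Ne, cj_one]; exact v1)
  · rw [f1] at c1; exact (q1.1 (h.cu.1 c1)).elim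
  · rw [f1] at c1 c2
    have g1 := h.cv.1 c1
    have g2 := h.cv.1 c2
    subst g1 g2
    rcases o4 (fun e0 => q1.1 ⟨e0, e0⟩) q1.2 (fun e0 => q2.1 ⟨e0, e0⟩) q2.2 with rfl | rfl
    exacts [IsConj.refl _, iu _ _]
  · rw [f1] at c1 c2
    have g1 := h.cw.1 c1
    have g2 := h.cw.1 c2
    subst g1 g2
    rcases o4 (fun e0 => q1.1 ⟨e0, by rw [← mul_inv, e0, inv_one]⟩) q1.2
      (fun e0 => q2.1 ⟨e0, by rw [← mul_inv, e0, inv_one]⟩) q2.2 with rfl | rfl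
    exacts [IsConj.refl _, iu _ _]

end Cfsg.Agent.H19.Gt
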