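import Mathlib
import Cfsg.Agent.H19.Tr2
import Cfsg.Agent.S5344

/-! # Fischer spaces -/

set_option autoImplicit false

namespace Cfsg.Agent.H19

open Cfsg Subgroup LineSystem

section
variable {X M : Type*}

/-- third-point operations -/
structure PK (op : X → X → X) : Prop where
  idem : ∀ u, op u u = u
  inv : ∀ u v, op u (op u v) = v
  sym : ∀ u v, op u v ≠ v → op v u = op u v

/-- the lines of a third-point operation -/
def kl (op : X → X → X) : Set (Set X) := {l | ∃ u v, op u v ≠ v ∧ l = {u, v, op u v}}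

variable {op : X → X → X} (h : PK op)
include h

theorem PK.ne {u v : X} (n : op u v ≠ v) : u ≠ v ∧ op u v ≠ u :=
  ⟨fun e => n (by rw [e, h.idem]), fun e => n (by
    have := h.inv u v
    rw [e, h.idem] at this
    rw [e, this])⟩

theorem PK.line {l : Set X} (hl : l ∈ kl op) {u v : X} (hu : u ∈ l) (hv : v ∈ l) (ne : u ≠ v) :
    op u v ≠ v ∧ l = {u, v, op u v} := by
  obtain ⟨a, b, n, rfl⟩ := hl
  obtain ⟨n1, n2⟩ := h.ne n
  have e1 := h.sym a b n
  have e2 := h.inv a b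
  have e3 : op b (op a b) = a := by rw [← e1, h.inv]
  have e4 := (h.sym a _ (by rw [e2]; exact n.symm)).trans e2
  have e5 := (h.sym b _ (by rw [e3]; exact n2.symm)).trans e3
  generalize hc : op a b = c at *
  simp only [Set.mem_insert_iff, Set.mem_singleton_iff] at hu hv
  rcases hu with rfl | rfl | rfl <;> rcases hv with rfl | rfl | rfl <;>
    first | exact absurd rfl ne | exact ⟨by grind, by ext; grind⟩

theorem PK.pl : IsPartialLinear (kl op) := fun _ hl _ hm _ _ ne a b c d =>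
  (h.line hl a b ne).2.trans (h.line hm c d ne).2.symm

theorem PK.card {l : Set X} (hl : l ∈ kl op) : l.ncard = 3 := by
  obtain ⟨a, b, n, rfl⟩ := hl
  exact Set.ncard_eq_three.2 ⟨a, b, _, (h.ne n).1, (h.ne n).2.symm, n.symm, rfl⟩

theorem PK.sub_iff {S : Set X} : IsSubspace (kl op) S ↔ ∀ u ∈ S, ∀ v ∈ S, op u v ∈ S := by
  refine ⟨fun k u hu v hv => ?_, fun k l hl u hu v hv ne a b => ?_⟩
  · by_cases n : op u v = v
    · rwa [n]
    · exact k _ ⟨u, v, n, rfl⟩ u hu v hv (h.ne n).1 (by simp) (by simp) (by simp)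
  · rw [(h.line hl a b ne).2]
    rintro _ (rfl | rfl | rfl)
    exacts [hu, hv, k u hu v hv]

omit h in
theorem iso_of_hom {op' : M → M → M} {P : M → X} (inj : Function.Injective P)
    (hP : ∀ u v, P (op' u v) = op (P u) (P v)) :
    Isomorphic (restrict (kl op) (Set.range P)) (kl op') := by
  refine ⟨(Equiv.ofInjective P inj).symm, fun l => ⟨?_, ?_⟩⟩
  · rintro ⟨_, ⟨u, v, n, rfl⟩, s, rfl⟩
    obtain ⟨u, rfl⟩ := s (show u ∈ _ by simp)
    obtain ⟨v, rfl⟩ := s (show v ∈ _ by simp)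
    refine ⟨u, v, fun e => n (by rw [← hP, e]), ?_⟩
    ext w
    rw [Equiv.image_symm_eq_preimage]
    simp [← hP, inj.eq_iff]
  · rintro ⟨u, v, n, e⟩
    refine ⟨_, ⟨P u, P v, fun e => n (inj (by rw [hP, e])), rfl⟩, ?_, ?_⟩
    · rintro _ (rfl | rfl | rfl)
      exacts [⟨u, rfl⟩, ⟨v, rfl⟩, ⟨_, hP u v⟩]
    · ext ⟨_, w, rfl⟩
      have := Set.ext_iff.1 e w
      rw [Equiv.image_symm_eq_preimage] at this
      simpa [← hP, inj.eq_iff] using this

theorem PK.hom_of_iso {op' : M → M → M} (h' : PK op') {S : Set X} (hS : IsSubspace (kl op) S)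
    {e : S ≃ M} (i : IsIso (restrict (kl op) S) (kl op') e) (u v : S) :
    e ⟨op u v, h.sub_iff.1 hS u u.2 v v.2⟩ = op' (e u) (e v) := by
  by_cases n : op u v = v
  · rw [show (⟨op u v, _⟩ : S) = v from Subtype.ext n]
    by_contra k
    obtain ⟨l, hl, -, r⟩ := (i (e.symm '' {e u, e v, op' (e u) (e v)})).2
      ⟨e u, e v, Ne.symm k, by rw [Equiv.image_symm_eq_preimage, Equiv.image_preimage]⟩
    exact (h.line hl (r.le ⟨e u, by simp, by simp⟩) (r.le ⟨e v, by simp, by simp⟩)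
      fun z => (h'.ne (Ne.symm k)).1 (congrArg e (Subtype.ext z))).1 n
  · have k := (i _).1 ⟨_, ⟨u, v, n, rfl⟩, hS _ ⟨u, v, n, rfl⟩ u u.2 v v.2 (h.ne n).1 (by simp) (by simp), rfl⟩
    have ne : e u ≠ e v := fun z => (h.ne n).1 (congrArg Subtype.val (e.injective z))
    have := (h'.line k ⟨u, by simp, rfl⟩ ⟨v, by simp, rfl⟩ ne).2.le
      ⟨⟨op u v, h.sub_iff.1 hS u u.2 v v.2⟩, by simp, rfl⟩
    rcases this with z | z | z
    · exact absurd (congrArg Subtype.val (e.injective z)) (h.ne n).2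
    · exact absurd (congrArg Subtype.val (e.injective z)) n
    · exact z

theorem PK.span_eq {op' : M → M → M} {P : M → X} (hP : ∀ u v, P (op' u v) = op (P u) (P v))
    {a b c : M} (gen : ∀ Q : M → Prop, Q a → Q b → Q c → (∀ u v, Q u → Q v → Q (op' u v)) → ∀ u, Q u) :
    LineSystem.span (kl op) ({P a, P b, op (P a) (P b)} ∪ {P a, P c, op (P a) (P c)}) = Set.range P := by
  refine Set.Subset.antisymm (Set.sInter_subset_of_mem ⟨?_, h.sub_iff.2 ?_⟩) ?_
  · rintro _ ((rfl | rfl | rfl) | rfl | rfl | rfl) <;> simp [← hP]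
  · rintro _ ⟨u, rfl⟩ _ ⟨v, rfl⟩; exact ⟨_, hP u v⟩
  · rintro _ ⟨u, rfl⟩ T ⟨s, hT⟩
    exact gen (fun u => P u ∈ T) (s (by simp)) (s (by simp)) (s (by simp))
      (fun u v a b => by rw [hP]; exact h.sub_iff.1 hT _ a _ b) u

omit h in
theorem span_sub (L : Set (Set X)) (A : Set X) : IsSubspace L (LineSystem.span L A) :=
  fun l hl x hx y hy ne a b _ hz T hT => hT.2 l hl x (hx T hT) y (hy T hT) ne a b hz

omit h in
theorem lineMap_spec {L : Set (Set X)} (x y : X) :
    (lineMap L x y ≠ x ∧ lineMap L x y ≠ y ∧ x ≠ y ∧ {x, y, lineMap L x y} ∈ L) ∨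
      (lineMap L x y = y ∧ ¬ ∃ z : X, z ≠ x ∧ z ≠ y ∧ x ≠ y ∧ ({x, y, z} : Set X) ∈ L) := by
  unfold lineMap
  split_ifs with k
  exacts [.inl k.choose_spec, .inr ⟨rfl, k⟩]

omit h in
theorem lineMap_eq {L : Set (Set X)} (pl : IsPartialLinear L) {x y z : X} (h1 : z ≠ x) (h2 : z ≠ y)
    (h3 : x ≠ y) (h4 : ({x, y, z} : Set X) ∈ L) : lineMap L x y = z := by
  rcases lineMap_spec (L := L) x y with ⟨a, b, -, c⟩ | ⟨-, a⟩
  · have := (pl _ c _ h4 x y h3 (by simp) (by simp) (by simp) (by simp)).le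
      (show lineMap L x y ∈ _ by simp)
    simpa [a, b] using this
  · exact absurd ⟨z, h1, h2, h3, h4⟩ a

omit h in
theorem pk_lineMap {L : Set (Set X)} (pl : IsPartialLinear L) : PK (lineMap L) where
  idem u := by rcases lineMap_spec (L := L) u u with a | a; exacts [absurd rfl a.2.2.1, a.1]
  inv u v := by
    rcases lineMap_spec (L := L) u v with ⟨a, b, c, d⟩ | a
    · exact lineMap_eq pl c.symm b.symm a.symm (by rwa [Set.pair_comm])
    · rw [a.1, a.1]
  sym u v n := by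
    rcases lineMap_spec (L := L) u v with ⟨a, b, c, d⟩ | a
    · exact lineMap_eq pl b a c.symm (by rwa [Set.insert_comm])
    · exact absurd a.1 n

omit h in
theorem kl_lineMap {L : Set (Set X)} (pl : IsPartialLinear L) (h3 : ∀ l ∈ L, l.ncard = 3) :
    kl (lineMap L) = L := by
  ext l
  constructor
  · rintro ⟨u, v, n, rfl⟩
    exact ((lineMap_spec u v).resolve_right fun a => n a.1).2.2.2
  · intro hl
    obtain ⟨x, y, z, a, b, c, rfl⟩ := Set.ncard_eq_three.1 (h3 l hl)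
    have := lineMap_eq pl b.symm c.symm a hl
    exact ⟨x, y, by rw [this]; exact c.symm, by rw [this]⟩
end

/-- the affine plane -/
def opA (u v : Fin 2 → ZMod 3) : Fin 2 → ZMod 3 := -u - v

/-- the dual affine plane -/
def opB (s t : DualAffinePoint) : DualAffinePoint :=
  if h : (symmDiff s.1 t.1).card = 2 then ⟨_, h⟩ else t

theorem pkA : PK opA := ⟨by decide, by decide, by decide⟩
theorem pkB : PK opB := ⟨by decide, by decide, by decide⟩
theorem distA (u v w : Fin 2 → ZMod 3) : opA u (opA v w) = opA (opA u v) (opA u w) := by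
  have : (3 : ZMod 3) • u = 0 := by rw [show (3 : ZMod 3) = 0 from rfl, zero_smul]
  simp only [opA]
  linear_combination (norm := module) -this
theorem distB : ∀ u v w, opB u (opB v w) = opB (opB u v) (opB u w) := by decide

theorem klA : affinePlaneThree = kl opA := by
  have k : ∀ v w : Fin 2 → ZMod 3, {x | ∃ c : ZMod 3, x = v + c • w} = {v, v + w, opA v (v + w)} := by
    intro v w
    ext x
    simp only [Set.mem_ofPred_eq, Set.mem_insert_iff, Set.mem_singleton_iff]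
    revert v w x; decide
  ext l
  constructor
  · rintro ⟨v, w, hw, rfl⟩
    exact ⟨v, v + w, by revert v w; decide, k v w⟩
  · rintro ⟨u, v, n, rfl⟩
    exact ⟨u, v - u, by revert u v; decide, by rw [k, add_sub_cancel]⟩

theorem klB : dualAffinePlaneTwo = kl opB := by
  ext l
  constructor
  · rintro ⟨i, rfl⟩
    obtain ⟨u, v, n, k⟩ : ∃ u v, opB u v ≠ v ∧ ∀ s : DualAffinePoint,
      i ∉ s.1 ↔ s = u ∨ s = v ∨ s = opB u v := by revert i; decide
    exact ⟨u, v, n, Set.ext k⟩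
  · rintro ⟨u, v, n, rfl⟩
    obtain ⟨i, k⟩ : ∃ i, ∀ s : DualAffinePoint,
      s = u ∨ s = v ∨ s = opB u v ↔ i ∉ s.1 := by revert u v; decide
    exact ⟨i, Set.ext k⟩

theorem fischer_dist {X : Type*} {L : Set (Set X)} (hL : IsFischerSpace L) (x u v : X) :
    lineMap L x (lineMap L u v) = lineMap L (lineMap L x u) (lineMap L x v) := by
  have h := pk_lineMap hL.1
  have e := kl_lineMap hL.1 hL.2.1
  set op := lineMap L with hop
  have key : ∀ x u v, op u v ≠ v → op x (op u v) = op (op x u) (op x v) := by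
    intro x u v n
    have hl : {u, v, op u v} ∈ kl op := ⟨u, v, n, rfl⟩
    by_cases hx : x ∈ ({u, v, op u v} : Set X)
    · have e1 := h.sym u v n
      have n2 := (h.ne n).2
      have e3 : op v (op u v) = u := by rw [← e1, h.inv]
      have e4 := (h.sym u _ (by rw [h.inv]; exact n.symm)).trans (h.inv u v)
      have e5 := (h.sym v _ (by rw [e3]; exact n2.symm)).trans e3
      rcases hx with rfl | rfl | rfl
      · rw [h.idem]
      · rw [h.idem, e1, e3, e5]
      · rw [h.idem, e4, e5, e1]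
    by_cases hc : ∃ y ∈ ({u, v, op u v} : Set X), op x y ≠ y
    · obtain ⟨y, hy, n'⟩ := hc
      have hm : {x, y, op x y} ∈ kl op := ⟨x, y, n', rfl⟩
      have s := span_sub (kl op) ({u, v, op u v} ∪ {x, y, op x y})
      have m : ∀ z ∈ ({u, v, op u v} ∪ {x, y, op x y} : Set X), z ∈ LineSystem.span (kl op)
        ({u, v, op u v} ∪ {x, y, op x y}) := fun z hz T hT => hT.1 hz
      have := hL.2.2 _ (e ▸ hl) _ (e ▸ hm) (fun k => hx (k.ge (by simp))) ⟨y, hy, by simp⟩
      rw [← e, klA, klB] at this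
      have c := h.sub_iff.1 s
      have mx := m x (by simp)
      have mu := m u (by simp)
      have mv := m v (by simp)
      rcases this with ⟨i, hi⟩ | ⟨i, hi⟩
      · have := distB (i ⟨x, mx⟩) (i ⟨u, mu⟩) (i ⟨v, mv⟩)
        simp only [← h.hom_of_iso pkB s hi] at this
        exact congrArg Subtype.val (i.injective this)
      · have := distA (i ⟨x, mx⟩) (i ⟨u, mu⟩) (i ⟨v, mv⟩)
        simp only [← h.hom_of_iso pkA s hi] at this
        exact congrArg Subtype.val (i.injective this)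
    · push Not at hc
      rw [hc u (by simp), hc v (by simp), hc _ (by simp)]
  by_cases n : op u v = v
  · by_contra k
    have := key x (op x u) (op x v) (by rw [n] at k; exact Ne.symm k)
    rw [h.inv, h.inv, n] at this
    exact k (by rw [n, ← h.inv x (op (op x u) (op x v)), this])
  · exact key x u v n

variable {G : Type*} [Group G]

/-- the Heisenberg relations -/
theorem heis {x y : G} (hx : x ^ 3 = 1) (h1 : (x * y) ^ 3 = 1) (h2 : (x⁻¹ * y) ^ 3 = 1) :
    Commute y (x * y * x⁻¹) := by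
  have e1 : y * x * y = x⁻¹ * y⁻¹ * x⁻¹ := by
    calc _ = x⁻¹ * (x * y) ^ 3 * (y⁻¹ * x⁻¹) := by simp only [pow_succ]; group
    _ = _ := by rw [h1]; group
  have e2 : y * x⁻¹ * y = x * y⁻¹ * x := by
    calc _ = x * (x⁻¹ * y) ^ 3 * (y⁻¹ * x) := by simp only [pow_succ]; group
    _ = _ := by rw [h2]; group
  calc y * (x * y * x⁻¹) = (y * x * y) * x⁻¹ := by group
    _ = x⁻¹ * y⁻¹ * x * (x ^ 3)⁻¹ := by rw [e1]; group
    _ = x ^ 3 * (x⁻¹ * y⁻¹ * x) := by rw [hx]; group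
    _ = x * (y * x⁻¹ * y) := by
      simp only [e2, pow_succ, pow_zero, one_mul, mul_assoc, mul_inv_cancel_left]
    _ = _ := by group

/-- three points in general position generate an affine plane -/
theorem T3.plane {D : Set G} (t : T3 D) (c : Cl D) {a b d : G} (ha : a ∈ D) (hb : b ∈ D) (hd : d ∈ D)
    (ab : ¬ Commute a b) (ad : ¬ Commute a d) (bd : ¬ Commute b d) (n : ¬ Commute (J a b) d) :
    ∃ P : (Fin 2 → ZMod 3) → G, (∀ u, P u ∈ D) ∧ Function.Injective P ∧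
      (∀ u v, P (opA u v) = J (P u) (P v)) ∧ P 0 = a ∧ P ![1, 0] = b ∧ P ![0, 1] = d := by
  have x3 := t.cube ha hb ab
  have y3 := t.cube ha hd ad
  have h1 : (a * b * (a * d)) ^ 3 = 1 := by
    have := t.cube (c a ha b hb) hd n
    rwa [t.J_eq ha, mul_assoc] at this
  have h2 : ((a * b)⁻¹ * (a * d)) ^ 3 = 1 := by
    rw [mul_inv_rev, t.inv hb, mul_assoc, inv_mul_cancel_left]; exact t.cube hb hd bd
  have ia : J a (a * b) = (a * b)⁻¹ := by
    rw [t.J_eq ha, mul_inv_rev, t.inv ha, t.inv hb, t.cancel ha]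
  have id : J a (a * d) = (a * d)⁻¹ := by
    rw [t.J_eq ha, mul_inv_rev, t.inv ha, t.inv hd, t.cancel ha]
  have pb : J (a * b) a = b := by rw [J_mul, ← t.br a ha b hb ab, t.JJ ha]
  have pd : J (a * d) a = d := by rw [J_mul, ← t.br a ha d hd ad, t.JJ ha]
  have mx : a * b ∈ closure D := mul_mem (subset_closure ha) (subset_closure hb)
  have my : a * d ∈ closure D := mul_mem (subset_closure ha) (subset_closure hd)
  generalize hx : a * b = x at *
  generalize hy : a * d = y at *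
  have c1 := heis x3 h1 h2
  have c2 := heis (x := y) (y := x) y3 (by
    rw [← J_one (_ ^ 3), ← inv_mul_cancel x, J_mul, J_def x, ← conj_pow,
      show x * (y * x) * x⁻¹ = x * y by group, h1]; simp [J]) (by
    rw [← inv_eq_one, ← inv_pow, mul_inv_rev, inv_inv, h2])
  let z := x * y * x⁻¹ * y⁻¹
  have zy : Commute y z := c1.mul_right (Commute.refl y).inv_right
  have zx : Commute x z := by
    have := (Commute.refl x).mul_right c2.inv_right
    rwa [show x * (y * x * y⁻¹)⁻¹ = z by simp only [z]; group] at this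
  have za : Commute a z := by
    rw [← J_eq_self]
    simp only [z, J_map_mul, J_map_inv, ia, id, inv_inv]
    calc _ = x⁻¹ * (y⁻¹ * (z * y)) * x := by simp only [z]; group
    _ = x⁻¹ * (z * x) := by rw [← zy.eq]; group
    _ = _ := by rw [← zx.eq, inv_mul_cancel_left]
  let K := centralizer ({z} : Set G)
  have aK : a ∈ K := mem_centralizer_singleton_iff.2 za
  have xK : x ∈ K := mem_centralizer_singleton_iff.2 zx
  have yK : y ∈ K := mem_centralizer_singleton_iff.2 zy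
  have s1 : ∀ k ∈ K, J x (J y k) = J y (J x k) := fun k hk => by
    rw [← J_mul, ← J_mul, show x * y = z * (y * x) by simp only [z]; group, J_mul,
      J_of_commute (mem_centralizer_singleton_iff.1 (J_mem (mul_mem yK xK) hk)).symm]
  have s2 : ∀ g ∈ zpowers x, ∀ g' ∈ zpowers y, ∀ k ∈ K, J g (J g' k) = J g' (J g k) := by
    have st : ∀ {u v : G}, u ∈ K → v ∈ K → (∀ k ∈ K, J u (J v k) = J v (J u k)) → ∀ g ∈ zpowers u,
        ∀ k ∈ K, J g (J v k) = J v (J g k) := by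
      intro u v hu hv s g hg
      let T : Subgroup G :=
        { carrier := {g | g ∈ K ∧ ∀ k ∈ K, J g (J v k) = J v (J g k)}
          one_mem' := ⟨one_mem _, by simp⟩
          mul_mem' := fun {a b} ha hb => ⟨mul_mem ha.1 hb.1, fun k hk => by
            rw [J_mul, hb.2 k hk, ha.2 _ (J_mem hb.1 hk), J_mul]⟩
          inv_mem' := fun {a} ha => ⟨inv_mem ha.1, fun k hk => J_injective a (by
            rw [ha.2 _ (J_mem (inv_mem ha.1) hk), ← J_mul a, ← J_mul a, mul_inv_cancel, J_one,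
              J_one])⟩ }
      exact ((zpowers_le (H := T)).2 ⟨hu, s⟩ hg).2
    intro g hg g' hg' k hk
    exact (st yK (zpowers_le.2 xK hg) (fun k hk => (st xK yK s1 g hg k hk).symm) g' hg' k hk).symm
  let p : ℤ → ℤ → G := fun i j => J (x ^ i) (J (y ^ j) a)
  have ja : ∀ {u : G}, J a u = u⁻¹ → ∀ (i : ℤ) w, J a (J (u ^ i) w) = J (u ^ (-i)) (J a w) := by
    intro u hu i w
    rw [← J_J, J_def a (u ^ i), ← conj_zpow, ← J_def, hu, inv_zpow']
  have pp : ∀ i j k l, J (p i j) (p k l) = p (2 * i - k) (2 * j - l) := by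
    intro i j k l
    have e : J (x ^ k) (J (y ^ l) a) = J (x ^ i) (J (y ^ j) (J (y ^ (-j)) (J (x ^ (k - i))
        (J (y ^ l) a)))) := by
      rw [← J_mul (y ^ j), ← zpow_add, add_neg_cancel, zpow_zero, J_one, ← J_mul (x ^ i), ← zpow_add,
        add_sub_cancel]
    simp only [p]
    rw [e, J_J, J_J, ja id, ja ia, ja id, J_of_commute (Commute.refl a), ← J_mul (y ^ j), ← zpow_add,
      ← s2 _ (zpow_mem_zpowers _ _) _ (zpow_mem_zpowers _ _) _ (J_mem (zpow_mem yK _) aK),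
      ← J_mul, ← J_mul (y ^ _), ← zpow_add, ← zpow_add]
    rw [show i + -(k - i) = 2 * i - k by ring, show j + - -j + -l = 2 * j - l by ring]
  have per : ∀ {u : G}, u ^ 3 = 1 → ∀ i j : ℤ, (i : ZMod 3) = j → u ^ i = u ^ j := by
    intro u hu i j e
    obtain ⟨r, hr⟩ := (ZMod.intCast_eq_intCast_iff_dvd_sub i j 3).1 e
    rw [show j = i + 3 * r by push_cast at hr; omega, zpow_add, zpow_mul, zpow_ofNat, hu, one_zpow,
      mul_one]
  let P : (Fin 2 → ZMod 3) → G := fun u => p (u 0).val (u 1).val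
  have hom : ∀ u v, P (opA u v) = J (P u) (P v) := fun u v => by
    simp only [P, pp]
    simp only [p]
    have : ∀ r s : ZMod 3, (((-r - s).val : ℤ) : ZMod 3) = (2 * (r.val : ℤ) - s.val : ℤ) := by decide
    rw [← per x3 _ _ (this (u 0) (v 0)), ← per y3 _ _ (this (u 1) (v 1))]
    rfl
  have p0 : P 0 = a := by simp [P, p]
  have p1 : P ![1, 0] = b := by
    show J (x ^ (1 : ℤ)) (J (y ^ (0 : ℤ)) a) = b
    simpa using pb
  have p2 : P ![0, 1] = d := by
    show J (x ^ (0 : ℤ)) (J (y ^ (1 : ℤ)) a) = d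
    simpa using pd
  have mem : ∀ u, P u ∈ D := fun u => c.J_mem t (zpow_mem mx _) _ (c.J_mem t (zpow_mem my _) _ ha)
  refine ⟨P, mem, fun u v e => ?_, hom, p0, p1, p2⟩
  have cl : ∀ u v u' v', P u = P v → P u' = P v' → P (opA u u') = P (opA v v') :=
    fun u v u' v' a b => by rw [hom, hom, a, b]
  have tr : ∀ w, P (u + w) = P (v + w) := fun w => by
    have := cl _ _ _ _ (rfl : P (-w) = _) (cl _ _ _ _ (rfl : P 0 = _) e)
    simpa [opA, add_comm] using this
  by_contra ne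
  have k : ∃ w, opA (u + w) (v + w) = 0 ∧ (u + w = ![1, 0] ∨ u + w = ![0, 1]) ∨
      u + w = ![1, 0] ∧ v + w = ![0, 1] ∨ v + w = ![1, 0] ∧ u + w = ![0, 1] ∨
      u + w = opA 0 ![1, 0] ∧ v + w = ![0, 1] ∨ v + w = opA 0 ![1, 0] ∧ u + w = ![0, 1] ∨
      opA (u + w) (v + w) = 0 ∧ (v + w = ![1, 0] ∨ v + w = ![0, 1]) := by
    clear e tr; revert u v; decide
  obtain ⟨w, k⟩ := k
  have e1 := tr w
  have e2 := hom (u + w) (v + w)
  have e3 := hom 0 ![1, 0]
  rw [← e1, J_of_commute (Commute.refl _)] at e2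
  rw [p0, p1] at e3
  rcases k with ⟨k, r | r⟩ | ⟨k, r⟩ | ⟨k, r⟩ | ⟨k, r⟩ | ⟨k, r⟩ | ⟨k, r | r⟩
  · rw [k, r, p0, p1] at e2; exact ab (e2 ▸ Commute.refl _)
  · rw [k, r, p0, p2] at e2; exact ad (e2 ▸ Commute.refl _)
  · rw [k, r, p1, p2] at e1; exact bd (e1 ▸ Commute.refl _)
  · rw [k, r, p1, p2] at e1; exact bd (e1 ▸ Commute.refl _)
  · rw [k, r, e3, p2] at e1; exact n (e1 ▸ Commute.refl _)
  · rw [k, r, e3, p2] at e1; exact n (e1 ▸ Commute.refl _)
  · rw [k, e1, r, p0, p1] at e2; exact ab (e2 ▸ Commute.refl _)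
  · rw [k, e1, r, p0, p2] at e2; exact ad (e2 ▸ Commute.refl _)

/-- the transposition of a two-element set -/
def swB (s : DualAffinePoint) : Equiv.Perm (Fin 4) :=
  Equiv.swap (s.1.min' (Finset.card_pos.1 (by rw [s.2]; decide)))
    (s.1.max' (Finset.card_pos.1 (by rw [s.2]; decide)))

theorem T3.dual {D : Set G} (t : T3 D) (c : Cl D) {a b d : G} (ha : a ∈ D) (hb : b ∈ D) (hd : d ∈ D)
    (ab : ¬ Commute a b) (ad : ¬ Commute a d) (bd : Commute b d) (n : b ≠ d) :
    ∃ P : DualAffinePoint → G, (∀ u, P u ∈ D) ∧ Function.Injective P ∧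
      (∀ u v, P (opB u v) = J (P u) (P v)) ∧ P ⟨{1, 2}, rfl⟩ = a ∧ P ⟨{0, 1}, rfl⟩ = b ∧
      P ⟨{2, 3}, rfl⟩ = d := by
  obtain ⟨φ, inj, e1, e2, e3⟩ := S5344.result (t3_iff.2 t) hb ha hd n bd (fun k => ab k.symm) ad
  have hom : ∀ u v, φ (swB (opB u v)) = J (φ (swB u)) (φ (swB v)) := fun u v => by
    rw [← map_J]; congr 1; revert u v; unfold J; decide
  refine ⟨fun s => φ (swB s), ?_, inj.comp (by decide), hom, e2, e1, e3⟩
  have : ∀ s : DualAffinePoint, s = ⟨{1, 2}, rfl⟩ ∨ s = ⟨{0, 1}, rfl⟩ ∨ s = ⟨{2, 3}, rfl⟩ ∨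
    s = opB ⟨{1, 2}, rfl⟩ ⟨{0, 1}, rfl⟩ ∨ s = opB ⟨{1, 2}, rfl⟩ ⟨{2, 3}, rfl⟩ ∨
    s = opB ⟨{0, 1}, rfl⟩ (opB ⟨{1, 2}, rfl⟩ ⟨{2, 3}, rfl⟩) := by decide
  have h1 : φ (swB ⟨{1, 2}, rfl⟩) ∈ D := (e2 ▸ ha : φ (Equiv.swap 1 2) ∈ D)
  have h2 : φ (swB ⟨{0, 1}, rfl⟩) ∈ D := (e1 ▸ hb : φ (Equiv.swap 0 1) ∈ D)
  have h3 : φ (swB ⟨{2, 3}, rfl⟩) ∈ D := (e3 ▸ hd : φ (Equiv.swap 2 3) ∈ D)
  intro s
  rcases this s with rfl | rfl | rfl | rfl | rfl | rfl <;> simp only [hom]
  exacts [h1, h2, h3, c _ h1 _ h2, c _ h1 _ h3, c _ h2 _ (c _ h1 _ h3)]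

/-- conjugation on the points -/
def opD {D : Set G} (c : Cl D) (x y : D) : D := ⟨J x y, c x x.2 y y.2⟩

theorem pkD {D : Set G} (t : T3 D) (c : Cl D) : PK (opD c) where
  idem u := Subtype.ext (J_of_commute (Commute.refl _))
  inv u _ := Subtype.ext (t.JJ u.2 _)
  sym u v n := Subtype.ext (t.br _ u.2 _ v.2 fun k => n (Subtype.ext (J_of_commute k))).symm

theorem klD {D : Set G} (t : T3 D) (c : Cl D) : threeTranspositionLines D = kl (opD c) := by
  ext l
  refine exists_congr fun x => exists_congr fun y => ?_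
  have : ¬ Commute (x : G) y ↔ opD c x y ≠ y := by
    rw [← J_eq_self, Ne, Subtype.ext_iff]; rfl
  rw [← this]
  refine and_congr_right fun n => ?_
  rw [← J_def, ← t.br _ x.2 _ y.2 n]
  refine Eq.congr_right ?_
  ext z
  simp [Subtype.ext_iff, opD]

theorem fischer_of {D : Set G} (t : T3 D) (c : Cl D) : IsFischerSpace (threeTranspositionLines D) := by
  have h := pkD t c
  rw [klD t c]
  refine ⟨h.pl, fun l => h.card, ?_⟩
  have cm : ∀ x y : D, opD c x y ≠ y ↔ ¬ Commute (x : G) y := fun x y => by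
    rw [← J_eq_self, Ne, Subtype.ext_iff]; rfl
  have dual : ∀ a b d : D, opD c a b ≠ b → opD c a d ≠ d → b ≠ d → Commute (b : G) d →
      Isomorphic (restrict (kl (opD c)) (LineSystem.span (kl (opD c))
        ({a, b, opD c a b} ∪ {a, d, opD c a d}))) dualAffinePlaneTwo := by
    intro a b d h1 h2 h3 h4
    obtain ⟨P, m, inj, hom, e1, e2, e3⟩ := t.dual c a.2 b.2 d.2 ((cm _ _).1 h1) ((cm _ _).1 h2) h4
      (Subtype.coe_injective.ne h3)
    let P' : DualAffinePoint → D := fun s => ⟨P s, m s⟩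
    have hom' : ∀ u v, P' (opB u v) = opD c (P' u) (P' v) := fun u v => Subtype.ext (hom u v)
    rw [show a = P' _ from Subtype.ext e1.symm, show b = P' _ from Subtype.ext e2.symm,
      show d = P' _ from Subtype.ext e3.symm, h.span_eq hom', klB]
    · exact iso_of_hom (fun _ _ e => inj (congrArg Subtype.val e)) hom'
    · intro Q h1 h2 h3 k s
      have : ∀ s : DualAffinePoint, s = ⟨{1, 2}, rfl⟩ ∨ s = ⟨{0, 1}, rfl⟩ ∨ s = ⟨{2, 3}, rfl⟩ ∨
        s = opB ⟨{1, 2}, rfl⟩ ⟨{0, 1}, rfl⟩ ∨ s = opB ⟨{1, 2}, rfl⟩ ⟨{2, 3}, rfl⟩ ∨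
        s = opB ⟨{0, 1}, rfl⟩ (opB ⟨{1, 2}, rfl⟩ ⟨{2, 3}, rfl⟩) := by decide
      rcases this s with rfl | rfl | rfl | rfl | rfl | rfl
      exacts [h1, h2, h3, k _ _ h1 h2, k _ _ h1 h3, k _ _ h2 (k _ _ h1 h3)]
  rintro l hl m hm ne ⟨a, al, am⟩
  obtain ⟨b, bl, ab⟩ := Set.exists_ne_of_one_lt_ncard (s := l) (by rw [h.card hl]; decide) a
  obtain ⟨d, dm, ad⟩ := Set.exists_ne_of_one_lt_ncard (s := m) (by rw [h.card hm]; decide) a
  obtain ⟨n1, e1⟩ := h.line hl al bl ab.symm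
  obtain ⟨n2, e2⟩ := h.line hm am dm ad.symm
  have dl : d ∉ l := fun k => ne (h.pl _ hl _ hm a d ad.symm al k am dm)
  by_cases c1 : Commute (b : G) d
  · rw [e1, e2]; exact .inl (dual a b d n1 n2 (fun k => dl (k ▸ bl)) c1)
  by_cases c2 : Commute (J (a : G) b) d
  · have bl' : opD c a b ∈ l := e1.ge (by simp)
    obtain ⟨n3, e3⟩ := h.line hl al bl' (h.ne n1).2.symm
    rw [e3, e2]; exact .inl (dual a _ d n3 n2 (fun k => dl (k ▸ bl')) c2)
  right
  obtain ⟨P, m, inj, hom, p1, p2, p3⟩ := t.plane c a.2 b.2 d.2 ((cm _ _).1 n1) ((cm _ _).1 n2) c1 c2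
  let P' : (Fin 2 → ZMod 3) → D := fun s => ⟨P s, m s⟩
  have hom' : ∀ u v, P' (opA u v) = opD c (P' u) (P' v) := fun u v => Subtype.ext (hom u v)
  rw [e1, e2, show a = P' _ from Subtype.ext p1.symm, show b = P' _ from Subtype.ext p2.symm,
    show d = P' _ from Subtype.ext p3.symm, h.span_eq hom', klA]
  · exact iso_of_hom (fun _ _ e => inj (congrArg Subtype.val e)) hom'
  · intro Q h1 h2 h3 k s
    have : ∀ s : Fin 2 → ZMod 3, ∃ u, (u = 0 ∨ u = ![1, 0] ∨ u = opA 0 ![1, 0]) ∧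
      (s = u ∨ s = opA u ![0, 1] ∨ s = opA u (opA 0 ![0, 1])) := by decide
    obtain ⟨u, hu, hs⟩ := this s
    have : Q u := by
      rcases hu with rfl | rfl | rfl
      exacts [h1, h2, k _ _ h1 h2]
    rcases hs with rfl | rfl | rfl
    exacts [this, k _ _ this h3, k _ _ this (k _ _ h1 h3)]

end Cfsg.Agent.H19
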