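import Mathlib
import Cfsg.Agent.H19.Mod1

/-! # Reflection groups over the field with three elements -/

set_option autoImplicit false

namespace Cfsg.Agent.H19

open Cfsg Cfsg.Agent.H11 Subgroup Module

theorem TG.pkg {G : Type*} [Group G] [Finite G] {D : Set G} (h : TG D) (t : Trans D)
    (ns : ¬ Group.IsSolvable G) (hN : ∀ N : Subgroup G, N.Normal → N ≤ center G ∨ commutator G ≤ N) :
    IsQuasisimple (commutator G) ∧ (commutator G).index ≤ 2 ∧
      generalizedFittingSubgroup G = center G ⊔ commutator G ∧ IsPrimitiveUnderConj D := by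
  have p := h.pg_of_commutator t ns hN
  obtain ⟨L, n, q, e⟩ := h.exists_L t p.two p.O2 p.O3
  obtain ⟨d, hd, -⟩ := p.two
  have pf : ⁅L, L⁆ = L := by
    have := congrArg (Subgroup.map L.subtype) q.1.commutator_eq_top
    rwa [_root_.commutator_def, Subgroup.map_commutator, ← MonoidHom.range_eq_map,
      Subgroup.range_subtype] at this
  have : L = commutator G := by
    refine le_antisymm (pf.ge.trans (commutator_mono le_top le_top)) ((hN L n).resolve_left fun z => ?_)
    exact H2.not_le_centralizer_of_isQuasisimple q fun x hx y _ => (mem_center_iff.1 (z hx) y)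
  subst this
  exact ⟨q, index_le_two_of_sup (h.sq d hd) (h.sup_commutator t hd), by rw [e, sup_comm], p.prim⟩

theorem z3 (a : ZMod 3) (ha : a ≠ 0) : a = 1 ∨ a = -1 := by revert a; decide

section
variable {V : Type*} [AddCommGroup V] [Module (ZMod 3) V] {B : V →ₗ[ZMod 3] V →ₗ[ZMod 3] ZMod 3}
  {Q : V → ZMod 3} (h : IsQuad B Q)

/-- the reflections in the vectors of norm `c` -/
def R3 (c : ZMod 3) : Set (Isom B Q) := {g | ∃ v, Q v = c ∧ g = h.reflO v}

theorem refl_neg (v : V) : h.reflO (-v) = h.reflO v := by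
  rw [← neg_one_smul (ZMod 3), h.reflO_smul (by decide)]

theorem refl_inj {u v : V} (hu : Q u ≠ 0) (e : h.reflO u = h.reflO v) : u = v ∨ u = -v := by
  have k := h.reflO_self hu
  rw [e, h.reflO_apply] at k
  generalize (Q v)⁻¹ * B v u = a at k
  have k' : u = (2 * a) • v := by
    rw [mul_smul, show a • v = (2 : ZMod 3) • u by rw [two_smul, ← sub_neg_eq_add, ← k, sub_sub_cancel],
      smul_smul, show (2 * 2 : ZMod 3) = 1 from rfl, one_smul]
  by_cases z : 2 * a = 0
  · exact absurd (by rw [k', z, h.smul']; simp) hu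
  rcases z3 _ z with z | z <;> rw [z] at k'
  · exact Or.inl (by simpa using k')
  · exact Or.inr (by simpa using k')

theorem J_refl (u v : V) :
    J (h.reflO u) (h.reflO v) = h.reflO (v - ((Q u)⁻¹ * B u v) • u) := by
  rw [← h.reflO_apply]; exact h.conj_reflO _ _

theorem refl_commute_iff {u v : V} (hu : Q u ≠ 0) (hv : Q v ≠ 0) :
    Commute (h.reflO u) (h.reflO v) ↔ B u v = 0 ∨ v = u ∨ v = -u := by
  constructor
  · intro c
    rw [← J_eq_self, J_refl] at c
    by_cases z : B u v = 0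
    · exact .inl z
    have z' := mul_ne_zero (inv_ne_zero hu) z
    right
    generalize (Q u)⁻¹ * B u v = a at c z'
    have u0 : u ≠ 0 := fun e => hu (by rw [e, h.map_zero])
    rcases refl_inj h hv c.symm with e | e
    · simp [eq_sub_iff_add_eq, z', u0] at e
    · have : v = (-a) • u := by
        have t : (3 : ZMod 3) • v = 0 := by rw [show (3 : ZMod 3) = 0 from rfl, zero_smul]
        linear_combination (norm := module) -e + t
      rcases z3 a z' with k | k <;> simp [this, k]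
  · rintro (e | rfl | rfl)
    · rw [← J_eq_self, J_refl, e]; simp
    · exact Commute.refl _
    · rw [refl_neg]

theorem t3_R3 {c : ZMod 3} (hc : c ≠ 0) : T3 (R3 h c) where
  sq := by rintro _ ⟨v, -, rfl⟩; exact h.reflO_mul_self v
  ne := by
    rintro _ ⟨v, hv, rfl⟩ e
    have := h.reflO_self (hv ▸ hc)
    rw [e] at this
    have t : (3 : ZMod 3) • v = 0 := by rw [show (3 : ZMod 3) = 0 from rfl, zero_smul]
    have : v = 0 := by
      have e : v = -v := this
      linear_combination (norm := module) t - e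
    exact hc (by rw [← hv, this, h.map_zero])
  br := by
    rintro _ ⟨u, hu, rfl⟩ _ ⟨v, hv, rfl⟩ n
    rw [refl_commute_iff h (hu ▸ hc) (hv ▸ hc), not_or] at n
    rw [J_refl, J_refl, hu, hv, h.comm v u]
    rcases z3 _ (mul_ne_zero (inv_ne_zero hc) n.1) with k | k <;> rw [k]
    · rw [← refl_neg]; simp
    · simp [add_comm]

theorem conj_R3 {c : ZMod 3} (g : Isom B Q) : ∀ d ∈ R3 h c, J g d ∈ R3 h c := by
  rintro _ ⟨v, hv, rfl⟩; exact ⟨_, (g.2.2 v).trans hv, h.conj_reflO g v⟩

variable {h} [FiniteDimensional (ZMod 3) V] (hB : B.SeparatingLeft)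
include hB

theorem exists_perp2 (h : IsQuad B Q) (hn : 4 ≤ finrank (ZMod 3) V) {u v : V} (hu : Q u ≠ 0)
    (hv : Q v ≠ 0 ∨ v = 0) (huv : B u v = 0) (c : ZMod 3) : ∃ y, B u y = 0 ∧ B v y = 0 ∧ Q y = c := by
  have nd : NondegOn B (Submodule.span (ZMod 3) {u, v}) := by
    intro x hx k
    obtain ⟨a, b, rfl⟩ := Submodule.mem_span_pair.1 hx
    have k1 := k u (Submodule.subset_span (by simp))
    have k2 := k v (Submodule.subset_span (by simp))
    simp only [map_add, map_smul, LinearMap.add_apply, LinearMap.smul_apply, smul_eq_mul, huv,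
      h.comm v u, h.diag', mul_zero, add_zero, zero_add, mul_eq_zero, hu, or_false,
      show (2 : ZMod 3) ≠ 0 by decide, false_or] at k1 k2
    rcases hv with hv | rfl
    · simp [k1, k2.resolve_right hv]
    · simp [k1]
  have d1 := h.finrank_perp hB (Submodule.span (ZMod 3) {u, v})
  have d2 : finrank (ZMod 3) (Submodule.span (ZMod 3) {u, v}) ≤ 2 := by
    classical
    have := finrank_span_finset_le_card (R := ZMod 3) ({u, v} : Finset V)
    rw [Set.finrank, Finset.coe_pair] at this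
    exact this.trans Finset.card_le_two
  obtain ⟨y, hy⟩ := IsQuad.exists_eq (h.restrict _) (nondegOn_iff.1 (h.nondegOn_perp hB nd))
    (by omega) c
  exact ⟨y, mem_perp_span.1 y.2 u (by simp), mem_perp_span.1 y.2 v (by simp), hy⟩

variable (hn : 5 ≤ finrank (ZMod 3) V) {c : ZMod 3} (hc : c ≠ 0)
include hn hc

theorem nb_R3 {u v : V} (hu : Q u = c) (hv : Q v = c) (huv : B u v = 0) :
    ∃ w, Q w = c ∧ ¬ Commute (h.reflO u) (h.reflO w) ∧ ¬ Commute (h.reflO v) (h.reflO w) := by
  obtain ⟨y, h1, h2, h3⟩ := exists_perp2 hB h (by omega) (hu ▸ hc) (.inl (hv ▸ hc)) huv (-c)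
  have q : Q (u + v + y) = c := by
    rw [h.add', h.add', map_add, LinearMap.add_apply, hu, hv, huv, h1, h2, h3]; ring
  have b1 : B u (u + v + y) ≠ 0 := by
    rw [map_add, map_add, huv, h1, h.diag', hu]
    simpa [show (2 : ZMod 3) ≠ 0 by decide] using hc
  have b2 : B v (u + v + y) ≠ 0 := by
    rw [map_add, map_add, h.comm v u, huv, h2, h.diag', hv]
    simpa [show (2 : ZMod 3) ≠ 0 by decide] using hc
  refine ⟨_, q, ?_, ?_⟩ <;> rw [refl_commute_iff h (by simp [*]) (by simp [*])] <;>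
    rintro (e | e | e)
  · exact b1 e
  · exact b2 (by rw [e, h.comm, huv])
  · exact b2 (by rw [e, map_neg, h.comm, huv, neg_zero])
  · exact b2 e
  · exact b1 (by rw [e, huv])
  · exact b1 (by rw [e, map_neg, huv, neg_zero])

theorem cn_R3 {x y : Isom B Q} (hx : x ∈ R3 h c) (hy : y ∈ R3 h c) : Cn (R3 h c) x y := by
  have t := t3_R3 h hc
  by_cases k : Commute x y
  swap
  · exact t.cn_of_not_commute le_rfl hx hy k
  obtain ⟨u, hu, rfl⟩ := hx
  obtain ⟨v, hv, rfl⟩ := hy
  rcases (refl_commute_iff h (hu ▸ hc) (hv ▸ hc)).1 k with e | rfl | rfl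
  · obtain ⟨w, hw, n1, n2⟩ := nb_R3 (h := h) hB hn hc hu hv e
    exact (t.cn_of_not_commute le_rfl ⟨u, hu, rfl⟩ ⟨w, hw, rfl⟩ n1).trans
      (t.cn_of_not_commute le_rfl ⟨v, hv, rfl⟩ ⟨w, hw, rfl⟩ n2).symm
  · exact Cn.refl _ _
  · rw [refl_neg]; exact Cn.refl _ _

theorem exn_R3 : ∃ x ∈ R3 h c, ∃ y ∈ R3 h c, ¬ Commute x y := by
  obtain ⟨u, hu⟩ := h.exists_eq hB (by omega) c
  obtain ⟨v, h1, -, hv⟩ := exists_perp2 hB h (by omega) (hu ▸ hc) (.inr rfl) (map_zero _) c
  obtain ⟨w, hw, n, -⟩ := nb_R3 (h := h) hB hn hc hu hv h1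
  exact ⟨_, ⟨u, hu, rfl⟩, _, ⟨w, hw, rfl⟩, n⟩

theorem class_R3 : IsThreeTranspositionClass (sub (R3 h c)) := by
  obtain ⟨x, hx, -⟩ := exn_R3 (h := h) hB hn hc
  refine tclass_iff.2 ⟨sub_tg (t3_R3 h hc) fun a _ => conj_R3 h a, fun a ha b hb => ?_,
    ⟨⟨x, subset_closure hx⟩, hx⟩⟩
  obtain ⟨g, hg, e⟩ := cn_R3 hB hn hc ha hb
  exact ⟨⟨g, hg⟩, Subtype.ext e⟩

omit hn in
theorem mul_mem_om {x y : Isom B Q} (hx : x ∈ R3 h c) (hy : y ∈ R3 h c) :
    x * y ∈ commutator (Isom B Q) := by
  obtain ⟨u, hu, rfl⟩ := hx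
  obtain ⟨v, hv, rfl⟩ := hy
  simpa using (h.prod_mem_commutator_iff hB (h.nonExc_of_two_ne_zero hB (by decide)) [u, v]
    (by simp [hu, hv, hc])).2 ⟨by simp, c, by simp [hu, hv]⟩

/-- a subgroup normalised by `Ω` -/
theorem om_cases (N : Subgroup (Isom B Q)) (hN : ∀ g ∈ commutator (Isom B Q), ∀ n ∈ N, J g n ∈ N) :
    commutator (Isom B Q) ≤ N ∨ ∀ x ∈ R3 h c, ∀ y ∈ R3 h c, x * y ∈ N → x = y := by
  rcases h.normal_commutator_cases hB hn (N.subgroupOf _) ⟨fun n k g => hN g g.2 n k⟩ with k | k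
  · refine .inr fun x hx y hy m => ?_
    by_contra ne
    obtain ⟨a, ha, b, hb, n⟩ := exn_R3 (h := h) hB hn hc
    have z : ∀ g, Commute g (x * y) := fun g => by
      rcases (h.mem_center_commutator_iff hB (h.nonExc_of_two_ne_zero hB (by decide)) (by omega)
        ⟨_, mul_mem_om hB hc hx hy⟩).1 (k m) with e | e <;> rw [show x * y = _ from e]
      exacts [Commute.one_right _, h.negI_comm _]
    have c1 := fun e he => ((t3_R3 h hc).commute_mul hx hy he ne (z e)).1
    obtain ⟨g, hg, rfl⟩ := cn_R3 hB hn hc hx ha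
    rw [J_of_commute (commute_of_mem_closure (fun s hs => (c1 s hs).symm) hg).symm] at n
    exact n (c1 b hb).symm
  · exact .inl (subgroupOf_eq_top.1 k)

theorem om_le : commutator (Isom B Q) ≤ closure (R3 h c) := by
  have := normal_closure_conj (conj_R3 (c := c) h)
  refine (om_cases (h := h) hB hn hc _ fun g _ n k => J_mem_normal g k).resolve_right fun k => ?_
  obtain ⟨a, ha, b, hb, n⟩ := exn_R3 (h := h) hB hn hc
  exact n (k a ha b hb (mul_mem (subset_closure ha) (subset_closure hb)) ▸ Commute.refl _)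

theorem cases_R3 (N : Subgroup (closure (R3 h c))) (hN : N.Normal) :
    N ≤ center _ ∨ commutator _ ≤ N := by
  have tg := (tclass_iff.1 (class_R3 (h := h) hB hn hc)).1
  rcases om_cases (h := h) hB hn hc (N.map (closure (R3 h c)).subtype) (by
    rintro g hg _ ⟨n, k, rfl⟩
    exact ⟨J ⟨g, om_le hB hn hc hg⟩ n, J_mem_normal _ k, rfl⟩) with k | k
  · refine .inr fun g hg => ?_
    obtain ⟨n, k, e⟩ := k (map_mem_commutator (closure (R3 h c)).subtype hg)
    exact Subtype.ext e ▸ k
  · refine .inl fun n m => tg.mem_center fun d hd => J_eq_self.1 (Subtype.ext ?_)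
    exact (k _ hd _ (tg.conj n d hd) ⟨_, mul_J_mem' (tg.sq d hd) m, rfl⟩).symm

theorem ns_R3 : ¬ Group.IsSolvable (closure (R3 h c)) := fun s => by
  obtain ⟨a, ha, b, hb, n⟩ := exn_R3 (h := h) hB hn hc
  have := Group.isSolvable_of_isSolvable_injective (inclusion_injective (om_le (h := h) hB hn hc))
  have : Nontrivial (commutator (Isom B Q)) := ⟨⟨_, mul_mem_om hB hc ha hb⟩, 1, fun e =>
    n (((t3_R3 h hc).mul_eq_one hb).1 (congrArg Subtype.val e) ▸ Commute.refl _)⟩
  exact (Group.IsSolvable.commutator_lt_top_of_nontrivial _).ne (h.commutator_perfect hB hn)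

theorem index_R3 : (closure (R3 h c)).index = 2 := by
  have le := om_le (h := h) hB hn hc
  have e := relIndex_mul_index le
  rw [h.index_commutator_of_odd hB (by decide) (by omega)] at e
  have h1 : (closure (R3 h c)).index ≠ 1 := fun k => by
    obtain ⟨w, hw⟩ := h.exists_eq hB (by omega) (-c)
    have m : h.reflO w ∈ closure (R3 h c) := (index_eq_one.1 k).ge (mem_top _)
    obtain ⟨l, hl, e⟩ : ∃ l : List V, (∀ v ∈ l, Q v = c) ∧ (l.map h.reflO).prod = h.reflO w := by
      refine closure_induction_left (p := fun x _ => ∃ l : List V, (∀ v ∈ l, Q v = c) ∧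
        (l.map h.reflO).prod = x) ⟨[], by simp⟩ ?_ ?_ m
      · rintro _ ⟨v, hv, rfl⟩ y _ ⟨l, hl, rfl⟩
        exact ⟨v :: l, by simpa [hv] using hl, by simp⟩
      · rintro _ ⟨v, hv, rfl⟩ y _ ⟨l, hl, rfl⟩
        exact ⟨v :: l, by simpa [hv] using hl, by simp [h.reflO_inv]⟩
    have := (h.prod_mem_commutator_iff hB (h.nonExc_of_two_ne_zero hB (by decide)) (w :: l)
      (by simpa [hw, hc] using fun v hv => hl v hv ▸ hc)).1
      (by simp only [List.map_cons, List.prod_cons, e, h.reflO_mul_self]; exact one_mem _)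
    obtain ⟨⟨r, hr⟩, s⟩ := this
    rw [List.map_cons, List.prod_cons, hw, List.prod_eq_pow_card _ c (by simpa using hl),
      neg_mul, ← pow_succ', List.length_map, ← List.length_cons, hr, ← two_mul, pow_mul] at s
    rcases z3 c hc with rfl | rfl <;> simp only [one_pow, neg_one_sq] at s <;> revert s <;> decide
  have h4 : (commutator (Isom B Q)).relIndex (closure (R3 h c)) ≠ 1 := fun k => by
    obtain ⟨_, ⟨u, hu, rfl⟩, -⟩ := exn_R3 (h := h) hB hn hc
    have := h.dick_eq_zero_of_mem_commutator hB (relIndex_eq_one.1 k (subset_closure ⟨u, hu, rfl⟩))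
    rw [h.dick_reflO hB (hu ▸ hc)] at this
    exact absurd this (by decide)
  generalize (closure (R3 h c)).index = a at *
  generalize (commutator (Isom B Q)).relIndex (closure (R3 h c)) = b at *
  have : a ≤ 4 := Nat.le_of_dvd (by decide) (Dvd.intro_left _ e)
  interval_cases a <;> omega
end

section
variable {n : ℕ} (Q : QuadraticForm (ZMod 3) (Fin n → ZMod 3)) (c : ZMod 3)

theorem mem_reflN (g : isometryGroup (ZMod 3) Q) :
    g ∈ reflectionsOfNorm (⇑Q) c ↔ oEquiv (isForm_quad Q) g ∈ R3 (isForm_quad Q) c :=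
  exists_congr fun v => and_congr_right fun _ => coe_eq_reflectionMatrix_iff _ g v

/-- the reflection group of the Prelude -/
noncomputable def rEquiv : reflectionSubgroup (⇑Q) c ≃* closure (R3 (isForm_quad Q) c) :=
  subgroupEquivOfIff (oEquiv (isForm_quad Q)) _ _ (mem_closure_equiv _ _ _ (mem_reflN Q c))

theorem class_refl (hn : 5 ≤ n) (hQ : (QuadraticMap.polarBilin Q).Nondegenerate) (hc : c ≠ 0) :
    IsThreeTranspositionClass {g : reflectionSubgroup (⇑Q) c |
      (g : isometryGroup (ZMod 3) (⇑Q)) ∈ reflectionsOfNorm (⇑Q) c} :=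
  tclass_equiv (rEquiv Q c) (E := sub _) (fun g => mem_reflN Q c g) (class_R3 hQ.1 (by simpa using hn) hc)
end

end Cfsg.Agent.H19
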