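import Cfsg.Agent.H19.Dbl
import Cfsg.Agent.H27.Schur2
import Cfsg.Agent.H10.FourGroups

/-! # The Schur multiplier of `U₆(2)` -/

set_option autoImplicit false
set_option maxRecDepth 100000
set_option maxHeartbeats 400000

namespace Cfsg.Agent.H19

open Cfsg.Agent.H14 Cfsg.Agent.H15 Cfsg.Agent.H11 Cfsg.Agent.H27 Subgroup

universe w

namespace Mult
def r2 : List (ℕ × ℕ) := [(0, 62), (6, 55), (44, 16), (50, 9), (56, 2), (51, 6), (56, 0), (0, 55), (31, 23), (47, 6), (51, 1), (8, 43), (50, 0), (9, 40), (9, 39), (43, 4), (46, 0), (38, 7), (32, 12), (39, 4), (19, 23), (32, 9), (40, 0), (31, 8), (27, 11), (14, 23), (35, 1), (33, 2), (34, 0), (33, 0), (31, 1), (28, 3), (24, 6), (29, 0), (5, 23), (16, 11), (26, 0), (24, 1), (21, 3), (11, 12), (14, 8), (12, 9), (20, 0), (19, 0), (17, 1), (10, 7), (0, 16), (15, 0), (12, 2), (9, 4), (12, 0), (7, 4), (4, 6), (0, 9), (7, 1), (1, 6), (6, 0), (5, 0), (4, 0), (2, 1), (0, 2), (1, 0), (0, 0)]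
def r3 : List (ℕ × ℕ) := [(0, 62), (6, 55), (12, 48), (18, 41), (56, 2), (4, 53), (56, 0), (0, 55), (4, 50), (9, 44), (51, 1), (45, 6), (50, 0), (46, 3), (0, 48), (3, 44), (46, 0), (42, 3), (36, 8), (41, 2), (37, 5), (0, 41), (40, 0), (38, 1), (34, 4), (28, 9), (33, 3), (29, 6), (34, 0), (33, 0), (31, 1), (27, 4), (21, 9), (26, 3), (22, 6), (27, 0), (26, 0), (24, 1), (20, 4), (14, 9), (19, 3), (15, 6), (20, 0), (19, 0), (17, 1), (13, 4), (8, 8), (12, 3), (9, 5), (13, 0), (12, 0), (10, 1), (7, 3), (3, 6), (6, 2), (4, 3), (6, 0), (5, 0), (4, 0), (2, 1), (0, 2), (1, 0), (0, 0)]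
def r4 : List (ℕ × ℕ) := [(0, 29), (15, 13), (20, 7), (24, 2), (24, 1), (24, 0), (13, 10), (17, 5), (21, 0), (8, 12), (8, 11), (8, 10), (13, 4), (16, 0), (5, 10), (10, 4), (0, 13), (8, 4), (11, 0), (6, 4), (4, 5), (7, 1), (0, 7), (6, 0), (5, 0), (4, 0), (3, 0), (0, 2), (0, 1), (0, 0)]
end Mult

theorem card_sup_le {G : Type*} [Group G] (H K : Subgroup G) [K.Normal] :
    Nat.card ↥(H ⊔ K) ≤ Nat.card H * Nat.card K := by
  have := Set.natCard_mul_le (s := (H : Set G)) (t := (K : Set G))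
  rwa [← mul_normal] at this

theorem Lab.red_pow {G : Type*} [Group G] {R : Raw} {c : ℕ → G} (l : Lab R c) {u : List ℕ} {k m : ℕ}
    {cert : List (ℕ × ℕ)} (r : (okW R.L (repL u (k * m)) && R.redOk cert (repL u (k * m))) = true) :
    (lprod (fun x => c (R.lp x)) u ^ k) ^ m = 1 := by
  rw [Bool.and_eq_true] at r
  have := l.red r.1 r.2
  rwa [lprod_repL, pow_mul] at this

theorem card_le12 {Γ : Type w} [Group Γ] [Finite Γ] {c : ℕ → Γ} (l : Lab RU c)
    (top : closure (Im RU c) = ⊤) {a1 a3 a4 : Γ} (z1 : a1 ∈ center Γ) (z3 : a3 ∈ center Γ)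
    (z4 : a4 ∈ center Γ) (o1 : a1 ^ 3 = 1) (o3 : a3 ^ 2 = 1) (o4 : a4 ^ 2 = 1)
    (w1 : lprod (fun x => c (RU.lp x)) [1, 2, 3, 7, 5, 6] ^ 4 = a1)
    (w2 : lprod (fun x => c (RU.lp x)) [0, 1, 2, 3, 4, 5, 6] ^ 9 = 1)
    (w3 : lprod (fun x => c (RU.lp x)) [0, 1, 2, 3, 4, 6, 7] ^ 9 = a3)
    (w4 : lprod (fun x => c (RU.lp x)) [1, 5, 6, 0, 7, 2] ^ 5 = a4) : Nat.card Γ ≤ 9196830720 * 12 := by
  have nm : ∀ {a : Γ}, a ∈ center Γ → (zpowers a).Normal := fun h =>
    normal_of_le_center' (zpowers_le.2 h)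
  have cd : ∀ {a : Γ} {m : ℕ}, 0 < m → a ^ m = 1 → Nat.card (zpowers a) ≤ m := fun h e => by
    rw [Nat.card_zpowers]; exact orderOf_le_of_pow_eq_one h e
  have := nm z1
  have := nm z4
  have := nm z3
  have up := UB.le (R := RU) ubU l lpU_lt top (zpowers a1 ⊔ zpowers a4 ⊔ zpowers a3)
    (relsU (fun p hp => by rw [coxU l p hp]; exact one_mem _)
      (by rw [w1]; exact mem_sup_left (mem_sup_left (mem_zpowers _))) (by rw [w2]; exact one_mem _)
      (by rw [w3]; exact mem_sup_right (mem_zpowers _))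
      (by rw [w4]; exact mem_sup_left (mem_sup_right (mem_zpowers _))))
  have b1 := card_sup_le (zpowers a1 ⊔ zpowers a4) (zpowers a3)
  have b2 := (card_sup_le (zpowers a1) (zpowers a4)).trans
    (Nat.mul_le_mul (cd (by decide) o1) (cd (by decide) o4))
  exact up.trans (Nat.mul_le_mul_left _ (b1.trans (Nat.mul_le_mul b2 (cd (by decide) o3))))

theorem ker_le12 {Γ : Type w} [Group Γ] [Finite Γ] {Q : Type*} [Group Q] {c : ℕ → Q} (l : Lab RU c)
    (k : LiftOk (Im RU c)) (hN : Nat.card Q = 9196830720) (σ : Γ →* Q) (hs : Function.Surjective σ)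
    (hk : σ.ker ≤ center Γ) (p : commutator Γ = ⊤) : Nat.card σ.ker ≤ 12 := by
  obtain ⟨x, hx, s⟩ := k.invol hs hk
  obtain ⟨c', l', i, -⟩ := k.lab hs hk hx s l rfl
  have t := k.top hs hk p hx
  have zc : ∀ u m, RU.triv (repL u m) = true → lprod (fun x => c' (RU.lp x)) u ^ m ∈ center Γ :=
    fun u m h => by
      have := l'.triv h
      rw [lprod_repL, i] at this
      exact mem_center_of_closure t this
  have z1 := zc [1, 2, 3, 7, 5, 6] 4 (by decide +kernel)
  have z2 := zc [0, 1, 2, 3, 4, 5, 6] 9 (by decide +kernel)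
  have z3 := zc [0, 1, 2, 3, 4, 6, 7] 9 (by decide +kernel)
  have z4 := zc [1, 5, 6, 0, 7, 2] 5 (by decide +kernel)
  have o1 := l'.red_pow (u := [1, 2, 3, 7, 5, 6]) (k := 4) (m := 3) (cert := Dbl.redU) (by decide +kernel)
  have o2 := l'.red_pow (u := [0, 1, 2, 3, 4, 5, 6]) (k := 9) (m := 2) (cert := Mult.r2) (by decide +kernel)
  have o3 := l'.red_pow (u := [0, 1, 2, 3, 4, 6, 7]) (k := 9) (m := 2) (cert := Mult.r3) (by decide +kernel)
  have o4 := l'.red_pow (u := [1, 5, 6, 0, 7, 2]) (k := 5) (m := 2) (cert := Mult.r4) (by decide +kernel)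
  obtain ⟨d, hd⟩ : ∃ d, lprod (fun x => c' (RU.lp x)) [0, 1, 2, 3, 4, 5, 6] ^ 9 = d := ⟨_, rfl⟩
  rw [hd] at z2 o2
  have sq := (pow_two _).symm.trans o2
  have cm := commute_of_mem_center z2
  have tw : ∀ (u : List ℕ) (m r ε : ℕ), u.length * m = 2 * r + ε → lprod (fun x => d * c' (RU.lp x)) u ^ m =
      d ^ ε * lprod (fun x => c' (RU.lp x)) u ^ m := fun u m r ε h => by
    rw [lprod_tw z2, h, pow_add, pow_mul, o2, one_pow, one_mul]
  have d1 : σ d = 1 := mem_bot.1 (k.z ▸ mem_center_iff.2 fun g => by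
    obtain ⟨g, rfl⟩ := hs g
    exact ((cm g).map σ).eq.symm)
  have top : closure (Im RU fun y => d * c' y) = ⊤ := by
    refine eq_top_iff.2 ((k.top hs hk p (x := d * x) (by simpa [d1] using hx)).ge.trans
      (closure_mono fun u hu => ?_))
    obtain ⟨g, rfl⟩ := isConj_iff.1 hu
    obtain ⟨y, hy, ey⟩ := i.superset (isConj_iff.2 ⟨g, rfl⟩)
    refine ⟨y, hy, (congrArg (d * ·) ey).trans ?_⟩
    rw [← J_def, ← J_def, J_map_mul, J_of_commute (cm g).symm]
  have up := card_le12 (l'.tw sq z2) top z1 (mul_mem z2 z3) z4 o1 (by rw [(cm _).mul_pow, o2, o3, mul_one])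
    o4 ((tw _ 4 12 0 rfl).trans (by rw [pow_zero, one_mul])) ((tw _ 9 31 1 rfl).trans (by rw [pow_one, hd, sq]))
    ((tw _ 9 31 1 rfl).trans (by rw [pow_one])) ((tw _ 5 15 0 rfl).trans (by rw [pow_zero, one_mul]))
  rw [card_eq_card_quotient_mul_card_subgroup σ.ker,
    Nat.card_congr (QuotientGroup.quotientKerEquivOfSurjective σ hs).toEquiv, hN] at up
  omega

theorem onto_center {Q A X : Type*} [Group Q] [CommGroup A] (hA : HasSchurMultiplier Q A) [Group X]
    (e : X ⧸ center X ≃* Q) (h : commutator X = ⊤) : ∃ p : A →* center X, Function.Surjective p := by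
  have q : (e.toMonoidHom.comp (QuotientGroup.mk' _)).ker = center X := by
    ext x; simp [MonoidHom.mem_ker]
  have := schur_onto_ker hA (ξ := e.toMonoidHom.comp (QuotientGroup.mk' _))
    ⟨e.surjective.comp (QuotientGroup.mk'_surjective _), q.le, by simp [h]⟩
  rwa [q] at this

theorem klein_pair {G : Type*} [Group G] {E : Set G} (t : T3 E) {x y : G} (k : CL E [x, y]) :
    IsKleinFour (closure {a | a ∈ [x, y]}) := by
  have hx := k.mem x (by simp)
  have hy := k.mem y (by simp)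
  have c := k.cm x (by simp) y (by simp)
  have n : x ≠ y := by simpa using k.nd
  have h : H10.InvPair x y := ⟨t.ne x hx, t.ne y hy, n, t.sq x hx, t.sq y hy, c⟩
  have e : closure {a | a ∈ [x, y]} = h.four := le_antisymm ((closure_le _).2 fun a ha => by
    rcases (by simpa using ha : a = x ∨ a = y) with rfl | rfl
    exacts [h.left_mem, h.right_mem]) (h.four_le (subset_closure (by simp)) (subset_closure (by simp)))
  exact e ▸ h.isKleinFour

theorem mult_psu {F : Type*} [Field F] [Fintype F] (hF : Fintype.card F = 4) :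
    HasSchurMultiplier (PSU 6 F 2) (Multiplicative (ZMod 3 × ZMod 2 × ZMod 2)) := by
  classical
  obtain ⟨c, l, t, -⟩ := psu_lab hF (MulEquiv.refl _)
  have := psu_simple hF
  have z := center_bot_of_simple (rel_one.1 (l.rel_of (p := 0) (q := 2) (by decide +kernel)))
  have k := cardU ⟨c, l, rfl⟩
  obtain ⟨e, -⟩ := qt_top t.top z
  rw [Nat.card_congr e.toEquiv] at k
  have : Finite (PSU 6 F 2) := Nat.finite_of_card_ne_zero (by omega)
  obtain ⟨A, _, hA⟩ : ∃ (A : Type _) (_ : CommGroup A), HasSchurMultiplier (PSU 6 F 2) A :=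
    ⟨_, _, hasSchurMultiplier_std⟩
  have := schur_finite hA
  have hq := qConj_conjQ (q := 2) hF
  have pf := (hq.isHerm (Fin 6)).sisom_perfect (hermB_sep _) (hq.simple_cond (by decide) (by simp))
  have up : Nat.card A ≤ 12 := by
    obtain ⟨Γ, _, _, σ, s, ⟨e'⟩⟩ := hA.1
    rw [← Nat.card_congr e'.toEquiv]
    refine ker_le12 l (liftU l t z) k σ s.1 s.2.1 ?_
    have q : commutator (PSU 6 F 2) = ⊤ := by
      refine (IsSimpleGroup.eq_bot_or_eq_top_of_normal _ inferInstance).resolve_left fun h => ?_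
      have := commutator_eq_bot_iff_le_centralizer.1 h
      rw [coe_top, centralizer_univ, z] at this
      exact absurd (eq_top_iff.2 this) bot_ne_top
    have : (commutator Γ).map σ = ⊤ := by
      rw [commutator_def, map_commutator, ← MonoidHom.range_eq_map, MonoidHom.range_eq_top.2 s.1,
        ← commutator_def, q]
    rw [← comap_map_eq_self s.2.2, this, comap_top]
  obtain ⟨p3, s3⟩ := onto_center hA (psuEquiv hq 6).symm pf
  have c3 := (hq.isHerm (Fin 6)).card_center_sisom hq (hermB_sep _) (by simp)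
  obtain ⟨c2, l2, f⟩ := model23
  have cl := l2.clOk (l := [0, beta 0]) (by decide +kernel)
  simp only [List.map_cons, List.map_nil] at cl
  have h0 : Lev 0 (Dd (Dd (Im R23 c2) (c2 0)) (c2 (beta 0))) := Lev.foldl (t := [_, _]) f.lev cl
  obtain ⟨e4⟩ := qtU h0.lb hF
  obtain ⟨p4, s4⟩ := onto_center hA e4 (f.perf23 ⟨c2, l2, rfl⟩ cl).1.commutator_eq_top
  have e2 := FG.center_list (n := 0) (t := [_, _]) f cl (f.mem23 ⟨c2, l2, rfl⟩ cl)
  have k4 := H10.isKleinFour_of_equiv (equivMapOfInjective _ _ (Subgroup.subtype_injective _)).symm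
    (e2.symm ▸ klein_pair f.lev.t3 cl)
  obtain ⟨e4⟩ := @IsKleinFour.nonempty_mulEquiv _ (Multiplicative (ZMod 2 × ZMod 2)) _ _ k4 _
  have : Fact (Nat.Prime 3) := ⟨by decide⟩
  have e3 := mulEquivOfPrimeCardEq (p := 3) (G' := Multiplicative (ZMod 3)) (c3.trans (by simp)) (by simp)
  let φ := (e3.toMonoidHom.comp p3).prod (e4.toMonoidHom.comp p4)
  have d3 : 3 ∣ Nat.card φ.range := by
    simpa using card_dvd_of_surjective ((MonoidHom.fst _ _).comp φ.range.subtype) fun x => by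
      obtain ⟨a, rfl⟩ := (e3.surjective.comp s3) x
      exact ⟨⟨_, a, rfl⟩, rfl⟩
  have d4 : 4 ∣ Nat.card φ.range := by
    simpa using card_dvd_of_surjective ((MonoidHom.snd _ _).comp φ.range.subtype) fun x => by
      obtain ⟨a, rfl⟩ := (e4.surjective.comp s4) x
      exact ⟨⟨_, a, rfl⟩, rfl⟩
  have c12 : Nat.card (Multiplicative (ZMod 3) × Multiplicative (ZMod 2 × ZMod 2)) = 12 := by simp
  have hs : Function.Surjective φ := MonoidHom.range_eq_top.1 (eq_top_of_le_card _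
    (c12 ▸ Nat.le_of_dvd Nat.card_pos ((by decide : Nat.Coprime 3 4).mul_dvd_of_dvd_of_dvd d3 d4)))
  exact schur_of_equiv hA ((MulEquiv.ofBijective φ (hs.bijective_of_nat_card_le (c12 ▸ up))).trans
    (MulEquiv.prodMultiplicative _ _).symm)

end Cfsg.Agent.H19
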