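import Mathlib
import Cfsg.Prelude.Def_G2

/-! Identities in the split octonion algebra. -/

set_option autoImplicit false

namespace Cfsg.Agent.H19.Oc

open Cfsg.Lie

variable {F : Type*} [Field F]

theorem zorn_eq (x y : Fin 8 → F) : zornMul x y =
    ![x 0 * y 0 + (x 1 * y 4 + x 2 * y 5 + x 3 * y 6),
      x 0 * y 1 + y 7 * x 1 - (x 5 * y 6 - x 6 * y 5),
      x 0 * y 2 + y 7 * x 2 - (x 6 * y 4 - x 4 * y 6),
      x 0 * y 3 + y 7 * x 3 - (x 4 * y 5 - x 5 * y 4),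
      y 0 * x 4 + x 7 * y 4 + (x 2 * y 3 - x 3 * y 2),
      y 0 * x 5 + x 7 * y 5 + (x 3 * y 1 - x 1 * y 3),
      y 0 * x 6 + x 7 * y 6 + (x 1 * y 2 - x 2 * y 1),
      x 4 * y 1 + x 5 * y 2 + x 6 * y 3 + x 7 * y 7] := rfl

theorem vec8_ext {x y : Fin 8 → F} (h0 : x 0 = y 0) (h1 : x 1 = y 1) (h2 : x 2 = y 2)
    (h3 : x 3 = y 3) (h4 : x 4 = y 4) (h5 : x 5 = y 5) (h6 : x 6 = y 6) (h7 : x 7 = y 7) :
    x = y := by
  ext i; fin_cases i <;> assumption

/-- the product as a bilinear map -/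
def mu : (Fin 8 → F) →ₗ[F] (Fin 8 → F) →ₗ[F] (Fin 8 → F) :=
  LinearMap.mk₂ F zornMul
    (fun x y z => by apply vec8_ext <;> simp [zorn_eq] <;> ring)
    (fun c x y => by apply vec8_ext <;> simp [zorn_eq] <;> ring)
    (fun x y z => by apply vec8_ext <;> simp [zorn_eq] <;> ring)
    (fun c x y => by apply vec8_ext <;> simp [zorn_eq] <;> ring)

/-- the identity element -/
def e1 : Fin 8 → F := ![1, 0, 0, 0, 0, 0, 0, 1]

/-- the trace -/
def tr : (Fin 8 → F) →ₗ[F] F := ⟨⟨fun x => x 0 + x 7, fun x y => by simp; ring⟩,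
  fun c x => by simp; ring⟩

/-- the norm -/
def nrm (x : Fin 8 → F) : F := x 0 * x 7 - (x 1 * x 4 + x 2 * x 5 + x 3 * x 6)

/-- the polar form of the norm -/
def bil : (Fin 8 → F) →ₗ[F] (Fin 8 → F) →ₗ[F] F :=
  LinearMap.mk₂ F (fun x y => x 0 * y 7 + x 7 * y 0 -
    (x 1 * y 4 + x 4 * y 1 + x 2 * y 5 + x 5 * y 2 + x 3 * y 6 + x 6 * y 3))
    (fun x y z => by simp; ring) (fun c x y => by simp; ring)
    (fun x y z => by simp; ring) (fun c x y => by simp; ring)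

/-- the conjugation -/
def bar (x : Fin 8 → F) : Fin 8 → F := tr x • e1 - x

theorem mu_co (x y : Fin 8 → F) :
    mu x y 0 = x 0 * y 0 + (x 1 * y 4 + x 2 * y 5 + x 3 * y 6) ∧
    mu x y 1 = x 0 * y 1 + y 7 * x 1 - (x 5 * y 6 - x 6 * y 5) ∧
    mu x y 2 = x 0 * y 2 + y 7 * x 2 - (x 6 * y 4 - x 4 * y 6) ∧
    mu x y 3 = x 0 * y 3 + y 7 * x 3 - (x 4 * y 5 - x 5 * y 4) ∧
    mu x y 4 = y 0 * x 4 + x 7 * y 4 + (x 2 * y 3 - x 3 * y 2) ∧
    mu x y 5 = y 0 * x 5 + x 7 * y 5 + (x 3 * y 1 - x 1 * y 3) ∧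
    mu x y 6 = y 0 * x 6 + x 7 * y 6 + (x 1 * y 2 - x 2 * y 1) ∧
    mu x y 7 = x 4 * y 1 + x 5 * y 2 + x 6 * y 3 + x 7 * y 7 :=
  ⟨rfl, rfl, rfl, rfl, rfl, rfl, rfl, rfl⟩

theorem tr_def (x : Fin 8 → F) : tr x = x 0 + x 7 := rfl
theorem bil_def (x y : Fin 8 → F) : bil x y = x 0 * y 7 + x 7 * y 0 -
    (x 1 * y 4 + x 4 * y 1 + x 2 * y 5 + x 5 * y 2 + x 3 * y 6 + x 6 * y 3) := rfl
theorem e_co : (e1 : Fin 8 → F) 0 = 1 ∧ (e1 : Fin 8 → F) 1 = 0 ∧ (e1 : Fin 8 → F) 2 = 0 ∧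
    (e1 : Fin 8 → F) 3 = 0 ∧ (e1 : Fin 8 → F) 4 = 0 ∧ (e1 : Fin 8 → F) 5 = 0 ∧
    (e1 : Fin 8 → F) 6 = 0 ∧ (e1 : Fin 8 → F) 7 = 1 := ⟨rfl, rfl, rfl, rfl, rfl, rfl, rfl, rfl⟩

@[simp] theorem one_mu (x : Fin 8 → F) : mu e1 x = x := by
  apply vec8_ext <;> simp only [mu_co, e_co, tr_def, bil_def, nrm, bar, Pi.add_apply, Pi.sub_apply,
    Pi.smul_apply, smul_eq_mul] <;> ring

@[simp] theorem mu_one (x : Fin 8 → F) : mu x e1 = x := by
  apply vec8_ext <;> simp only [mu_co, e_co, tr_def, bil_def, nrm, bar, Pi.add_apply, Pi.sub_apply,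
    Pi.smul_apply, smul_eq_mul] <;> ring

theorem left_id (x y z : Fin 8 → F) :
    mu x (mu (bar y) z) + mu y (mu (bar x) z) = bil x y • z := by
  apply vec8_ext <;> simp only [mu_co, e_co, tr_def, bil_def, nrm, bar, Pi.add_apply, Pi.sub_apply,
    Pi.smul_apply, smul_eq_mul] <;> ring

theorem right_id (x y z : Fin 8 → F) :
    mu (mu z x) (bar y) + mu (mu z y) (bar x) = bil x y • z := by
  apply vec8_ext <;> simp only [mu_co, e_co, tr_def, bil_def, nrm, bar, Pi.add_apply, Pi.sub_apply,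
    Pi.smul_apply, smul_eq_mul] <;> ring

theorem mu_self (x : Fin 8 → F) : mu x x = tr x • x - nrm x • e1 := by
  apply vec8_ext <;> simp only [mu_co, e_co, tr_def, bil_def, nrm, bar, Pi.add_apply, Pi.sub_apply,
    Pi.smul_apply, smul_eq_mul] <;> ring

theorem mu_add_mu (x y : Fin 8 → F) :
    mu x y + mu y x = tr x • y + tr y • x - bil x y • e1 := by
  apply vec8_ext <;> simp only [mu_co, e_co, tr_def, bil_def, nrm, bar, Pi.add_apply, Pi.sub_apply,
    Pi.smul_apply, smul_eq_mul] <;> ring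

theorem left_alt (x z : Fin 8 → F) : mu x (mu x z) = mu (mu x x) z := by
  apply vec8_ext <;> simp only [mu_co, e_co, tr_def, bil_def, nrm, bar, Pi.add_apply, Pi.sub_apply,
    Pi.smul_apply, smul_eq_mul] <;> ring

theorem right_alt (x z : Fin 8 → F) : mu (mu z x) x = mu z (mu x x) := by
  apply vec8_ext <;> simp only [mu_co, e_co, tr_def, bil_def, nrm, bar, Pi.add_apply, Pi.sub_apply,
    Pi.smul_apply, smul_eq_mul] <;> ring

theorem nrm_mu (x y : Fin 8 → F) : nrm (mu x y) = nrm x * nrm y := by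
  simp only [mu_co, e_co, tr_def, bil_def, nrm, bar, Pi.add_apply, Pi.sub_apply,
    Pi.smul_apply, smul_eq_mul]; ring

theorem tr_mu (x y : Fin 8 → F) : tr (mu x y) = tr x * tr y - bil x y := by
  simp only [mu_co, e_co, tr_def, bil_def, nrm, bar, Pi.add_apply, Pi.sub_apply,
    Pi.smul_apply, smul_eq_mul]; ring

theorem bar_mu (x y : Fin 8 → F) : bar (mu x y) = mu (bar y) (bar x) := by
  apply vec8_ext <;> simp only [mu_co, e_co, tr_def, bil_def, nrm, bar, Pi.add_apply, Pi.sub_apply,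
    Pi.smul_apply, smul_eq_mul] <;> ring

theorem nrm_add (x y : Fin 8 → F) : nrm (x + y) = nrm x + nrm y + bil x y := by
  simp only [mu_co, e_co, tr_def, bil_def, nrm, bar, Pi.add_apply, Pi.sub_apply,
    Pi.smul_apply, smul_eq_mul]; ring

theorem nrm_smul (c : F) (x : Fin 8 → F) : nrm (c • x) = c ^ 2 * nrm x := by
  simp only [mu_co, e_co, tr_def, bil_def, nrm, bar, Pi.add_apply, Pi.sub_apply,
    Pi.smul_apply, smul_eq_mul]; ring

theorem bil_comm (x y : Fin 8 → F) : bil x y = bil y x := by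
  simp only [mu_co, e_co, tr_def, bil_def, nrm, bar, Pi.add_apply, Pi.sub_apply,
    Pi.smul_apply, smul_eq_mul]; ring

theorem bil_one (x : Fin 8 → F) : bil x e1 = tr x := by
  simp only [mu_co, e_co, tr_def, bil_def, nrm, bar, Pi.add_apply, Pi.sub_apply,
    Pi.smul_apply, smul_eq_mul]; ring

theorem tr_one : tr (e1 : Fin 8 → F) = 2 := by
  simp only [mu_co, e_co, tr_def, bil_def, nrm, bar, Pi.add_apply, Pi.sub_apply,
    Pi.smul_apply, smul_eq_mul]; ring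

theorem bar_bar (x : Fin 8 → F) : bar (bar x) = x := by
  apply vec8_ext <;> simp only [mu_co, e_co, tr_def, bil_def, nrm, bar, Pi.add_apply, Pi.sub_apply,
    Pi.smul_apply, smul_eq_mul] <;> ring


theorem e1_ne : (e1 : Fin 8 → F) ≠ 0 := fun h => one_ne_zero (congrFun h 0)

theorem bil_nondeg {x : Fin 8 → F} (h : ∀ y, bil x y = 0) : x = 0 := by
  apply vec8_ext
  exacts [by simpa [bil_def] using h (Pi.single 7 1), by simpa [bil_def] using h (Pi.single 4 1),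
    by simpa [bil_def] using h (Pi.single 5 1), by simpa [bil_def] using h (Pi.single 6 1),
    by simpa [bil_def] using h (Pi.single 1 1), by simpa [bil_def] using h (Pi.single 2 1),
    by simpa [bil_def] using h (Pi.single 3 1), by simpa [bil_def] using h (Pi.single 0 1)]

end Cfsg.Agent.H19.Oc
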