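import Cfsg.Agent.H19.Oc3
import Cfsg.Agent.H11.FinQuad

/-! Involutory automorphisms of the split octonion algebra: the doubling decomposition. -/

set_option autoImplicit false
set_option maxHeartbeats 400000

namespace Cfsg.Agent.H19.Oc

open Module Matrix

variable {F : Type*} [Field F]

theorem exists_sing [Finite F] (S : Submodule F (Fin 8 → F)) (hS : 3 ≤ finrank F S) :
    ∃ x ∈ S, x ≠ 0 ∧ nrm x = 0 := by
  obtain ⟨u, hu⟩ := exists_linearIndependent_of_le_finrank hS
  have hu' := hu.map' S.subtype S.ker_subtype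
  have hm : ∀ i, (S.subtype ∘ u) i ∈ S := fun i => (u i).2
  generalize S.subtype ∘ u = w at hu' hm
  obtain ⟨x, y, z, hne, e⟩ := H11.ternary_isotropic (nrm (w 0)) (nrm (w 1))
    (nrm (w 2)) (bil (w 0) (w 1)) (bil (w 0) (w 2)) (bil (w 1) (w 2))
  refine ⟨x • w 0 + y • w 1 + z • w 2, add_mem (add_mem (S.smul_mem _ (hm 0)) (S.smul_mem _ (hm 1)))
    (S.smul_mem _ (hm 2)), fun h0 => ?_, ?_⟩
  · have := Fintype.linearIndependent_iff.mp hu' ![x, y, z] (by
      simpa [Fin.sum_univ_three] using h0)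
    have h0 := this 0
    have h1 := this 1
    have h2 := this 2
    simp at h0 h1 h2
    simp [h0, h1, h2] at hne
  · simp only [nrm_add, nrm_smul, map_add, map_smul,
      LinearMap.add_apply, LinearMap.smul_apply, smul_eq_mul]
    linear_combination e

/-- an involutory automorphism in odd characteristic -/
structure Inv (t : (Fin 8 → F) →ₗ[F] (Fin 8 → F)) : Prop where
  two : (2 : F) ≠ 0
  mul : ∀ x y, t (mu x y) = mu (t x) (t y)
  inv : ∀ x, t (t x) = x
  ne : ∃ x, t x ≠ x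

namespace Inv

variable {t : (Fin 8 → F) →ₗ[F] (Fin 8 → F)} (h : Inv t)
include h

theorem one : t e1 = e1 := by
  have := h.mul e1 (t e1)
  rwa [one_mu, h.inv, mu_one, eq_comm] at this

theorem zero {z : Fin 8 → F} (h1 : t z = z) (h2 : t z = -z) : z = 0 :=
  (smul_eq_zero.1 (by rw [two_smul]; exact add_eq_zero_iff_eq_neg.2 (h1.symm.trans h2))).resolve_left
    h.two

theorem tr_neg {w : Fin 8 → F} (hw : t w = -w) : tr w = 0 := by
  have h1 := h.mul w w
  rw [hw, map_neg, map_neg, LinearMap.neg_apply, neg_neg, mu_self, map_sub, map_smul, map_smul,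
    h.one, sub_left_inj, ← map_smul] at h1
  rcases smul_eq_zero.1 (h.zero h1 (by rw [map_smul, hw, smul_neg])) with h2 | rfl
  exacts [h2, map_zero _]

theorem orth {a w : Fin 8 → F} (ha : t a = a) (hw : t w = -w) : bil a w = 0 := by
  have h1 : t (mu a w + mu w a) = -(mu a w + mu w a) := by
    simp [h.mul, ha, hw, add_comm]
  rw [mu_add_mu, h.tr_neg hw, zero_smul, add_zero, map_sub, map_smul, hw, neg_sub,
    smul_neg, sub_eq_add_neg, add_comm, sub_eq_add_neg, add_left_inj, neg_eq_iff_eq_neg] at h1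
  exact (smul_eq_zero.1 (h.zero (by rw [map_smul, h.one]) h1)).resolve_right e1_ne

theorem split (z : Fin 8 → F) : ∃ a w, t a = a ∧ t w = -w ∧ z = a + w :=
  ⟨(2 : F)⁻¹ • (z + t z), (2 : F)⁻¹ • (z - t z), by simp [h.inv, add_comm], by
    simp [h.inv, ← smul_neg], by
    rw [← smul_add, add_add_sub_cancel, ← two_smul F, inv_smul_smul₀ h.two]⟩

theorem exists_v : ∃ v, t v = -v ∧ nrm v ≠ 0 := by
  by_contra! h0
  obtain ⟨x, hx⟩ := h.ne
  obtain ⟨a, w, ha, hw, rfl⟩ := h.split x
  suffices w = 0 by simp [this, ha] at hx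
  refine bil_nondeg fun z => ?_
  obtain ⟨b, u, hb, hu, rfl⟩ := h.split z
  have := nrm_add w u
  rw [h0 _ hw, h0 _ hu, h0 _ (by rw [map_add, hw, hu, neg_add])] at this
  rw [map_add, bil_comm, h.orth hb hw]; simpa using this.symm

theorem mu_v {v : Fin 8 → F} (hv : t v = -v) (z : Fin 8 → F) : mu (mu z v) v = -nrm v • z := by
  simp [right_alt, mu_self, h.tr_neg hv]

theorem exists_x [Finite F] : ∃ x, x ≠ 0 ∧ t x = x ∧ tr x = 0 ∧ nrm x = 0 := by
  obtain ⟨v, hv, hn⟩ := h.exists_v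
  let H := LinearMap.ker (t - LinearMap.id)
  have hH : ∀ z, z ∈ H ↔ t z = z := fun z => by simp [H, sub_eq_zero]
  let f : (Fin 8 → F) →ₗ[F] H × H := ((LinearMap.id + t).codRestrict H fun z => by
    simp [hH, h.inv, add_comm]).prod ((mu.flip v ∘ₗ (LinearMap.id - t)).codRestrict H fun z => by
      simp [hH, h.inv, h.mul, hv, sub_eq_add_neg, add_comm])
  have h1 : Function.Injective f := (injective_iff_map_eq_zero _).2 fun z hz => by
    have h2 : z + t z = 0 := congrArg (fun p : H × H => p.1.1) hz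
    have h3 : mu (z - t z) v = 0 := congrArg (fun p : H × H => p.2.1) hz
    have h4 := h.mu_v hv (z - t z)
    rw [h3, map_zero, LinearMap.zero_apply, eq_comm, smul_eq_zero, neg_eq_zero] at h4
    exact h.zero (sub_eq_zero.1 (h4.resolve_left hn)).symm (eq_neg_of_add_eq_zero_right h2)
  have h2 := LinearMap.finrank_le_finrank_of_injective h1
  have h3 := LinearMap.finrank_range_add_finrank_ker (tr (F := F))
  have h4 := Submodule.finrank_le (LinearMap.range (tr (F := F)))
  have h5 := Submodule.finrank_sup_add_finrank_inf_eq H (LinearMap.ker tr)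
  have h6 := Submodule.finrank_le (H ⊔ LinearMap.ker tr)
  simp only [finrank_fintype_fun_eq_card, Fintype.card_fin, finrank_prod, finrank_self]
    at h2 h3 h4 h6
  obtain ⟨x, hx, h7, h8⟩ := exists_sing (H ⊓ LinearMap.ker tr) (by omega)
  exact ⟨x, h7, (hH _).1 hx.1, hx.2, h8⟩

theorem exists_xy [Finite F] : ∃ x y, t x = x ∧ tr x = 0 ∧ nrm x = 0 ∧ t y = y ∧ tr y = 0 ∧
    nrm y = 0 ∧ bil x y = -1 := by
  obtain ⟨x, h0, h1, h2, h3⟩ := h.exists_x
  obtain ⟨z, hz⟩ : ∃ z, bil x z ≠ 0 := by by_contra! h4; exact h0 (bil_nondeg h4)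
  obtain ⟨a, w, ha, hw, rfl⟩ := h.split z
  rw [map_add, h.orth h1 hw, add_zero] at hz
  set y := -(bil x a)⁻¹ • (a - (tr a / 2) • e1) with hy
  have h4 : bil x y = -1 := by simp [hy, bil_one, h2, hz]
  have h5 : bil x x = 0 := by
    have := nrm_add x x
    rw [← two_smul F, nrm_smul, h3] at this
    simpa using this.symm
  have h6 : tr y = 0 := by simp [hy, tr_one, h.two]
  have h7 : t y = y := by simp [hy, ha, h.one]
  refine ⟨x, y + nrm y • x, h1, h2, h3, by simp [h7, h1], by simp [h6, h2], ?_, by simp [h4, h5]⟩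
  simp [nrm_add, nrm_smul, h3, bil_comm y x, h4]

theorem exists_psi [Finite F] : ∃ ψ : Matrix (Fin 2) (Fin 2) F →ₗ[F] (Fin 8 → F),
    (∀ a b, mu (ψ a) (ψ b) = ψ (a * b)) ∧ (∀ a, bar (ψ a) = ψ (adjugate a)) ∧
      (∀ a, t (ψ a) = ψ a) ∧ ∀ a, ψ a = 0 → a = 0 := by
  obtain ⟨x, y, h1, h2, h3, h4, h5, h6, h7⟩ := h.exists_xy
  have xx : mu x x = 0 := by simp [mu_self, h2, h3]
  have yy : mu y y = 0 := by simp [mu_self, h5, h6]
  obtain ⟨e, xy⟩ : ∃ e, mu x y = e := ⟨_, rfl⟩
  have yx : mu y x = e1 - e := by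
    have := mu_add_mu x y
    rw [h2, h5, h7, xy] at this
    rw [eq_sub_iff_add_eq', this]; simp
  have te : tr e = 1 := by rw [← xy, tr_mu, h2, h7]; simp
  have ee : mu e e = e := by rw [mu_self, te, ← xy, nrm_mu, h3]; simp
  have xe : mu x e = 0 := by rw [← xy, left_alt, xx]; simp
  have ey : mu e y = 0 := by rw [← xy, right_alt, yy]; simp
  have ex : mu e x = x := by
    have := right_alt x y
    rw [yx, xx] at this
    exact Eq.symm (by simpa [sub_eq_zero] using this)
  have ye : mu y e = y := by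
    have := left_alt y x
    rw [yx, yy] at this
    exact Eq.symm (by simpa [sub_eq_zero] using this)
  let ψ : Matrix (Fin 2) (Fin 2) F →ₗ[F] (Fin 8 → F) :=
    ⟨⟨fun a => a 1 1 • e1 + (a 0 0 - a 1 1) • e + a 0 1 • x + a 1 0 • y, fun a b => by
      simp only [Matrix.add_apply]; module⟩, fun c a => by
      simp only [Matrix.smul_apply, smul_eq_mul, RingHom.id_apply]; module⟩
  have hψ : ∀ a, ψ a = a 1 1 • e1 + (a 0 0 - a 1 1) • e + a 0 1 • x + a 1 0 • y := fun _ => rfl
  have hm : ∀ a b, mu (ψ a) (ψ b) = ψ (a * b) := fun a b => by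
    simp only [hψ, map_add, map_smul, LinearMap.add_apply, LinearMap.smul_apply, one_mu, mu_one,
      xx, yy, xy, yx, ee, xe, ey, ex, ye, mul_apply, Fin.sum_univ_two]
    module
  have hb : ∀ a, bar (ψ a) = ψ (adjugate a) := fun a => by
    simp only [hψ, bar, map_add, map_smul, tr_one, te, h2, h5, adjugate_fin_two, of_apply,
      cons_val', cons_val_zero, cons_val_one, cons_val_fin_one, smul_eq_mul]
    module
  refine ⟨ψ, hm, hb, fun a => by simp [hψ, h.one, ← xy, h.mul, h1, h4], fun a ha => ?_⟩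
  ext i j
  have h8 := hm (single 0 i 1) a
  have h9 := hm (single 0 i 1 * a) (single j 0 1)
  rw [← h8, ha, single_mul_mul_single] at h9
  simpa [hψ, te] using (congrArg tr h9).symm

theorem exists_theta [Finite F] : ∃ (Θ : (Matrix (Fin 2) (Fin 2) F × Matrix (Fin 2) (Fin 2) F)
    ≃ₗ[F] (Fin 8 → F)) (m : F), m ≠ 0 ∧ (∀ a b c d, mu (Θ (a, b)) (Θ (c, d)) =
      Θ (a * c + m • (adjugate d * b), d * a + b * adjugate c)) ∧
      ∀ a b, t (Θ (a, b)) = Θ (a, -b) := by
  obtain ⟨ψ, h1, h2, h3, h4⟩ := h.exists_psi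
  obtain ⟨v, hv, hn⟩ := h.exists_v
  let f := ψ.coprod (mu.flip v ∘ₗ ψ)
  have hf : ∀ a b, f (a, b) = ψ a + mu (ψ b) v := fun _ _ => rfl
  have hW : ∀ b, t (mu (ψ b) v) = -mu (ψ b) v := fun b => by simp [h.mul, h3, hv]
  have hi : Function.Injective f := (injective_iff_map_eq_zero _).2 fun p hp => by
    have h5 : ψ p.1 = -mu (ψ p.2) v := eq_neg_of_add_eq_zero_left hp
    have h6 : ψ p.1 = 0 := h.zero (h3 _) (by rw [h5, map_neg, hW])
    have h7 := h.mu_v hv (ψ p.2)
    rw [neg_eq_zero.1 (h5.symm.trans h6), map_zero, LinearMap.zero_apply, eq_comm, smul_eq_zero,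
      neg_eq_zero] at h7
    exact Prod.ext (h4 _ h6) (h4 _ (h7.resolve_left hn))
  have bw : ∀ w, t w = -w → bar w = -w := fun w hw => by simp [bar, h.tr_neg hw]
  have k0 : ∀ a z, mu v (mu (ψ (adjugate a)) z) = mu (ψ a) (mu v z) := fun a z => by
    have := left_id v (ψ a) z
    rw [bw v hv, bil_comm, h.orth (h3 a) hv, h2] at this
    simpa [add_neg_eq_zero] using this
  have k1 : ∀ a, mu (ψ a) v = mu v (ψ (adjugate a)) := fun a => by simpa using (k0 a e1).symm
  have k2 : ∀ a d, mu (ψ a) (mu (ψ d) v) = mu (ψ (d * a)) v := fun a d => by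
    rw [k1 d, ← k0, h1, k1, adjugate_mul_distrib]
  have k3 : ∀ b c, mu (mu (ψ b) v) (ψ c) = mu (ψ (b * adjugate c)) v := fun b c => by
    have := right_id v (bar (ψ c)) (ψ b)
    rw [bar_bar, bw v hv, h2, bil_comm, h.orth (h3 _) hv, h1] at this
    simpa [add_neg_eq_zero] using this
  have k4 : ∀ b d, mu (mu (ψ b) v) (mu (ψ d) v) = -nrm v • ψ (adjugate d * b) := fun b d => by
    have := left_id (mu (ψ b) v) (bar (ψ d)) v
    rw [bar_bar, bw _ (hW b), h2, bil_comm, h.orth (h3 _) (hW b)] at this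
    simpa [h.mu_v hv, h1, add_eq_zero_iff_eq_neg] using this
  refine ⟨.ofInjectiveOfFinrankEq f hi (by simp [Module.finrank_matrix]), -nrm v,
    neg_ne_zero.2 hn, fun a b c d => ?_, fun a b => ?_⟩
  · change mu (f _) (f _) = f _
    simp only [hf, map_add, LinearMap.add_apply, h1, k2, k3, k4, map_smul]
    abel
  · change t (f _) = f _
    simp [hf, h3, hW]

end Inv

end Cfsg.Agent.H19.Oc
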