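import Cfsg.Agent.H19.Oc2
import Cfsg.Agent.H19.Oc4

/-! Involution centralizers and Sylow 2-subgroups of the octonion automorphism group. -/

set_option autoImplicit false
set_option maxHeartbeats 400000

namespace Cfsg.Agent.H19.Oc

open Module Matrix Cfsg.Lie

variable {F : Type*} [Field F]

theorem inner_two (α : Matrix (Fin 2) (Fin 2) F ≃ₐ[F] Matrix (Fin 2) (Fin 2) F) :
    ∃ g : GL (Fin 2) F, ∀ a, α a = g * a * (g⁻¹ : GL (Fin 2) F) := by
  obtain ⟨T, hT⟩ := (((toLinAlgEquiv' (R := F) (n := Fin 2)).symm.trans α).trans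
    toLinAlgEquiv').eq_linearEquivConjAlgEquiv
  refine ⟨⟨LinearMap.toMatrix' T.toLinearMap, LinearMap.toMatrix' T.symm.toLinearMap, by
    rw [← LinearMap.toMatrix'_comp]; simp, by rw [← LinearMap.toMatrix'_comp]; simp⟩, fun a => ?_⟩
  have := congrArg (fun f => LinearMap.toMatrix' (f (toLinAlgEquiv' a))) hT
  simpa [LinearEquiv.conjAlgEquiv_apply, LinearMap.toMatrix'_comp, mul_assoc, toLinAlgEquiv',
    LinearMap.toMatrixAlgEquiv'] using this

/-- the action on the two halves -/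
def rho : GL (Fin 2) F × GL (Fin 2) F →*
    End F (Matrix (Fin 2) (Fin 2) F × Matrix (Fin 2) (Fin 2) F) where
  toFun x := (LinearMap.mulLeftRight F (x.1.1, (x.1⁻¹).1)).prodMap
    (LinearMap.mulLeftRight F (x.2.1, (x.1⁻¹).1))
  map_one' := LinearMap.ext fun p => by simp
  map_mul' x y := LinearMap.ext fun p => by
    simp only [Prod.fst_mul, Prod.snd_mul, _root_.mul_inv_rev, Units.val_mul, End.mul_apply,
      LinearMap.prodMap_apply, LinearMap.mulLeftRight_apply, mul_assoc]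

theorem mem_G2 {g : GL (Fin 8) F} :
    g ∈ G2 F ↔ ∀ x y, g.1 *ᵥ mu x y = mu (g.1 *ᵥ x) (g.1 *ᵥ y) := Iff.rfl

theorem adj_inv (g : GL (Fin 2) F) : adjugate (g⁻¹).1 = g.1.det⁻¹ • g.1 := by
  have h := adjugate_mul (g⁻¹).1
  calc adjugate (g⁻¹).1 = adjugate (g⁻¹).1 * (g⁻¹).1 * g.1 := by rw [mul_assoc]; simp
    _ = _ := by rw [h]; simp

theorem exists_phi [Finite F] (h2 : (2 : F) ≠ 0) (t : G2 F) (ht : t * t = 1) (ht1 : t ≠ 1) :
    ∃ Φ : Gam F →* G2 F, (∀ g, g * t = t * g → g ∈ Φ.range) ∧ ∀ (x : Gam F) (l : F),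
      (x.1.1 : Matrix (Fin 2) (Fin 2) F) = l • 1 → (x.1.2 : Matrix (Fin 2) (Fin 2) F) = l • 1 →
        Φ x = 1 := by
  have hI : Inv (mulVecLin t.1.1) := ⟨h2, t.2, fun x => by
    have : t.1.1 * t.1.1 = 1 := congrArg (fun g : G2 F => g.1.1) ht
    simp [this], by
    by_contra! h
    exact ht1 (Subtype.ext (Units.ext (mulVec_injective (funext fun x => by simpa using h x))))⟩
  obtain ⟨Θ, m, hm, h3, h4⟩ := hI.exists_theta
  let Ψ : GL (Fin 2) F × GL (Fin 2) F →* GL (Fin 8) F :=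
    ((((Θ.conjAlgEquiv F).trans LinearMap.toMatrixAlgEquiv').toMulEquiv.toMonoidHom).comp
      rho).toHomUnits
  have hΨ : ∀ x a b, (Ψ x).1 *ᵥ Θ (a, b) = Θ (x.1.1 * a * (x.1⁻¹).1, x.2.1 * b * (x.1⁻¹).1) :=
    fun x a b => by
    change LinearMap.toMatrix' (Θ.conjAlgEquiv F (rho x)) *ᵥ _ = _
    rw [LinearMap.toMatrix'_mulVec]
    simp [LinearEquiv.conjAlgEquiv_apply, rho]
  have hext : ∀ g g' : GL (Fin 8) F, (∀ a b, g.1 *ᵥ Θ (a, b) = g'.1 *ᵥ Θ (a, b)) → g = g' :=
    fun g g' h => Units.ext (mulVec_injective (funext fun z => by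
      obtain ⟨⟨a, b⟩, rfl⟩ := Θ.surjective z; exact h a b))
  have hG : ∀ x : Gam F, Ψ x ∈ G2 F := fun x => mem_G2.2 fun y z => by
    obtain ⟨⟨a, b⟩, rfl⟩ := Θ.surjective y
    obtain ⟨⟨c, d⟩, rfl⟩ := Θ.surjective z
    have hd := mem_Gam.1 x.2
    have h0 := x.1.1.det_ne_zero
    have k1 : ∀ u, (x.1.1⁻¹).1 * (x.1.1.1 * u) = u := fun u => by rw [← mul_assoc]; simp
    have k2 : ∀ (g : GL (Fin 2) F) u, adjugate g.1 * (g.1 * u) = g.1.det • u := fun g u => by
      rw [← mul_assoc, adjugate_mul, smul_mul_assoc, one_mul]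
    have k3 : adjugate x.1.1.1 = x.1.1.1.det • (x.1.1⁻¹).1 := by
      rw [← k2]; simp
    rw [h3, hΨ, hΨ, hΨ, h3]
    simp only [mul_add, add_mul, mul_assoc, adjugate_mul_distrib, adj_inv, k1, k2, ← hd,
      mul_smul_comm, smul_mul_assoc]
    rw [k3]
    simp only [mul_smul_comm, smul_smul, mul_inv_cancel₀ h0, inv_mul_cancel₀ h0, one_smul, mul_one]
  refine ⟨(Ψ.comp (Gam F).subtype).codRestrict _ hG, fun g hg => ?_, fun x l e1 e2 => ?_⟩
  · have hc : ∀ z, t.1.1 *ᵥ (g.1.1 *ᵥ z) = g.1.1 *ᵥ (t.1.1 *ᵥ z) := fun z => by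
      have : g.1.1 * t.1.1 = t.1.1 * g.1.1 := congrArg (fun g : G2 F => g.1.1) hg
      rw [mulVec_mulVec, mulVec_mulVec, this]
    let f : _ →ₗ[F] _ := Θ.symm.toLinearMap ∘ₗ mulVecLin g.1.1 ∘ₗ Θ.toLinearMap
    have hf : ∀ p, g.1.1 *ᵥ Θ p = Θ (f p) := fun p => by simp [f]
    have h5 : ∀ a b, f (a, -b) = ((f (a, b)).1, -(f (a, b)).2) := fun a b => Θ.injective (by
      rw [← hf, ← h4, ← h4, mulVecLin_apply, mulVecLin_apply, ← hc, hf])
    have hz : ∀ u : Matrix (Fin 2) (Fin 2) F, u = -u → u = 0 := fun u hu =>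
      (smul_eq_zero.1 (by rw [two_smul]; exact add_eq_zero_iff_eq_neg.2 hu)).resolve_left h2
    have h6 : ∀ a, f (a, 0) = ((f (a, 0)).1, 0) := fun a =>
      Prod.ext rfl (hz _ (by simpa using congrArg Prod.snd (h5 a 0)))
    have h7 : f (0, 1) = (0, (f (0, 1)).2) := Prod.ext (hz _ (by
      have := congrArg Prod.fst (h5 0 1)
      rw [show ((0, -1) : _ × _) = -((0 : Matrix (Fin 2) (Fin 2) F), (1 : Matrix (Fin 2) (Fin 2) F))
        by simp, map_neg] at this
      exact this.symm)) rfl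
    have hmul : ∀ p q, Θ (f (Θ.symm (mu (Θ p) (Θ q)))) = mu (Θ (f p)) (Θ (f q)) := fun p q => by
      rw [← hf, ← hf, ← hf, Θ.apply_symm_apply]; exact g.2 _ _
    let α : _ →ₗ[F] _ := LinearMap.fst F _ _ ∘ₗ f ∘ₗ LinearMap.inl F _ _
    have hα : ∀ a, f (a, 0) = (α a, 0) := h6
    have h8 : ∀ a c, α (a * c) = α a * α c := fun a c => by
      have := hmul (a, 0) (c, 0)
      rw [h3, hα, hα, h3, Θ.symm_apply_apply] at this
      simpa [hα] using this
    have h9 : Function.Injective α := (injective_iff_map_eq_zero _).2 fun a ha => by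
      have := hf (a, 0)
      rw [hα, ha, Prod.mk_zero_zero, map_zero] at this
      have h10 := congrArg ((g.1⁻¹).1 *ᵥ ·) this
      simpa [mulVec_mulVec] using h10
    have h10 := LinearMap.surjective_of_injective h9
    obtain ⟨g₁, h11⟩ := inner_two (.ofLinearEquiv (.ofBijective α ⟨h9, h10⟩) (by
      obtain ⟨u, hu⟩ := h10 1
      have := h8 1 u
      rw [one_mul, hu, mul_one] at this
      exact this.symm) h8)
    replace h11 : ∀ a, α a = g₁ * a * (g₁⁻¹ : GL (Fin 2) F) := h11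
    generalize (f (0, 1)).2 = p at h7
    have h12 : p.det = 1 := by
      have := hmul (0, 1) (0, 1)
      rw [h3, h7, h3, Θ.symm_apply_apply] at this
      simp only [mul_zero, zero_add, adjugate_one, mul_one, adjugate_zero, add_zero, hα, h11,
        adjugate_mul, mul_smul_comm, smul_mul_assoc, Units.mul_inv, EmbeddingLike.apply_eq_iff_eq,
        Prod.mk.injEq] at this
      simpa [hm] using (congrFun (congrFun this.1 0) 0).symm
    refine ⟨⟨(g₁, GeneralLinearGroup.mkOfDetNeZero p (h12 ▸ one_ne_zero) * g₁), mem_Gam.2 (by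
      simp [h12])⟩, Subtype.ext (hext _ _ fun a b => (hΨ _ a b).trans ?_)⟩
    have := hmul (b, 0) (0, 1)
    rw [h3, h7, hα, h3, Θ.symm_apply_apply] at this
    rw [hf, show (a, b) = (a, 0) + (0, b) by simp, map_add, map_add, hα]
    simp only [mul_zero, smul_zero, add_zero, one_mul, zero_mul] at this
    rw [this, ← map_add]
    simp [h11, mul_assoc]
  · refine Subtype.ext (hext _ _ fun a b => (hΨ _ a b).trans ?_)
    have : l • (x.1.1⁻¹).1 = 1 := by rw [← one_mul (x.1.1⁻¹).1, ← smul_mul_assoc, ← e1]; simp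
    rw [Subgroup.coe_subtype, e1, e2]
    simp only [smul_mul_assoc, one_mul, ← mul_smul_comm, this, mul_one]
    simp

theorem sqD_G2 [Fintype F] (hF : Odd (Fintype.card F)) (P : Sylow 2 (G2 F)) :
    SqD (P : Subgroup (G2 F)) := by
  have h2 : (2 : F) ≠ 0 := Ring.two_ne_zero fun h => by
    have := FiniteField.even_card_iff_char_two.1 h
    obtain ⟨k, hk⟩ := hF; omega
  rcases subsingleton_or_nontrivial (P : Subgroup (G2 F)) with h | h
  · intro x hx
    rw [show x = 1 from congrArg Subtype.val (Subsingleton.elim (⟨x, hx⟩ : (P : Subgroup _)) 1),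
      one_pow]
    exact one_mem _
  have := P.2.center_nontrivial
  obtain ⟨n, hn, hc⟩ := (P.2.to_subgroup (Subgroup.center _)).nontrivial_iff_card.1 this
  obtain ⟨t, ht⟩ := exists_prime_orderOf_dvd_card' 2 (hc ▸ dvd_pow_self 2 hn.ne')
  obtain ⟨Φ, h3, h4⟩ := exists_phi h2 t.1.1 (by
    have := pow_orderOf_eq_one t
    rw [ht, sq] at this
    exact congrArg (fun z => z.1.1) this) fun h => by
      simp [show t = 1 from Subtype.ext (Subtype.ext h)] at ht
  have hP : (P : Subgroup (G2 F)) ≤ Φ.range := fun x hx =>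
    h3 x (congrArg Subtype.val (Subgroup.mem_center_iff.1 t.2 ⟨x, hx⟩))
  have := (sqD_gam hF Φ.rangeRestrict Φ.rangeRestrict_surjective
    (fun x l a b => Subtype.ext (h4 x l a b)) (P.subtype hP)).map Φ.range.subtype
  rwa [Sylow.coe_subtype, Subgroup.map_subgroupOf_eq_of_le hP] at this

end Cfsg.Agent.H19.Oc
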