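import Mathlib
import Cfsg.Agent.H19.RS2

/-! `Sp_{2n}(q)` is generated by three conjugate regular unipotent elements -/

set_option autoImplicit false
set_option linter.unusedSectionVars false
set_option linter.unusedSimpArgs false

namespace Cfsg.Agent.H19.RU

open Matrix Cfsg.Agent.H10

variable {F : Type*} [Field F] [Finite F] {m : ℕ}

local notation "𝔅" => spBilin _ _

noncomputable def yS (m : ℕ) (F : Type*) [Field F] [Finite F] : symplecticGroup (Fin (m + 2)) F :=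
  SymplecticGroup.symJ _ F * uS m F * (SymplecticGroup.symJ _ F)⁻¹

theorem yS_J (v : Fin (m + 2) ⊕ Fin (m + 2) → F) :
    (yS m F).1 *ᵥ ((SymplecticGroup.symJ _ F).1 *ᵥ v) = (SymplecticGroup.symJ _ F).1 *ᵥ ((uS m F).1 *ᵥ v) := by
  rw [yS, sp_mul_mulVec, sp_mul_mulVec, sp_inv_mulVec]

theorem yS_elim (a b : Fin (m + 2) → F) : (yS m F).1 *ᵥ Sum.elim a b =
    Sum.elim (Bi (m + 2) F *ᵥ a) (b + (J (m + 2) F)ᵀ *ᵥ b - a (Fin.last _) • (sg (m + 2) F (m + 1) + sg (m + 2) F m)) := by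
  have := yS_J (Sum.elim b (-a))
  rw [J_elim, neg_neg, uS_elim, J_elim, mulVec_neg, neg_neg] at this
  rw [this, Pi.neg_apply, neg_smul, sub_eq_add_neg]

theorem yS_inv (a : Fin (m + 2) → F) : ((yS m F)⁻¹).1 *ᵥ Sum.elim a 0 =
    Sum.elim (a + J (m + 2) F *ᵥ a) ((a + J (m + 2) F *ᵥ a) (Fin.last _) • sg (m + 2) F (m + 1)) := by
  rw [← sp_inv_mulVec (yS m F) (Sum.elim (a + _) _), yS_elim, Bi_of rfl, mulVec_smul, Jt_sg m (by omega), smul_add, sub_self]

theorem uS_inv (b : Fin (m + 2) → F) : ((uS m F)⁻¹).1 *ᵥ Sum.elim 0 b =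
    Sum.elim (-((b + J (m + 2) F *ᵥ b) (Fin.last _) • sg (m + 2) F (m + 1))) (b + J (m + 2) F *ᵥ b) := by
  rw [← sp_inv_mulVec (uS m F) (Sum.elim _ (b + _)), uS_elim, Bi_of rfl, mulVec_neg, mulVec_smul, Jt_sg m (by omega),
    smul_add, ← neg_add, neg_add_cancel]

theorem Bi_sg : Bi (m + 2) F *ᵥ sg (m + 2) F 0 = fun i : Fin (m + 2) => (-1) ^ (i : ℕ) := Bi_of (by
  ext ⟨i, hi⟩
  rw [Pi.add_apply, J_mulVec fun i => (-1 : F) ^ i]
  cases i with
  | zero => simp [sg]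
  | succ i => simp [sg, pow_succ])

theorem sq_root (h2 : (2 : F) = 0) (c : F) : ∃ a : F, a * a = c := by
  haveI : CharP F 2 := (CharP.charP_iff_prime_eq_zero Nat.prime_two).2 h2
  obtain ⟨a, ha⟩ := (bijective_frobenius F 2).2 c
  exact ⟨a, by rw [← ha, frobenius_def, sq]⟩

theorem sub_of_sq (h2 : (2 : F) = 0) {R : Subring F} {a : F} (h : a * a ∈ R) : a ∈ R := by
  cases nonempty_fintype F
  haveI : CharP F 2 := (CharP.charP_iff_prime_eq_zero Nat.prime_two).2 h2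
  obtain ⟨k, -, hk⟩ := FiniteField.card F 2
  obtain ⟨l, hl⟩ : 2 ∣ Fintype.card F := hk ▸ dvd_pow_self 2 k.ne_zero
  have := R.pow_mem h l
  rwa [← sq, ← pow_mul, ← hl, FiniteField.pow_card] at this

theorem prim_dvd' {ω : F} (h0 : ω ≠ 0) (h : ∀ x : F, x ≠ 0 → ∃ k : ℕ, ω ^ k = x) {m : ℕ} (e : ω ^ m = 1) :
    Nat.card F - 1 ∣ m := by
  rw [← Nat.card_units, ← IsCyclic.exponent_eq_card]
  refine Monoid.exponent_dvd_of_forall_pow_eq_one fun x => Units.ext ?_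
  obtain ⟨k, hk⟩ := h x x.ne_zero
  rw [Units.val_pow_eq_pow_val, ← hk, ← pow_mul, mul_comm, pow_mul, e, one_pow, Units.val_one]

variable {H : Subgroup (symplecticGroup (Fin (m + 2)) F)}

local notation "eE" k:max => (Sum.elim (sg (m + 2) F k) 0 : Fin (m + 2) ⊕ Fin (m + 2) → F)
local notation "eF" k:max => (Sum.elim 0 (sg (m + 2) F k) : Fin (m + 2) ⊕ Fin (m + 2) → F)

theorem u_e : (uS m F).1 *ᵥ (eE 0) = eE 0 := by rw [uS_elim, Jt_zero (by omega)]; simp

theorem ui_e : ((uS m F)⁻¹).1 *ᵥ (eE 0) = eE 0 := by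
  conv_lhs => rw [← u_e, sp_inv_mulVec]

theorem u_sg (k : ℕ) (hk : k + 1 < m + 2) : (uS m F).1 *ᵥ (eE (k + 1)) = (eE (k + 1)) + eE k := by
  rw [uS_elim, Jt_sg _ hk, elim_add]; simp

theorem aq_all (hu : uS m F ∈ H) (hT : ∀ b : F, ∃ z ∈ Aq H (eE 0), 𝔅 z (eE 1) = b) (x) (hx : 𝔅 x (eE 0) = 0) :
    ∃ c, Qs H (eE 0) x c := by
  refine add_cyc (Matrix.toLin' ((uS m F).1 - 1)) (Aq H (eE 0)) (fun v ⟨c, hv⟩ => ⟨_, by
    rw [toLin'_apply, sub_mulVec, one_mulVec]; exact hv.low hu u_e⟩) (2 * m + 2) (fun v hv => ?_) x ?_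
  · obtain ⟨c, rfl⟩ := N_ker hv
    obtain ⟨z, hz, e⟩ := hT ((-1) ^ m * c)
    refine ⟨z, hz, ?_⟩
    obtain ⟨a, b, rfl⟩ := elim_cases z
    obtain ⟨d, h0, -⟩ := hz
    rw [B_elim, dot_sg _ (by omega), dotProduct_zero, sub_zero] at e h0
    rw [← toLin'_pow, toLin'_apply, N_even _ _ h0, show b 1 = _ from e, ← mul_assoc, ← mul_pow]
    simp
  · obtain ⟨a, b, rfl⟩ := elim_cases x
    rw [B_elim, dot_sg _ (by omega), dotProduct_zero, sub_zero] at hx
    rw [← toLin'_pow, toLin'_apply, N_odd, show b 0 = 0 from hx]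
    simp

theorem fin_top (hy : yS m F ∈ H) (he : (eE 0) ∈ Fl H) : H = ⊤ := by
  have := cyc_mulVec (N := (uS m F).1 - 1) (n := 2 * m + 3) (by simp; omega) N_nil
    ((Fl H).comap (Matrix.toLin' (SymplecticGroup.symJ (Fin (m + 2)) F).1)) (fun v hv => by
      rw [Submodule.mem_comap, toLin'_apply] at hv ⊢
      rw [sub_mulVec, one_mulVec, mulVec_sub, ← yS_J]
      exact (Fl H).sub_mem (fl_conj hv hy) hv) (p := Sum.elim 0 (-sg (m + 2) F 0))
    (by rw [Submodule.mem_comap, toLin'_apply, J_elim, neg_neg]; exact he) (fun e => by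
      rw [N_odd] at e
      simpa [sg] using congrFun e (.inl 0))
  refine top_of_fl (top_le_iff.1 fun v _ => ?_)
  have h : ((SymplecticGroup.symJ (Fin (m + 2)) F)⁻¹).1 *ᵥ v ∈ (Fl H).comap _ := this ▸ Submodule.mem_top
  rwa [Submodule.mem_comap, toLin'_apply, sp_mulVec_inv] at h

/-- values of the top coordinate -/
noncomputable def Tq (H : Subgroup (symplecticGroup (Fin (m + 2)) F)) : AddSubgroup F :=
  (Aq H (eE 0)).map (LinearMap.toAddMonoidHom (LinearMap.flip 𝔅 (eE 1)))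

theorem mem_Tq {b : F} : b ∈ Tq H ↔ ∃ z ∈ Aq H (eE 0), 𝔅 z (eE 1) = b := Iff.rfl

theorem lower (hu : uS m F ∈ H) {b : F} (hb : b ∈ Tq H) {w} (hw : ∀ z, 𝔅 z (eE 0) = 0 → 𝔅 z ((uS m F).1 *ᵥ w - w) = 𝔅 z (eE 1)) :
    ∃ x c, Qs H (eE 0) x c ∧ 𝔅 x (eE 1) = 0 ∧ 𝔅 x w = b := by
  obtain ⟨z, ⟨c, hz⟩, rfl⟩ := mem_Tq.1 hb
  refine ⟨_, _, hz.low (H.inv_mem hu) ui_e, ?_, ?_⟩
  · rw [map_sub, LinearMap.sub_apply, sp_form_inv, u_sg 0 (by omega), map_add, hz.1]; simp
  · rw [map_sub, LinearMap.sub_apply, sp_form_inv, ← map_sub, hw z hz.1]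

theorem z_odd (h2 : (2 : F) ≠ 0) (h : ∀ x, 𝔅 x (eE 0) = 0 → ∃ c, Qs H (eE 0) x c) (c : F) : Qs H (eE 0) 0 c := by
  obtain ⟨c1, h1⟩ := h (eF 1) (by simp [B_elim, sg_sg])
  obtain ⟨c2, h3⟩ := h ((c / 2) • eE 1) (by simp [B_elim])
  have := (h3.mul h1).mul (h1.mul h3).neg
  convert this using 1
  · abel
  · simp [B_elim, sg_sg, spB_self]
    field_simp
    ring

theorem z_left (hu : uS m F ∈ H) (h : ∀ x, 𝔅 x (eE 0) = 0 → ∃ c, Qs H (eE 0) x c) (a : Fin (m + 2) → F)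
    (ha : a (Fin.last _) = 0) : Qs H (eE 0) (Sum.elim a 0) 0 := by
  obtain ⟨c, h1⟩ := h (Sum.elim (J (m + 2) F *ᵥ a) 0) (by simp [B_elim])
  have := h1.low hu u_e
  rw [uS_elim, Jt_J a ha, B_elim, elim_sub] at this
  simpa using this

theorem z_last (hu : uS m F ∈ H) (h : ∀ x, 𝔅 x (eE 0) = 0 → ∃ c, Qs H (eE 0) x c) (a : F) :
    Qs H (eE 0) (Sum.elim (a • (sg (m + 2) F (m + 1) + sg (m + 2) F m)) 0) (-(a * a)) := by
  obtain ⟨c, h1⟩ := h (Sum.elim 0 (a • sg (m + 2) F (m + 1))) (by simp [B_elim, sg_sg])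
  have := h1.low hu u_e
  rw [uS_elim, B_elim, elim_sub, mulVec_smul, Bi_last] at this
  simpa [sg, sg_sg] using this

theorem z_even (hm : 1 ≤ m) (h2 : (2 : F) = 0) (hu : uS m F ∈ H) (hy : yS m F ∈ H)
    (h : ∀ x, 𝔅 x (eE 0) = 0 → ∃ c, Qs H (eE 0) x c) (c : F) : Qs H (eE 0) 0 c := by
  obtain ⟨a, rfl⟩ := sq_root h2 c
  have hn : (-1 : F) = 1 := by linear_combination -h2
  have h1 := (z_left hu h (a • (sg (m + 2) F 0 + sg (m + 2) F 1)) (by simp [sg]; omega)).conj hy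
  have h3 := (z_last hu h a).mul (z_left hu h (a • (1 - (sg (m + 2) F (m + 1) + sg (m + 2) F m))) (by simp [sg]))
  refine Qs.swap (w := (yS m F).1 *ᵥ eE 0) (a := a) ?_ ?_
  · convert h3 using 1
    · rw [yS_elim, Bi_sg, elim_smul, elim_add, ← smul_add, add_sub_cancel, hn]
      congr 1
      · ext i; simp
      · simp [sg]
    · simp [B_elim]
      linear_combination a * a * h2
  · convert h1 using 1
    have := yS_inv (m := m) (sg (m + 2) F 0)
    rw [J_sg, show (sg (m + 2) F 0 + sg (m + 2) F (0 + 1)) (Fin.last _) = 0 by simp [sg]; omega, zero_smul] at this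
    have e := elim_smul a (sg (m + 2) F 0 + sg (m + 2) F 1) 0
    rw [smul_zero] at e
    rw [← e, mulVec_smul, ← this, sp_mulVec_inv]

theorem t_mem (hu : uS m F ∈ H) (a : F) (h0 : 𝔅 (a • eF 1) (eE 0) = 0)
    (hh : spq _ _ 0 h0 * uS m F * (spq _ _ 0 h0)⁻¹ ∈ H) :
    Qs H (eE 0) (a • Sum.elim (-((sg (m + 2) F 1 + sg (m + 2) F 2) (Fin.last _) • sg (m + 2) F (m + 1))) (sg (m + 2) F 2))
      (a * a * ((sg (m + 2) F 1 + sg (m + 2) F 2) (Fin.last _) * sg (m + 2) F 1 (Fin.last _))) := by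
  have h1 : Qs ⊤ (eE 0) (a • eF 1) 0 := ⟨h0, trivial⟩
  have h2 := h1.low (g := (uS m F)⁻¹) trivial ui_e
  have e : ((uS m F)⁻¹).1 *ᵥ (a • eF 1) - a • eF 1 =
      a • Sum.elim (-((sg (m + 2) F 1 + sg (m + 2) F 2) (Fin.last _) • sg (m + 2) F (m + 1))) (sg (m + 2) F 2) := by
    rw [mulVec_smul, uS_inv, J_sg, ← smul_sub, elim_sub]; simp
  refine ⟨e ▸ h2.1, ?_⟩
  convert H.mul_mem (H.inv_mem hu) hh using 1
  have e1 := spq_conj (uS m F)⁻¹ _ _ 0 h0
  have e2 : (spq _ _ 0 h0)⁻¹ = spq (-(a • eF 1)) (eE 0) 0 (by rw [map_neg, LinearMap.neg_apply, h0, neg_zero]) :=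
    inv_eq_of_mul_eq_one_right (sp_ext fun y => by rw [spq_mul, spq_mulVec]; simp [spB_self])
  rw [inv_inv] at e1
  rw [← mul_assoc (uS m F)⁻¹, ← mul_assoc (uS m F)⁻¹, e1, e2]
  simp only [ui_e]
  rw [spq_mul]
  congr 1
  · rw [← e, sub_eq_add_neg]
  · rw [mulVec_smul, uS_inv, J_sg]
    simp [B_elim, dot_sg _ (show m + 1 < m + 2 by omega), Fin.last]
    ring

theorem y_e : (yS m F).1 *ᵥ (eE 0) = Sum.elim (fun i : Fin (m + 2) => (-1 : F) ^ (i : ℕ)) 0 := by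
  rw [yS_elim, Bi_sg]; simp [sg]

theorem act_big (hm : 1 ≤ m) (hy : yS m F ∈ H) {x x' c c'} (h : Qs H (eE 0) x c) (h' : Qs H (eE 0) x' c')
    (e : 𝔅 x' (eE 1) = 0) : 𝔅 x ((yS m F).1 *ᵥ eE 0) * 𝔅 x' (((yS m F)⁻¹).1 *ᵥ eE 1) ∈ Tq H := by
  refine mem_Tq.2 ⟨_, ⟨_, h.act h' hy (by simp [y_e, B_elim]) ?_⟩, ?_⟩
  · rw [← sp_form_inv, yS_inv, J_sg, show (sg (m + 2) F 0 + sg (m + 2) F (0 + 1)) (Fin.last _) = 0 by simp [sg]; omega,
      zero_smul, spB_eq_zero_comm, ← add_zero (0 : Fin (m + 2) → F), ← elim_add, map_add, h'.1, e, add_zero]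
  · rw [map_add, LinearMap.add_apply, map_smul, map_smul, LinearMap.smul_apply, LinearMap.smul_apply,
      spB_swap (_ *ᵥ x'), ← sp_form_inv (yS m F) _ x', ← spB_swap, y_e, B_elim (fun i : Fin (m + 2) => (-1 : F) ^ (i : ℕ))]
    simp

theorem gen_sp (hm : m = 0 → Nat.card F ≠ 2) : ∃ g, Subgroup.closure {uS m F, g * uS m F * g⁻¹,
    SymplecticGroup.symJ _ F * uS m F * (SymplecticGroup.symJ _ F)⁻¹} = ⊤ := by
  obtain ⟨a, a0, ha⟩ := exists_prim F
  have h0 : 𝔅 (a • eF 1) (eE 0) = 0 := by simp [B_elim, sg_sg]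
  refine ⟨spq _ _ 0 h0, ?_⟩
  generalize hH : (Subgroup.closure _ : Subgroup (symplecticGroup (Fin (m + 2)) F)) = H
  have hu : uS m F ∈ H := hH ▸ Subgroup.subset_closure (by simp)
  have hy : yS m F ∈ H := hH ▸ Subgroup.subset_closure (by simp [yS])
  have ht := t_mem hu a h0 (hH ▸ Subgroup.subset_closure (by simp))
  have ha' : ∀ R : Subring F, -a ∈ R → R = ⊤ := fun R h => top_of_prim ha (by simpa using R.neg_mem h)
  rcases m with _ | m
  · have hyi := H.inv_mem hy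
    have y0 : ((yS 0 F)⁻¹).1 *ᵥ Sum.elim (sg 2 F 0) 0 = Sum.elim (sg 2 F 0 + sg 2 F 1) (sg 2 F 1) := by
      rw [yS_inv, J_sg]; simp [sg]
    have y1 : ((yS 0 F)⁻¹).1 *ᵥ Sum.elim (sg 2 F 1) 0 = Sum.elim (sg 2 F 1) (sg 2 F 1) := by
      rw [yS_inv, J_sg, sg_ge (k := 1 + 1) le_rfl]; simp [sg]
    have act : ∀ {x c β c'}, Qs H (Sum.elim (sg 2 F 0) 0) x c → 𝔅 x (Sum.elim (sg 2 F 1) 0) = 0 →
        Qs H (Sum.elim (sg 2 F 0) 0) (β • Sum.elim (sg 2 F 1) 0) c' →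
        Qs H (Sum.elim (sg 2 F 0) 0) (((2 * β + c') * 𝔅 x (Sum.elim 0 (sg 2 F 1))) • Sum.elim (sg 2 F 1) (sg 2 F 1))
          (-((2 * β + c') * 𝔅 x (Sum.elim 0 (sg 2 F 1)) ^ 2 + 2 * ((β + c') * 𝔅 x (Sum.elim 0 (sg 2 F 1))))
            + 4 * ((β + c') * 𝔅 x (Sum.elim 0 (sg 2 F 1)))) := fun {x c β c'} h e h' => by
      have h1 := h.1
      have := (h.act h' hyi (by simp [y0, B_elim, sg_sg]) (by simp [mulVec_smul, y1, B_elim, sg_sg])).mul
        (Qs.self (-((β + c') * 𝔅 x (Sum.elim 0 (sg 2 F 1)))))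
      obtain ⟨p, r, rfl⟩ := elim_cases x
      simp only [mulVec_smul, y0, y1, B_elim, map_smul, map_add, LinearMap.smul_apply, dotProduct_add, dotProduct_zero,
        sub_zero, zero_dotProduct, zero_sub, smul_eq_mul, sg_sg] at h1 e this ⊢
      simp only [h1, e] at this
      convert this using 1
      · ext (i | i) <;> simp <;> ring
      · simp; ring
    have t1 : Qs H (Sum.elim (sg 2 F 0) 0) ((-a) • Sum.elim (sg 2 F 1) 0) (a * a) := by
      convert ht using 1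
      · rw [sg_ge (k := 2) le_rfl]
        ext (i | i) <;> fin_cases i <;> simp [sg]
      · simp [sg]
    have t2 : Qs H (Sum.elim (sg 2 F 0) 0) ((-a) • Sum.elim (sg 2 F 1) 0) (a * a - 2 * a) := by
      have := (u_e (m := 0) (F := F) ▸ t1.conj hu).mul (Qs.self a)
      rw [mulVec_smul, u_sg 0 (by omega)] at this
      convert this using 1
      · module
      · simp [B_elim, sub_eq_add_neg]
    have top : ∀ {x c β c'}, Qs H (Sum.elim (sg 2 F 0) 0) x c → 𝔅 x (Sum.elim (sg 2 F 1) 0) = 0 →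
        Qs H (Sum.elim (sg 2 F 0) 0) (β • Sum.elim (sg 2 F 1) 0) c' →
        (2 * β + c') * 𝔅 x (Sum.elim 0 (sg 2 F 1)) ∈ Tq H := fun h e h' =>
      mem_Tq.2 ⟨_, ⟨_, act h e h'⟩, by simp [B_elim, sg_sg]⟩
    have mul : ∀ {β c'}, Qs H (Sum.elim (sg 2 F 0) 0) (β • Sum.elim (sg 2 F 1) 0) c' → 2 * β + c' ∈ mulr (Tq H) :=
      fun h' b hb => by
        obtain ⟨x, c, h1, h2, rfl⟩ := lower hu hb (w := Sum.elim 0 (sg 2 F 1)) fun z hz => by
          rw [uS_elim, Bi_last, elim_sub, sub_self, ← add_zero (𝔅 z (Sum.elim (sg 2 F (0 + 1)) 0)), ← hz, ← map_add, elim_add]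
          simp [sg]
        exact top h1 h2 h'
    have s1 := top t1 (by simp [B_elim]) t1
    have s2 := top t1 (by simp [B_elim]) t2
    have m1 := mul t1
    have m2 := mul t2
    simp only [map_smul, LinearMap.smul_apply, B_elim, sg_sg] at s1 s2
    by_cases h2 : (2 : F) = 0
    · have hT := mulr_top (top_of_prim ha (sub_of_sq h2 (by simpa [h2] using m1))) s1 (by simp [h2, a0])
      have hA := aq_all hu fun b => mem_Tq.1 (hT b)
      refine fin_top hy (fl_of hA fun c => ?_)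
      have a1 : a + 1 ≠ 0 := fun e => hm rfl (by
        have : a = 1 := by linear_combination e - h2
        have := Nat.le_of_dvd one_pos (prim_dvd' a0 ha (m := 1) (by simpa using this))
        have := Finite.one_lt_card (α := F)
        omega)
      have w1 : ∀ β : F, Qs H (Sum.elim (sg 2 F 0) 0) (β • Sum.elim (sg 2 F 1) 0) (β * β) := fun β => by
        have := (z_last hu hA β).mul (Qs.self (-β))
        convert this using 1
        · ext (i | i) <;> simp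
        · simp [B_elim]
          linear_combination (β * β - β) * h2
      have w2 : ∀ β ρ : F, β ≠ 0 → Qs H (Sum.elim (sg 2 F 0) 0) (ρ • Sum.elim (sg 2 F 1) (sg 2 F 1)) (ρ * β) :=
        fun β ρ hβ => by
          obtain ⟨α, hα⟩ := sq_root h2 (ρ / β)
          have hα' : α * α * β = ρ := by rw [hα, div_mul_cancel₀ _ hβ]
          have := act (w1 β) (by simp [B_elim]) (w1 α)
          simp only [map_smul, LinearMap.smul_apply, B_elim, sg_sg] at this
          convert this using 2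
          · simp
            linear_combination -hα' + (α * β + α * α * β) * h2
          · simp
            linear_combination (-β) * hα' + (α * β ^ 2 + α ^ 2 * β ^ 2 + α * β + α ^ 2 * β) * h2
      have := (w2 a (c / (a + 1)) a0).mul (w2 1 (c / (a + 1)) one_ne_zero).neg
      convert this using 1
      · simp
      · simp [spB_self]
        field_simp
        linear_combination c * h2
    · have hR : a ∈ mulr (Tq H) := by
        have := (mulr (Tq H)).mul_mem ((mulr (Tq H)).sub_mem m1 m2) (subring_inv (natCast_mem (mulr (Tq H)) 2))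
        convert this using 1
        push_cast
        field_simp
        ring
      have hT := mulr_top (top_of_prim ha hR) ((Tq H).sub_mem s1 s2) (by
        intro e
        simp at e
        exact mul_ne_zero h2 (mul_ne_zero a0 a0) (by linear_combination e))
      have hA := aq_all hu fun b => mem_Tq.1 (hT b)
      exact fin_top hy (fl_of hA (z_odd h2 hA))
  have hT : ∀ c, c ∈ Tq H := by
    have lw : ∀ b ∈ Tq H, ∃ x c, Qs H (Sum.elim (sg (m + 1 + 2) F 0) 0) x c ∧ 𝔅 x (Sum.elim (sg (m + 1 + 2) F 1) 0) = 0 ∧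
        𝔅 x (Sum.elim (sg (m + 1 + 2) F 2) 0) = b := fun b hb =>
      lower hu hb fun z _ => by rw [u_sg 1 (by omega), add_sub_cancel_left]
    rcases m with _ | m
    · have t1 := ht.low hu u_e
      have e1 : (uS 1 F).1 *ᵥ (a • Sum.elim (-((sg 3 F 1 + sg 3 F 2) (Fin.last _) • sg 3 F 2)) (sg 3 F 2)) -
          a • Sum.elim (-((sg 3 F 1 + sg 3 F 2) (Fin.last _) • sg 3 F 2)) (sg 3 F 2) = a • Sum.elim (sg 3 F 2) 0 := by
        rw [mulVec_smul, uS_elim, Bi_last, ← smul_sub, elim_sub, mulVec_neg, mulVec_smul, Jt_sg 1 (by omega)]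
        ext (i | i) <;> fin_cases i <;> simp [sg]
      rw [e1] at t1
      have key : ∀ x c, Qs H (Sum.elim (sg 3 F 0) 0) x c → 𝔅 x (Sum.elim (sg 3 F 1) 0) = 0 →
          -a * 𝔅 x (Sum.elim (sg 3 F 2) 0) ∈ Tq H := fun x c h e => by
        have h1 := h.1
        convert act_big le_rfl hy h t1 (by simp [B_elim]) using 1
        obtain ⟨p, r, rfl⟩ := elim_cases x
        rw [y_e, yS_inv, J_sg]
        simp only [B_elim, map_smul, LinearMap.smul_apply, dotProduct_zero, sub_zero] at h1 e ⊢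
        simp [dotProduct, Fin.sum_univ_three, sg] at h1 e ⊢
        simp [h1, e, mul_comm]
      refine mulr_top (ha' _ fun b hb => ?_) (key _ _ ht (by simp [B_elim, sg_sg])) (by simp [B_elim, sg_sg, a0])
      obtain ⟨x, c, h1, h2, rfl⟩ := lw b hb
      exact key x c h1 h2
    · have key : ∀ x c, Qs H (Sum.elim (sg (m + 4) F 0) 0) x c → 𝔅 x (Sum.elim (sg (m + 4) F 1) 0) = 0 →
          a * 𝔅 x (Sum.elim (sg (m + 4) F 2) 0) ∈ Tq H := fun x c h e => by
        convert act_big (by omega) hy ht h e using 2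
        · rw [y_e]
          simp [B_elim, sg_dot _ (show 2 < m + 1 + 1 + 2 by omega)]
        · rw [yS_inv, J_sg, show (sg (m + 1 + 1 + 2) F 1 + sg (m + 1 + 1 + 2) F (1 + 1)) (Fin.last _) = 0 by simp [sg],
            zero_smul, ← add_zero (0 : Fin (m + 1 + 1 + 2) → F), ← elim_add, map_add, add_zero]
          exact (zero_add _).symm.trans (congrArg₂ (· + ·) e.symm rfl)
      refine mulr_top (top_of_prim ha fun b hb => ?_) (key _ _ ht (by simp [B_elim, sg_sg])) (by simp [B_elim, sg_sg, a0])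
      obtain ⟨x, c, h1, h2, rfl⟩ := lw b hb
      exact key x c h1 h2
  have hA := aq_all hu fun b => mem_Tq.1 (hT b)
  by_cases h2 : (2 : F) = 0
  · exact fin_top hy (fl_of hA (z_even (by omega) h2 hu hy hA))
  · exact fin_top hy (fl_of hA (z_odd h2 hA))

end Cfsg.Agent.H19.RU
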