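import Mathlib
import Cfsg.Agent.H19.RV2
import Cfsg.Agent.H19.RS3

/-! `SU_n(q)`, `n` odd, is generated by three conjugate regular unipotent elements -/

set_option autoImplicit false
set_option linter.unusedSectionVars false
set_option linter.unusedSimpArgs false
set_option linter.unreachableTactic false
set_option linter.unusedTactic false
set_option linter.unnecessarySeqFocus false

namespace Cfsg.Agent.H19.RU

open Cfsg.Agent.H11 Module Matrix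

variable {F : Type*} [Field F] [Finite F] {σ : F →+* F} {q m : ℕ}

abbrev VU (m : ℕ) (F : Type*) := (Fin (m + 2) → F) × F × (Fin (m + 2) → F)

def BU (m : ℕ) (σ : F →+* F) : VU m F →ₛₗ[σ] VU m F →ₗ[F] F :=
  LinearMap.mk₂'ₛₗ σ (RingHom.id F) (fun u v => hermB _ σ u.1 v.2.2 + σ u.2.1 * v.2.1 + hermB _ σ u.2.2 v.1)
    (fun _ _ _ => by simp; ring) (fun _ _ _ => by simp; ring) (fun _ _ _ => by simp; ring) (fun _ _ _ => by simp; ring)

theorem BU_apply (u v : VU m F) : BU m σ u v = (σ ∘ u.1) ⬝ᵥ v.2.2 + σ u.2.1 * v.2.1 + (σ ∘ u.2.2) ⬝ᵥ v.1 := rfl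

theorem BU_herm (hq : QConj σ q) : IsHerm (BU m σ) :=
  ⟨hq.ne_id, hq.invol, fun x y => by
    show σ (hermB _ σ _ _ + _ + hermB _ σ _ _) = hermB _ σ _ _ + _ + hermB _ σ _ _
    simp only [map_add, map_mul, (hq.isHerm _).symm, hq.invol]; ring⟩

theorem BU_sep : (BU m σ).SeparatingLeft := fun x hx => by
  refine Prod.ext (hermB_sep (σ := σ) _ _ fun y => ?_) (Prod.ext ?_ (hermB_sep (σ := σ) _ _ fun y => ?_))
  · exact (by simpa [BU_apply] using hx (0, 0, y) : (σ ∘ x.1) ⬝ᵥ y = 0)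
  · simpa [BU_apply] using hx (0, 1, 0)
  · exact (by simpa [BU_apply] using hx (y, 0, 0) : (σ ∘ x.2.2) ⬝ᵥ y = 0)

theorem sig_sg {n : ℕ} (k : ℕ) : σ ∘ sg n F k = sg n F k := by
  ext i; simp only [sg, Function.comp]; split_ifs <;> simp

theorem sig_zero {n : ℕ} : σ ∘ (0 : Fin n → F) = 0 := by ext; simp

theorem sig_add {n : ℕ} (a b : Fin n → F) : σ ∘ (a + b) = σ ∘ a + σ ∘ b := by ext; simp

theorem sig_neg {n : ℕ} (a : Fin n → F) : σ ∘ (-a) = -(σ ∘ a) := by ext; simp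

theorem sig_smul {n : ℕ} (c : F) (a : Fin n → F) : σ ∘ (c • a) = σ c • σ ∘ a := by ext; simp

theorem map_J {n : ℕ} : (J n F).map σ = J n F := by
  ext i j; simp only [J, map_apply, of_apply]; split_ifs <;> simp

theorem sig_J {n : ℕ} (a : Fin n → F) : σ ∘ (J n F *ᵥ a) = J n F *ᵥ (σ ∘ a) := by
  ext i; rw [Function.comp, RingHom.map_mulVec, map_J]

theorem sig_Jt {n : ℕ} (a : Fin n → F) : σ ∘ ((J n F)ᵀ *ᵥ a) = (J n F)ᵀ *ᵥ (σ ∘ a) := by
  ext i; rw [Function.comp, RingHom.map_mulVec, transpose_map, map_J]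

theorem sig_Bi {n : ℕ} (a : Fin n → F) : σ ∘ (Bi n F *ᵥ a) = Bi n F *ᵥ (σ ∘ a) := by
  refine (Bi_of ?_).symm
  rw [← sig_J, ← sig_add, mulVec_mulVec, ← add_mulVec, ← one_mul (Bi n F), ← mul_assoc, mul_one, ← add_mul, mul_Bi, one_mulVec]

theorem dot_B {n : ℕ} (a b : Fin n → F) : ((1 + J n F)ᵀ *ᵥ a) ⬝ᵥ (Bi n F *ᵥ b) = a ⬝ᵥ b := by
  rw [mulVec_transpose, ← dotProduct_mulVec, mulVec_mulVec, mul_Bi, one_mulVec]

noncomputable def LU (m : ℕ) (σ : F →+* F) : UIsom (BU m σ) :=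
  ⟨(toLin'OfInv (M := (1 + J (m + 2) F)ᵀ) (M' := (Bi (m + 2) F)ᵀ) (by rw [← transpose_mul, Bi_mul, transpose_one])
      (by rw [← transpose_mul, mul_Bi, transpose_one])).symm.prodCongr ((LinearEquiv.refl F F).prodCongr
      (toLin'OfInv (M := 1 + J (m + 2) F) (M' := Bi (m + 2) F) mul_Bi Bi_mul)), mem_uisom.2 fun x y => by
    show (σ ∘ ((1 + J (m + 2) F)ᵀ *ᵥ x.1)) ⬝ᵥ (Bi (m + 2) F *ᵥ y.2.2) + σ x.2.1 * y.2.1 +
      (σ ∘ (Bi (m + 2) F *ᵥ x.2.2)) ⬝ᵥ ((1 + J (m + 2) F)ᵀ *ᵥ y.1) = _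
    rw [sig_Bi, dotProduct_comm (Bi _ F *ᵥ _), dot_B, dotProduct_comm y.1, BU_apply, ← dot_B (σ ∘ x.1), transpose_add,
      add_mulVec, add_mulVec, sig_add, sig_Jt, transpose_one, one_mulVec, one_mulVec]⟩

theorem LU_apply (x : VU m F) : (LU m σ).1 x = ((1 + J (m + 2) F)ᵀ *ᵥ x.1, x.2.1, Bi (m + 2) F *ᵥ x.2.2) := rfl

theorem LU_mem : LU m σ ∈ SIsom (BU m σ) := by
  rw [mem_sisom, show ((LU m σ).1 : VU m F →ₗ[F] VU m F) =
    (toLin' (1 + J (m + 2) F)ᵀ).prodMap (LinearMap.id.prodMap (toLin' (Bi (m + 2) F))) from rfl, LinearMap.det_prodMap,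
    LinearMap.det_prodMap, LinearMap.det_toLin', LinearMap.det_toLin', det_transpose, LinearMap.det_id, one_mul, ← det_mul,
    mul_Bi, det_one]

def wU (m : ℕ) (σ : F →+* F) (ε : F) (hε : ε * ε = 1) (hσ : σ ε = ε) : UIsom (BU m σ) :=
  ⟨{ toFun := fun x => ε • (x.2.2, x.2.1, x.1)
     invFun := fun x => ε • (x.2.2, x.2.1, x.1)
     map_add' := fun x y => by simp [mul_add]
     map_smul' := fun c x => by simp [smul_comm c ε, mul_left_comm]
     left_inv := fun x => by simp [smul_smul, hε, ← mul_assoc]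
     right_inv := fun x => by simp [smul_smul, hε, ← mul_assoc] }, mem_uisom.2 fun x y => by
    show BU m σ (ε • _) (ε • _) = _
    simp only [map_smulₛₗ, LinearMap.smul_apply, smul_eq_mul, RingHom.id_apply, hσ, BU_apply]
    linear_combination ((σ ∘ x.1) ⬝ᵥ y.2.2 + σ x.2.1 * y.2.1 + (σ ∘ x.2.2) ⬝ᵥ y.1) * hε⟩

theorem finrank_VU : finrank F (VU m F) = 2 * m + 4 + 1 := by simp; ring

theorem exists_wU : ∃ w ∈ SIsom (BU m σ), ∃ ε : F, ε ≠ 0 ∧ ∀ x, w.1 x = ε • (x.2.2, x.2.1, x.1) := by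
  have h1 : LinearMap.det ((wU m σ 1 (by simp) (by simp)).1 : VU m F →ₗ[F] VU m F) ^ 2 = 1 := by
    rw [← map_pow, sq, show ((wU m σ 1 (by simp) (by simp)).1 : VU m F →ₗ[F] VU m F) * (wU m σ 1 (by simp) (by simp)).1 = 1 from
      LinearMap.ext fun x => (wU m σ 1 (by simp) (by simp)).1.left_inv x, map_one]
  rcases sq_eq_one_iff.1 h1 with e | e
  · exact ⟨_, mem_sisom.2 e, 1, one_ne_zero, fun _ => rfl⟩
  · refine ⟨wU m σ (-1) (by simp) (by simp), mem_sisom.2 ?_, -1, by simp, fun _ => rfl⟩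
    rw [show ((wU m σ (-1) (by simp) (by simp)).1 : VU m F →ₗ[F] VU m F) = (-1 : F) • (wU m σ 1 (by simp) (by simp)).1 from
      LinearMap.ext fun x => by simp [wU], LinearMap.det_smul, e, finrank_VU]
    simp [pow_succ, pow_mul]

/-- the action of the regular unipotent element -/
def IsU (c : F) (u : UIsom (BU m σ)) : Prop := ∀ a s b, u.1 (a, s, b) =
  (a + (J (m + 2) F)ᵀ *ᵥ a + (s - c * b (Fin.last _)) • (sg (m + 2) F (m + 1) + sg (m + 2) F m), s - b (Fin.last _),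
    Bi (m + 2) F *ᵥ b)

theorem exists_U (h : IsHerm (BU m σ)) {c : F} (hc : c + σ c = 1) : ∃ u ∈ SIsom (BU m σ), IsU c u := by
  refine ⟨LU m σ * h.eich (u := (sg _ F (m + 1), 0, 0)) (w := (0, 1, 0)) (c := c) (by simp [BU_apply]) (by simp [BU_apply])
    (by simp [BU_apply, hc]), mul_mem LU_mem (h.eich_mem_sisom _ _ _), fun a s b => ?_⟩
  rw [Subgroup.coe_mul, LinearEquiv.mul_apply, h.eich_apply, LU_apply]
  simp [BU_apply, sig_sg, sig_zero, sg_dot _ (show m + 1 < m + 2 by omega), add_mulVec, mulVec_add, mulVec_sub, mulVec_smul,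
    Jt_sg m (show m + 1 < m + 2 by omega), Fin.last]
  module

namespace IsU

variable {c : F} {u : UIsom (BU m σ)}

theorem N (hu : IsU c u) (a s b) : ((u.1 : VU m F →ₗ[F] VU m F) - 1) (a, s, b) =
    ((J (m + 2) F)ᵀ *ᵥ a + (s - c * b (Fin.last _)) • (sg (m + 2) F (m + 1) + sg (m + 2) F m), -b (Fin.last _),
      (Bi (m + 2) F - 1) *ᵥ b) := by
  rw [LinearMap.sub_apply, LinearEquiv.coe_coe, hu, sub_mulVec, one_mulVec]
  ext <;> simp <;> ring

theorem N_left (hu : IsU c u) (k : ℕ) (a) :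
    (((u.1 : VU m F →ₗ[F] VU m F) - 1) ^ k) (a, 0, 0) = ((J (m + 2) F ^ k)ᵀ *ᵥ a, 0, 0) := by
  induction k with
  | zero => simp
  | succ k ih => rw [pow_succ', Module.End.mul_apply, ih, hu.N, pow_succ, transpose_mul, ← mulVec_mulVec]; simp

theorem N_pow (hu : IsU c u) (k : ℕ) (a s b) :
    ∃ a' s', (((u.1 : VU m F →ₗ[F] VU m F) - 1) ^ k) (a, s, b) = (a', s', (Bi (m + 2) F - 1) ^ k *ᵥ b) := by
  induction k with
  | zero => exact ⟨a, s, by simp⟩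
  | succ k ih =>
    obtain ⟨a', s', h⟩ := ih
    exact ⟨_, _, by rw [pow_succ', Module.End.mul_apply, h, hu.N, mulVec_mulVec, ← pow_succ']⟩

theorem N_key (hu : IsU c u) (a s) (β : F) : (((u.1 : VU m F →ₗ[F] VU m F) - 1) ^ (m + 3)) (a, s, β • sg (m + 2) F (m + 1)) =
    (-β) • (sg (m + 2) F 0, 0, 0) := by
  rw [pow_succ, pow_succ, Module.End.mul_apply, Module.End.mul_apply, hu.N a s, mulVec_smul, sub_mulVec, Bi_last, one_mulVec,
    sub_self, smul_zero, hu.N, mulVec_zero, Pi.zero_apply, neg_zero, hu.N_left,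
    mulVec_add, mulVec_mulVec, ← transpose_mul, ← pow_succ', J_nil, transpose_zero, zero_mulVec, mulVec_smul, mulVec_add,
    Jp_sg _ _ (by omega), Jp_sg _ _ (by omega)]
  simp [sg]

theorem N_top (hu : IsU c u) (a s b) : (((u.1 : VU m F →ₗ[F] VU m F) - 1) ^ (2 * m + 4)) (a, s, b) =
    (-((-1) ^ (m + 1) * b 0)) • (sg (m + 2) F 0, 0, 0) := by
  obtain ⟨a', s', h⟩ := hu.N_pow (m + 1) a s b
  rw [show 2 * m + 4 = (m + 3) + (m + 1) by omega, pow_add, Module.End.mul_apply, h, D_top, hu.N_key]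

theorem N_top' (hu : IsU c u) (a s b) (hb : b 0 = 0) : (((u.1 : VU m F →ₗ[F] VU m F) - 1) ^ (2 * m + 3)) (a, s, b) =
    (-((-1) ^ m * b 1)) • (sg (m + 2) F 0, 0, 0) := by
  obtain ⟨a', s', h⟩ := hu.N_pow m a s b
  rw [show 2 * m + 3 = (m + 3) + m by omega, pow_add, Module.End.mul_apply, h, D_top' _ hb, hu.N_key]

theorem e0 (hu : IsU c u) : u.1 (sg (m + 2) F 0, 0, 0) = (sg (m + 2) F 0, 0, 0) := by
  rw [hu, Jt_zero (by omega)]; simp

theorem es (hu : IsU c u) (k : ℕ) (hk : k + 1 < m + 2) :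
    u.1 (sg (m + 2) F (k + 1), 0, 0) = (sg (m + 2) F (k + 1), 0, 0) + (sg (m + 2) F k, 0, 0) := by
  rw [hu, Jt_sg _ hk]; simp

theorem N_nil (hu : IsU c u) : ((u.1 : VU m F →ₗ[F] VU m F) - 1) ^ (2 * m + 4 + 1) = 0 := by
  refine LinearMap.ext fun ⟨a, s, b⟩ => ?_
  rw [pow_succ', Module.End.mul_apply, hu.N_top, map_smul, LinearMap.sub_apply, LinearEquiv.coe_coe, hu.e0]
  simp

theorem N_ker (hu : IsU c u) {v : VU m F} (h : ((u.1 : VU m F →ₗ[F] VU m F) - 1) v = 0) :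
    ∃ d : F, v = d • (sg (m + 2) F 0, 0, 0) := by
  obtain ⟨a, s, b⟩ := v
  rw [hu.N, Prod.mk_eq_zero, Prod.mk_eq_zero, neg_eq_zero, sub_mulVec, one_mulVec] at h
  obtain ⟨h1, h3, h2⟩ := h
  have h6 : s = 0 := by
    have := congrFun h1 (Fin.last _)
    simpa [Jt_apply, sg_ge, sg, h3] using this
  have h4 : J (m + 2) F *ᵥ b = 0 := by
    have := congrArg ((1 + J (m + 2) F) *ᵥ ·) (sub_eq_zero.1 h2)
    simp only [mulVec_mulVec, mul_Bi, one_mulVec, add_mulVec] at this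
    exact left_eq_add.1 this
  have h5 : b = 0 := by rw [← Jt_J b h3, h4, mulVec_zero]
  rw [h3, h6, mul_zero, sub_zero, zero_smul, add_zero] at h1
  refine ⟨a 0, ?_⟩
  have := J_Jt (a - a 0 • sg (m + 2) F 0) (by simp [sg])
  rw [mulVec_sub, mulVec_smul, h1, Jt_zero (by omega), smul_zero, sub_zero, mulVec_zero, eq_comm, sub_eq_zero] at this
  rw [h5, h6, Prod.smul_mk, ← this]; simp

theorem inv (hu : IsU c u) (hc : c + σ c = 1) (s : F) (b : Fin (m + 2) → F) : (u⁻¹).1 (0, s, b) =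
    (-((s + σ c * (b + J (m + 2) F *ᵥ b) (Fin.last _)) • sg (m + 2) F (m + 1)), s + (b + J (m + 2) F *ᵥ b) (Fin.last _),
      b + J (m + 2) F *ᵥ b) := by
  refine u.1.symm_apply_eq.2 ?_
  rw [hu, Bi_of rfl, mulVec_neg, mulVec_smul, Jt_sg m (by omega), show σ c = 1 - c by linear_combination hc]
  refine Prod.ext ?_ (by simp)
  show 0 = _ + _ + _
  module

end IsU

theorem form_inv {V : Type*} [AddCommGroup V] [Module F V] {B : V →ₛₗ[σ] V →ₗ[F] F} (g : UIsom B) (x y : V) :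
    B x (g⁻¹.1 y) = B (g.1 x) y := by
  rw [← g.2.1 x]; congr 1; exact g.1.apply_symm_apply y

theorem form_inv' {V : Type*} [AddCommGroup V] [Module F V] {B : V →ₛₗ[σ] V →ₗ[F] F} (g : UIsom B) (x y : V) :
    B (g⁻¹.1 x) y = B x (g.1 y) := by
  rw [← g.2.1 _ y]; congr 2; exact g.1.apply_symm_apply x

end Cfsg.Agent.H19.RU
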