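import Mathlib
import Cfsg.Agent.H19.RV3

/-! `SU_n(q)`, `n ≥ 5` odd, is generated by three conjugate regular unipotent elements -/

set_option autoImplicit false
set_option linter.unusedSectionVars false
set_option linter.unusedSimpArgs false
set_option linter.unreachableTactic false
set_option linter.unusedTactic false
set_option linter.unnecessarySeqFocus false

namespace Cfsg.Agent.H19.RU

open Cfsg.Agent.H11 Module Matrix

variable {F : Type*} [Field F] [Finite F] {σ : F →+* F} {q m : ℕ}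

theorem Qu.comm {V : Type*} [AddCommGroup V] [Module F V] {B : V →ₛₗ[σ] V →ₗ[F] F} {h : IsHerm B} {H : Subgroup (UIsom B)}
    {v x : V} {c : F} {g : UIsom B} (hv : B v v = 0) (hx : B v x = 0) (hc : c + σ c = B x x) (mu : g ∈ H)
    (e : g⁻¹.1 v = v) (hh : h.eich hv hx hc * g * (h.eich hv hx hc)⁻¹ ∈ H) :
    Qu h H v (g⁻¹.1 x - x) (-B (g⁻¹.1 x - x) x) := by
  have t : Qu h ⊤ v x c := ⟨hv, hx, hc, trivial⟩
  obtain ⟨_, h1, h2, -⟩ := (e ▸ t.conj (g := g⁻¹) trivial).mul t.neg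
  have e2 : c + σ c + B (g⁻¹.1 x) (-x) = -B (g⁻¹.1 x - x) x := by rw [hc]; simp; ring
  rw [← sub_eq_add_neg] at h1
  rw [e2, ← sub_eq_add_neg] at h2
  refine ⟨hv, h1, h2, ?_⟩
  convert H.mul_mem (H.inv_mem mu) hh using 1
  have e1 := h.conj_eich g⁻¹ hv hx hc
  rw [inv_inv] at e1
  rw [← mul_assoc, ← mul_assoc, e1, h.eich_inv]
  simp only [e]
  rw [h.eich_mul]
  congr 1
  · rw [sub_eq_add_neg]
  · exact e2.symm

variable {c : F} {u y : UIsom (BU m σ)} {H : Subgroup (UIsom (BU m σ))} {h : IsHerm (BU m σ)}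

local notation "eE" k:max => ((sg (m + 2) F k, 0, 0) : VU m F)
local notation "𝔅" => BU _ σ

theorem BE (a : Fin (m + 2) → F) (z : VU m F) : 𝔅 (a, 0, 0) z = (σ ∘ a) ⬝ᵥ z.2.2 := by simp [BU_apply, sig_zero]

theorem BE0 : 𝔅 (eE 0) (eE 0) = 0 := by simp [BE]

def IsY (u y : UIsom (BU m σ)) : Prop :=
  ∀ a s b, y.1 (b, s, a) = ((u.1 (a, s, b)).2.2, (u.1 (a, s, b)).2.1, (u.1 (a, s, b)).1)

theorem IsY.e0 (hy : IsY u y) (hu : IsU c u) : y.1 (eE 0) = (fun i : Fin (m + 2) => (-1 : F) ^ (i : ℕ), 0, 0) := by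
  rw [hy, hu, Bi_sg]; simp [sg]

theorem IsY.inv (hy : IsY u y) (hu : IsU c u) (hc : c + σ c = 1) (s : F) (a : Fin (m + 2) → F) : (y⁻¹).1 (a, s, 0) =
    (a + J (m + 2) F *ᵥ a, s + (a + J (m + 2) F *ᵥ a) (Fin.last _),
      -((s + σ c * (a + J (m + 2) F *ᵥ a) (Fin.last _)) • sg (m + 2) F (m + 1))) := by
  refine y.1.symm_apply_eq.2 ?_
  rw [hy, ← hu.inv hc, show u.1 (u⁻¹.1 (0, s, a)) = (0, s, a) from u.1.apply_symm_apply _]

theorem IsU.ie0 (hu : IsU c u) : u⁻¹.1 (eE 0) = eE 0 := u.1.symm_apply_eq.2 hu.e0.symm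

noncomputable def Tu (h : IsHerm (BU m σ)) (H : Subgroup (UIsom (BU m σ))) : AddSubgroup F :=
  (Au h H BE0).map (𝔅 (eE 1)).toAddMonoidHom

theorem mem_Tu {b : F} : b ∈ Tu h H ↔ ∃ z, (∃ d, Qu h H (eE 0) z d) ∧ 𝔅 (eE 1) z = b := Iff.rfl

theorem fin_su (hu : IsU c u) (hy : IsY u y) (mu : u ∈ H) (my : y ∈ H) (hT : ∀ b, b ∈ Tu h H) : SIsom (BU m σ) ≤ H := by
  have hA : ∀ x, 𝔅 (eE 0) x = 0 → ∃ d, Qu h H (eE 0) x d := fun x hx => by
    refine add_cyc ((u.1 : VU m F →ₗ[F] VU m F) - 1) (Au h H BE0) (fun v ⟨d, hv⟩ => hv.low mu hu.e0) (2 * m + 3)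
      (fun v hv => ?_) x ?_
    · obtain ⟨d, rfl⟩ := hu.N_ker hv
      obtain ⟨⟨a, s, b⟩, hz, e⟩ := mem_Tu.1 (hT (-((-1) ^ m * d)))
      refine ⟨_, hz, ?_⟩
      obtain ⟨_, _, h0, -⟩ := hz
      rw [BE, sig_sg, sg_dot _ (by omega)] at e h0
      rw [hu.N_top' a s b h0, show b 1 = _ from e, mul_neg, neg_neg, ← mul_assoc, ← mul_pow]
      simp
    · obtain ⟨a, s, b⟩ := x
      rw [BE, sig_sg, sg_dot _ (by omega)] at hx
      rw [hu.N_top, show b 0 = 0 from hx]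
      simp
  have t := fu_of (w := (0, 1, 0)) BE0 hA (by simp [BE]) (by simp [BU_apply])
  by_contra hne
  have key : ∀ k : ℕ, ∀ v, (((u.1 : VU m F →ₗ[F] VU m F) - 1) ^ k) (0, 0, sg (m + 2) F 0) = v →
      ∀ g ∈ H, 𝔅 (eE 0) (g.1 (v.2.2, v.2.1, v.1)) = 0 := fun k => by
    induction k with
    | zero =>
      rintro _ rfl g hg
      by_contra e
      exact hne (le_of_fu BU_sep t hg e)
    | succ k ih =>
      rintro _ rfl g hg
      rw [pow_succ', Module.End.mul_apply]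
      generalize (((u.1 : VU m F →ₗ[F] VU m F) - 1) ^ k) (0, 0, sg (m + 2) F 0) = v at ih ⊢
      have := congrArg₂ (· - ·) (ih v rfl _ (H.mul_mem hg my)) (ih v rfl g hg)
      simp only [Subgroup.coe_mul, LinearEquiv.mul_apply, ← map_sub, sub_zero] at this
      rw [hy v.1 v.2.1 v.2.2] at this
      exact this
  have := key _ _ (hu.N_top 0 0 _) 1 H.one_mem
  simp [BE, sig_sg, sg_sg, sg] at this

theorem lower_u (hu : IsU c u) (mu : u ∈ H) (hm : 1 ≤ m) {b : F} (hb : b ∈ Tu h H) :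
    ∃ x d, Qu h H (eE 0) x d ∧ 𝔅 (eE 1) x = 0 ∧ 𝔅 (eE 2) x = b := by
  obtain ⟨z, ⟨d, hz⟩, rfl⟩ := mem_Tu.1 hb
  obtain ⟨d', h1⟩ := hz.low (H.inv_mem mu) hu.ie0
  refine ⟨_, _, h1, ?_, ?_⟩
  · rw [map_sub, form_inv, hu.es 0 (by omega), map_add, LinearMap.add_apply, hz.2.1]; simp
  · rw [map_sub, form_inv, hu.es 1 (by omega), map_add, LinearMap.add_apply]; simp

theorem act_u (hu : IsU c u) (hy : IsY u y) (hc : c + σ c = 1) (my : y ∈ H) (hm : 1 ≤ m) {x x' d d'}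
    (t : Qu h H (eE 0) x d) (t' : Qu h H (eE 0) x' d') (e : 𝔅 (eE 1) x' = 0) :
    -(𝔅 (y.1 (eE 0)) x * 𝔅 (y⁻¹.1 (eE 1)) x') ∈ Tu h H := by
  refine mem_Tu.2 ⟨_, t.act t' my (by rw [hy.e0 hu, BE]; simp) ?_, ?_⟩
  · rw [← h.symm, ← form_inv', hy.inv hu hc, J_sg,
      show (sg (m + 2) F 0 + sg (m + 2) F (0 + 1)) (Fin.last _) = 0 by simp [sg]; omega]
    have h0 := t'.2.1
    simp only [BE, sig_add, add_dotProduct, add_zero, mul_zero, zero_smul, neg_zero, zero_add] at h0 e ⊢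
    rw [h0, e, add_zero, map_zero]
  · rw [form_inv']
    simp only [map_sub, map_smul, smul_eq_mul]
    rw [hy.e0 hu, BE (sg _ F 1) (_, 0, 0)]
    simp

theorem gen_su (hq : QConj σ q) : PU (BU m σ) (2 * m + 4) False := by
  have h := BU_herm (m := m) hq
  obtain ⟨c, hc⟩ := exists_trace_eq h.ne h.invol (map_one σ)
  have c0 : c ≠ 0 := by rintro rfl; simp at hc
  obtain ⟨u, su, hu⟩ := exists_U h hc
  obtain ⟨w, sw, ε, e0, hw⟩ := exists_wU (m := m) (σ := σ)
  obtain ⟨ω, w0, hω⟩ := exists_prim F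
  have hy : IsY u (w * u * w⁻¹) := fun a s b => by
    have e1 : w⁻¹.1 (b, s, a) = ε⁻¹ • (a, s, b) := w.1.symm_apply_eq.2 (by rw [map_smul, hw, smul_smul]; simp [e0])
    simp only [Subgroup.coe_mul, LinearEquiv.mul_apply]
    rw [e1, map_smul, map_smul, hw, smul_smul]
    simp [e0]
  have main : ∀ a a' : F, (∀ H : Subgroup (UIsom (BU m σ)), u ∈ H → w * u * w⁻¹ ∈ H →
      Qu h H (eE 0) (u⁻¹.1 (0, a', a • sg _ F 1) - (0, a', a • sg _ F 1))
        (-𝔅 (u⁻¹.1 (0, a', a • sg _ F 1) - (0, a', a • sg _ F 1)) (0, a', a • sg _ F 1)) → ∀ b, b ∈ Tu h H) →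
      PU (BU m σ) (2 * m + 4) False := fun a a' hT => by
    obtain ⟨d, hd⟩ := h.form.tv (0, a', a • sg _ F 1)
    have hx : 𝔅 (eE 0) ((0, a', a • sg _ F 1) : VU m F) = 0 := by simp [BE, sig_sg, sg_sg]
    refine ⟨u, su, h.eich BE0 hx hd.symm, h.eich_mem_sisom _ _ _, w, sw, False.elim, hu.N_nil, fun e => ?_, ?_⟩
    · have := hu.N_top 0 0 (sg _ F 0)
      rw [e] at this
      simpa [sg] using congrFun (congrArg Prod.fst this) 0
    generalize hH : (Subgroup.closure _ : Subgroup (UIsom (BU m σ))) = H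
    have mu : u ∈ H := hH ▸ Subgroup.subset_closure (by simp)
    have my : w * u * w⁻¹ ∈ H := hH ▸ Subgroup.subset_closure (by simp)
    exact fin_su hu hy mu my (hT H mu my (Qu.comm BE0 hx hd.symm mu hu.ie0 (hH ▸ Subgroup.subset_closure (by simp))))
  generalize w * u * w⁻¹ = y at hy main
  have hω' : ∀ R : Subring F, -ω ∈ R → R = ⊤ := fun R h => top_of_prim hω (by simpa using R.neg_mem h)
  rcases m with _ | _ | m
  · obtain ⟨θ, hθ⟩ : ∃ x, σ x ≠ x := by
      by_contra hne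
      push Not at hne
      exact h.ne (RingHom.ext hne)
    have θ0 : θ ≠ 0 := by rintro rfl; simp at hθ
    have tr : ω + σ ω ≠ 0 := fun e => by
      obtain ⟨p, rfl⟩ : ∃ p, q = p + 1 := ⟨q - 1, by have := hq.two_le; omega⟩
      have h1 : ω ^ p = -1 := mul_right_cancel₀ w0 (by rw [← pow_succ, ← hq.eq]; linear_combination e)
      have h2 := prim_dvd w0 hω (m := p * 2) (by rw [pow_mul, h1]; simp)
      rw [hq.card, show (p + 1) ^ 2 - 1 = p * (p + 2) from Nat.sub_eq_of_eq_add (by ring)] at h2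
      have := hq.two_le
      have := Nat.le_of_dvd two_pos (Nat.dvd_of_mul_dvd_mul_left (by omega) h2)
      omega
    obtain ⟨a, a1, ha⟩ : ∃ a : F, 1 + a ≠ 0 ∧ σ (c * a) * (c * a) = -(ω + σ ω) := by
      obtain ⟨d, hd⟩ := h.exists_norm (a := -(ω + σ ω)) (by simp [h.invol, add_comm])
      by_cases h1 : 1 + d / c = 0
      · refine ⟨d / c * (σ θ / θ), fun e => hθ ?_, ?_⟩
        · rw [show d / c = -1 by linear_combination h1] at e
          field_simp at e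
          linear_combination -e
        · have : σ θ ≠ 0 := by simpa using θ0
          have : σ c ≠ 0 := by simpa using c0
          simp only [map_mul, map_div₀, h.invol, ← hd]
          field_simp
      · exact ⟨d / c, h1, by rw [mul_div_cancel₀ _ c0, hd]⟩
    have a0 : a ≠ 0 := by rintro rfl; exact tr (neg_eq_zero.1 (ha.symm.trans (by simp)))
    have sc : σ c = 1 - c := by linear_combination hc
    have c1 : σ c ≠ 0 := by simpa using c0
    obtain ⟨r, hr⟩ := exists_sub_conj h.ne h.invol (c := (ω + c * a - σ c * σ a + c * σ c * σ c * σ a * a) / (c * σ c)) (by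
      simp only [map_mul, map_div₀, map_add, map_sub, h.invol] at ha ⊢
      field_simp
      linear_combination ha + (c * σ c * σ a * a) * hc)
    obtain ⟨β, hβ⟩ : ∃ β, σ β * (1 + a) = r := ⟨σ (r / (1 + a)), by rw [h.invol, div_mul_cancel₀ _ a1]⟩
    refine main a (-σ c * a - β) fun H mu my t => ?_
    rw [hu.inv hc, mulVec_smul, J_sg, sg_ge (k := 1 + 1) le_rfl] at t
    have t0 : Qu h H (sg 2 F 0, 0, 0) (β • sg 2 F 1, a, 0) (σ c * σ a * a + σ a * β - a * σ β) := by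
      convert t using 1
      · simp [sg]
        module
      · simp [BU_apply, sig_smul, sig_sg, sig_neg, sig_zero, sg_sg, sg]
        ring
    have low : ∀ {a' s d}, Qu h H (sg 2 F 0, 0, 0) (a', s, 0) d → ω * s ∈ Tu h H := fun {a' s d} t => by
      obtain ⟨_, t1⟩ := t.low mu hu.e0
      obtain ⟨_, t1⟩ := (t1.mul (Qu.self BE0 (-(a' 1 + s)))).ex (x' := (s • sg 2 F 1, 0, 0)) (by
        rw [hu]
        ext i
        · fin_cases i <;> simp [sg, J, dotProduct, vecHead, vecTail] <;> ring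
        · simp
        · simp)
      have y0 : y⁻¹.1 (sg 2 F 0, 0, 0) = (sg 2 F 0 + sg 2 F 1, 1, -(σ c • sg 2 F 1)) := by
        rw [hy.inv hu hc, J_sg]; simp [sg]
      have y1 : y⁻¹.1 (β • sg 2 F 1, a, 0) = (β • sg 2 F 1, a + β, -((a + σ c * β) • sg 2 F 1)) := by
        rw [hy.inv hu hc, mulVec_smul, J_sg, sg_ge (k := 1 + 1) le_rfl]; simp [sg]
      refine mem_Tu.2 ⟨_, t1.act t0 (H.inv_mem my) (by rw [y0]; simp [BU_apply, dotProduct, sg])
        (by rw [y1]; simp [BU_apply, dotProduct, sg]), ?_⟩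
      rw [y0, y1]
      simp [BU_apply, dotProduct, sg, h.invol]
      rw [← hβ] at hr
      simp only [map_mul, map_add, map_one, h.invol] at hr
      field_simp at hr
      linear_combination s * hr
    refine mulr_top (hω' _ fun b hb => ?_) (low t0) (mul_ne_zero w0 a0)
    obtain ⟨⟨a', s, b⟩, ⟨d, hz⟩, rfl⟩ := mem_Tu.1 hb
    obtain ⟨_, t1⟩ := hz.low mu hu.e0
    have h0 := hz.2.1
    rw [BE, sig_sg, sg_dot _ (by omega)] at h0
    have e1 : Bi 2 F *ᵥ b = b := Bi_of (by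
      ext i
      fin_cases i <;> simp [J, mulVec, dotProduct, show b 0 = 0 from h0])
    rw [hu, e1, Prod.mk_sub_mk, Prod.mk_sub_mk, sub_self] at t1
    convert low t1 using 1
    simp [BE, dotProduct, sg]
  · refine main (ω / c) 0 fun H mu my t => ?_
    rw [hu.inv hc, mulVec_smul, J_sg] at t
    obtain ⟨_, t⟩ := t.ex (x' := (-(σ c * (ω / c)) • sg 3 F 2, ω / c, (ω / c) • sg 3 F 2)) (by simp [sg])
    obtain ⟨_, t1⟩ := t.low mu hu.e0
    obtain ⟨_, t1⟩ := t1.ex (x' := ((σ c * (ω / c)) • sg 3 F 2, -(ω / c), 0)) (by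
      rw [hu, mulVec_smul, mulVec_smul, Bi_last, Jt_sg 1 (by omega), show σ c = 1 - c by linear_combination hc]
      simp [sg]
      module)
    obtain ⟨_, t2⟩ := t1.low mu hu.e0
    obtain ⟨_, t2⟩ := t2.ex (x' := (-(ω / c) • sg 3 F 2 - (c * (ω / c)) • sg 3 F 1, 0, 0)) (by
      rw [hu, mulVec_smul, Jt_sg 1 (by omega), show σ c = 1 - c by linear_combination hc]
      simp [sg]
      module)
    have key : ∀ x d, Qu h H (sg 3 F 0, 0, 0) x d → 𝔅 (sg 3 F 1, 0, 0) x = 0 → -ω * 𝔅 (sg 3 F 2, 0, 0) x ∈ Tu h H :=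
      fun x d hx e => by
        have h1 := hx.2.1
        convert act_u hu hy hc my le_rfl hx t2 (by simp [BE]) using 1
        rw [hy.e0 hu, hy.inv hu hc, J_sg]
        simp only [BE] at h1 e ⊢
        simp [BU_apply, dotProduct, Fin.sum_univ_three, sg, h.invol] at h1 e ⊢
        simp [h1, e]
        field_simp
    refine mulr_top (hω' _ fun b hb => ?_) (key _ _ t (by simp [BE, sig_sg, sg_sg])) (by simp [BE, sig_sg, sg_sg, w0, c0])
    obtain ⟨x, d, h1, h2, rfl⟩ := lower_u hu mu le_rfl hb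
    exact key x d h1 h2
  · refine main ω 0 fun H mu my t => ?_
    rw [hu.inv hc, mulVec_smul, J_sg] at t
    have key : ∀ x d, Qu h H (sg _ F 0, 0, 0) x d → 𝔅 (sg _ F 1, 0, 0) x = 0 → -ω * 𝔅 (sg _ F 2, 0, 0) x ∈ Tu h H :=
      fun x d hx e => by
        convert act_u hu hy hc my (by omega) t hx e using 1
        rw [hy.e0 hu, hy.inv hu hc, J_sg, show (sg (m + 1 + 1 + 2) F 1 + sg (m + 1 + 1 + 2) F (1 + 1)) (Fin.last _) = 0 by simp [sg]]
        simp only [BE, sig_add, add_dotProduct, add_zero, mul_zero, zero_smul, neg_zero, zero_add] at e ⊢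
        simp [e, dot_sg _ (show 2 < m + 1 + 1 + 2 by omega)]
    refine mulr_top (hω' _ fun b hb => ?_) (key _ _ t (by simp [BE, sig_sg, sg_sg])) (by simp [BE, sig_sg, sg_sg, w0])
    obtain ⟨x, d, h1, h2, rfl⟩ := lower_u hu mu (by omega) hb
    exact key x d h1 h2

end Cfsg.Agent.H19.RU
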