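import Cfsg.Statements.S3330
import Cfsg.Agent.L1.Se0
import Cfsg.Agent.H2.Components

/-! Piece `pB3d` of the `3`-local characterization of `S₈`: the case `F*(G) ≅ A₅ × A₅`. -/

set_option autoImplicit false
set_option linter.unusedVariables false
set_option linter.unusedSectionVars false

namespace Cfsg.Agent.L1Se

open Subgroup Equiv

universe u

variable {G : Type u} [Group G] [Finite G] {ε : W →* G} {σ : G} {M : Subgroup G}

/-- the first factor -/
def pB3d_1 (ε : W →* G) : alternatingGroup (Fin 5) →* G :=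
  ε.comp ((MonoidHom.inr _ _).comp (alternatingGroup (Fin 5)).subtype)

/-- the second factor -/
def pB3d_2 (ε : W →* G) (σ : G) : alternatingGroup (Fin 5) →* G :=
  (MulAut.conj σ).toMonoidHom.comp (pB3d_1 ε)

theorem pB3d_a1 (a : alternatingGroup (Fin 5)) : pB3d_1 ε a = ε (1, a.1) := rfl

theorem pB3d_a2 (a : alternatingGroup (Fin 5)) : pB3d_2 ε σ a = σ * ε (1, a.1) * σ⁻¹ := rfl

theorem pB3d_nc : ∀ a : Perm (Fin 5), a * zF.2 = zF.2 * a → a * eB.2 = eB.2 * a →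
    a * uE.2 = uE.2 * a → a = 1 := by decide +kernel

theorem pB3d_n3 : ∀ a : Perm (Fin 3), a * zE.1 = zE.1 * a → a * eE.1 = eE.1 * a → a = 1 := by
  decide +kernel

def pB3d_z : alternatingGroup (Fin 5) := ⟨zF.2, Perm.mem_alternatingGroup.2 (by decide)⟩
def pB3d_e : alternatingGroup (Fin 5) := ⟨eB.2, Perm.mem_alternatingGroup.2 (by decide)⟩
def pB3d_u : alternatingGroup (Fin 5) := ⟨uE.2, Perm.mem_alternatingGroup.2 (by decide)⟩

theorem pB3d_cen {a : alternatingGroup (Fin 5)} (h : ∀ b, a * b = b * a) : a = 1 :=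
  Subtype.ext (pB3d_nc a.1 (congrArg Subtype.val (h pB3d_z)) (congrArg Subtype.val (h pB3d_e))
    (congrArg Subtype.val (h pB3d_u)))

theorem pB3d_all (ψ : alternatingGroup (Fin 5) →* G) {K : Subgroup G} (hK : K.Normal)
    {a : alternatingGroup (Fin 5)} (a1 : a ≠ 1) (ha : ψ a ∈ K) (b : alternatingGroup (Fin 5)) :
    ψ b ∈ K := by
  rcases (hK.comap ψ).eq_bot_or_eq_top with e | e
  · exact absurd (mem_bot.1 (e ▸ (show a ∈ K.comap ψ from ha))) a1
  · exact show b ∈ K.comap ψ from e ▸ mem_top b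

theorem pB3d (h : SA ε σ eB) (hk : KK ε σ) (hM : MM M)
    (hN : ∀ g ∈ M, ∃ a b, Perm.sign a = 1 ∧ Perm.sign b = 1 ∧ g = kk ε σ a b) :
    ∃ N : Subgroup G, N.Normal ∧ Cfsg.generalizedFittingSubgroup G = N ∧
      Nonempty (N ≃* alternatingGroup (Fin 5) × alternatingGroup (Fin 5)) ∧
      (∀ K : Subgroup G, K.Normal → K ≤ N → K = ⊥ ∨ K = N) ∧ N.index = 4 ∧ ∀ g : G, g ^ 2 ∈ N := by
  have nm := hM.nm
  have si : σ⁻¹ = σ := inv_eq_of_mul_eq_one_right h.ss
  have s2 : ∀ x, σ * (σ * x * σ⁻¹) * σ⁻¹ = x := fun x => by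
    rw [si]
    calc _ = (σ * σ) * x * (σ * σ) := by group
      _ = x := by rw [h.ss]; group
  have cm : ∀ a b, Commute (pB3d_1 ε a) (pB3d_2 ε σ b) := fun a b =>
    hk.cm a.1 b.1 (Perm.mem_alternatingGroup.1 a.2) (Perm.mem_alternatingGroup.1 b.2)
  have i1 : Function.Injective (pB3d_1 ε) := fun a b e =>
    Subtype.ext (congrArg Prod.snd (h.inj e))
  have i2 : Function.Injective (pB3d_2 ε σ) := (MulAut.conj σ).injective.comp i1
  have z1 : pB3d_z ^ 2 ≠ 1 := by decide +kernel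
  have m1 : ∀ a, pB3d_1 ε a ∈ M := pB3d_all _ nm z1 (by rw [map_pow]; exact hM.sq _)
  have m2 : ∀ a, pB3d_2 ε σ a ∈ M := pB3d_all _ nm z1 (by rw [map_pow]; exact hM.sq _)
  have dec : ∀ g ∈ M, ∃ a b, g = pB3d_1 ε a * pB3d_2 ε σ b := fun g hg => by
    obtain ⟨a, b, ha, hb, e⟩ := hN g hg
    exact ⟨⟨a, Perm.mem_alternatingGroup.2 ha⟩, ⟨b, Perm.mem_alternatingGroup.2 hb⟩, e⟩
  have cj : ∀ a a' b, pB3d_1 ε a' * (pB3d_1 ε a * pB3d_2 ε σ b) * (pB3d_1 ε a')⁻¹ *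
      (pB3d_1 ε a * pB3d_2 ε σ b)⁻¹ = pB3d_1 ε (a' * a * a'⁻¹ * a⁻¹) := fun a a' b => by
    simp only [map_mul, map_inv]
    calc _ = pB3d_1 ε a' * pB3d_1 ε a * (pB3d_2 ε σ b * (pB3d_1 ε a')⁻¹) * (pB3d_2 ε σ b)⁻¹ *
          (pB3d_1 ε a)⁻¹ := by group
      _ = _ := by rw [← (cm a' b).inv_left.eq]; group
  let ψ := (pB3d_1 ε).noncommCoprod (pB3d_2 ε σ) cm
  have ψa : ∀ a b, ψ (a, b) = pB3d_1 ε a * pB3d_2 ε σ b := fun a b => rfl
  have iψ : Function.Injective ψ := (injective_iff_map_eq_one _).2 fun ⟨a, b⟩ e => by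
    rw [ψa] at e
    have a1 : a = 1 := pB3d_cen fun a' => by
      have := cj a a' b
      rw [e] at this
      have h2 : a' * a * a'⁻¹ * a⁻¹ = 1 := i1 (by rw [← this, map_one]; group)
      rw [mul_inv_eq_one, mul_inv_eq_iff_eq_mul] at h2
      exact h2.symm
    rw [a1, map_one, one_mul] at e
    rw [a1, i2 (e.trans (map_one _).symm)]; rfl
  have rψ : ψ.range = M := le_antisymm (by
    rintro _ ⟨⟨a, b⟩, rfl⟩
    exact mul_mem (m1 a) (m2 b)) fun g hg => by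
      obtain ⟨a, b, e⟩ := dec g hg
      exact ⟨(a, b), e.symm⟩
  have cz : centralizer (M : Set G) ≤ ⊥ := fun g hg => by
    have c : ∀ x ∈ M, x * g = g * x := hg
    have e1 : pB3d_2 ε σ pB3d_z = ε zE := by
      rw [pB3d_a2, show ε (1, pB3d_z.1) = ε zF from rfl, ← h.sz, s2]
    have e2 : pB3d_2 ε σ pB3d_e = ε eE := by
      rw [pB3d_a2, show ε (1, pB3d_e.1) = ε eB from rfl, ← h.se, s2]
    have c1 := c _ (m2 pB3d_z)
    have c2 := c _ (m2 pB3d_e)
    rw [e1] at c1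
    rw [e2] at c2
    obtain ⟨w, rfl⟩ : g ∈ ε.range := by
      rw [h.rng]
      refine centralizer_le_normalizer _ ?_
      rintro _ ⟨n, rfl⟩
      exact (Commute.zpow_left c1 n).eq
    have k : ∀ x, ε x * ε w = ε w * ε x → w * x = x * w := fun x e =>
      h.inj (by rw [map_mul, map_mul, e])
    have w1 : w.1 = 1 := pB3d_n3 _ (congrArg Prod.fst (k _ c1)) (congrArg Prod.fst (k _ c2))
    have w2 : w.2 = 1 := pB3d_nc _ (congrArg Prod.snd (k zF (c _ (m1 pB3d_z))))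
      (congrArg Prod.snd (k eB (c _ (m1 pB3d_e)))) (congrArg Prod.snd (k uE (c _ (m1 pB3d_u))))
    rw [mem_bot, show w = 1 from Prod.ext w1 w2, map_one]
  have q5 : IsQuasisimple (alternatingGroup (Fin 5)) := H2.isQuasisimple_of_isSimpleGroup fun c =>
    z1 (pB3d_cen fun b => c.is_comm.comm _ _)
  have k1 : IsComponent (pB3d_1 ε).range := by
    refine ⟨IsSubnormal.trans (K := M) (by rintro _ ⟨a, rfl⟩; exact m1 a)
      (Normal.isSubnormal ⟨fun x hx g => ?_⟩) nm.isSubnormal,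
      H2.isQuasisimple_of_equiv (MonoidHom.ofInjective i1) q5⟩
    obtain ⟨a, ha⟩ := mem_subgroupOf.1 hx
    obtain ⟨c, d, e⟩ := dec g g.2
    refine mem_subgroupOf.2 ⟨c * a * c⁻¹, ?_⟩
    show _ = (g : G) * x * (g : G)⁻¹
    rw [← ha, e, map_mul, map_mul, map_inv]
    calc _ = pB3d_1 ε c * (pB3d_1 ε a * pB3d_2 ε σ d) * (pB3d_2 ε σ d)⁻¹ * (pB3d_1 ε c)⁻¹ := by group
      _ = _ := by rw [(cm a d).eq]; group
  have l1 : ∀ a, pB3d_1 ε a ∈ layer G := fun a => H2.le_layer k1 ⟨a, rfl⟩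
  have ml : M ≤ layer G := fun g hg => by
    obtain ⟨a, b, rfl⟩ := dec g hg
    exact mul_mem (l1 a) ((H2.layer_normal G).conj_mem _ (l1 b) σ)
  refine ⟨M, nm, le_antisymm (sup_le (H2.layer_le_of_centralizer_le nm.isSubnormal (cz.trans bot_le))
    ((H2.fittingSubgroup_le_centralizer_layer.trans (centralizer_le ml)).trans (cz.trans bot_le)))
    (ml.trans H2.layer_le_generalizedFitting),
    ⟨(MulEquiv.subgroupCongr rψ).symm.trans (MonoidHom.ofInjective iψ).symm⟩, fun K hK hle => ?_,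
    hM.ix, hM.sq⟩
  refine or_iff_not_imp_left.2 fun hne => le_antisymm hle ?_
  obtain ⟨⟨x, hx⟩, x1⟩ := ne_bot_iff_exists_ne_one.1 hne
  obtain ⟨a, b, rfl⟩ := dec x (hle hx)
  have all : ∀ c, pB3d_1 ε c ∈ K := by
    by_cases a1 : a = 1
    · subst a1
      rw [map_one, one_mul] at hx
      have hb := hK.conj_mem _ hx σ
      rw [pB3d_a2, s2] at hb
      refine pB3d_all _ hK (a := b) ?_ hb
      rintro rfl
      exact x1 (Subtype.ext (by simp))
    · obtain ⟨a', ha'⟩ := not_forall.1 fun c => a1 (pB3d_cen c)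
      refine pB3d_all _ hK (a := a' * a * a'⁻¹ * a⁻¹) (fun e => ha' ?_) ?_
      · rw [mul_inv_eq_one, mul_inv_eq_iff_eq_mul] at e
        exact e.symm
      · rw [← cj a a' b]
        exact mul_mem (hK.conj_mem _ hx _) (inv_mem hx)
  intro g hg
  obtain ⟨c, d, rfl⟩ := dec g hg
  exact mul_mem (all c) (hK.conj_mem _ (all d) σ)

end Cfsg.Agent.L1Se
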