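import Mathlib
import Cfsg.Agent.H19.Kei
import Cfsg.Agent.H19.Mod1
import Cfsg.Agent.H19.Sm1

/-! # Spaces in which the perp of a point is a line -/

set_option autoImplicit false

namespace Cfsg.Agent.H19

open Cfsg Subgroup

variable {G : Type*} [Group G]

theorem T3.hom3 {D : Set G} (t : T3 D) {a b : G} (ha : a ∈ D) (hb : b ∈ D) (n : ¬ Commute a b) :
    ∃ φ : Equiv.Perm (Fin 3) →* G, Function.Injective φ ∧ φ.range = closure {a, b} := by
  let s : ℕ → G := fun i => if i = 0 then a else b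
  obtain ⟨φ, h1, h2⟩ := (t.coxA (s := s) (n := 2) (fun i hi => by interval_cases i <;> simpa [s])
    (fun i hi => by obtain rfl : i = 0 := by omega
                    simpa [s]) (fun i j h1 h2 => by omega)).exists_hom
  refine ⟨φ, inj_perm3 φ (by
    rw [h1 0 (by decide), h1 1 (by decide)]; exact fun e => n (by simp [s] at e; rw [e])), ?_⟩
  rw [h2]; congr 1
  ext x
  simp only [Set.mem_image, Set.mem_Iio, Set.mem_insert_iff, Set.mem_singleton_iff]
  refine ⟨?_, ?_⟩
  · rintro ⟨i, hi, rfl⟩; interval_cases i <;> simp [s]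
  · rintro (rfl | rfl); exacts [⟨0, by decide, rfl⟩, ⟨1, by decide, rfl⟩]

/-- a chain of four points -/
theorem T3.hom5 {D : Set G} (t : T3 D) {a b c d : G} (ha : a ∈ D) (hb : b ∈ D) (hc : c ∈ D) (hd : d ∈ D)
    (ab : ¬ Commute a b) (bc : ¬ Commute b c) (cd : ¬ Commute c d) (ac : Commute a c)
    (ad : Commute a d) (bd : Commute b d) :
    ∃ φ : Equiv.Perm (Fin 5) →* G, Function.Injective φ ∧ φ (Equiv.swap 0 1) = a ∧
      φ (Equiv.swap 1 2) = b ∧ φ (Equiv.swap 2 3) = c ∧ φ (Equiv.swap 3 4) = d := by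
  let s : ℕ → G := fun i => if i = 0 then a else if i = 1 then b else if i = 2 then c else d
  obtain ⟨φ, h1, -⟩ := (t.coxA (s := s) (n := 4) (fun i hi => by interval_cases i <;> simpa [s])
    (fun i hi => by
      have : i < 3 := by omega
      interval_cases i <;> simpa [s]) (fun i j h1 h2 => by
      have : i < 2 := by omega
      interval_cases i <;> interval_cases j <;> simpa [s])).exists_hom
  exact ⟨φ, inj_perm le_rfl φ (by
    rw [h1 0 (by decide), h1 1 (by decide)]; exact fun e => ab (by simp [s] at e; rw [e])),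
    h1 0 (by decide), h1 1 (by decide), h1 2 (by decide), h1 3 (by decide)⟩

/-- the perp of every point is a line -/
def PL (D : Set G) : Prop :=
  ∀ d ∈ D, ∃ x ∈ Dd D d, ∃ y ∈ Dd D d, ¬ Commute x y ∧ Dd D d = {x, y, J x y}

theorem pl_of_s3 {D : Set G} (t : T3 D) (c : Cl D)
    (h : ∀ d ∈ D, Nonempty (closure (Dd D d) ≃* Equiv.Perm (Fin 3))) : PL D := by
  intro d hd
  obtain ⟨e⟩ := h d hd
  obtain ⟨x, hx, y, hy, n⟩ : ∃ x ∈ Dd D d, ∃ y ∈ Dd D d, ¬ Commute x y := by
    by_contra k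
    push Not at k
    have : ∀ a b : closure (Dd D d), Commute a b := fun a b => commute_coe.2
      (commute_of_mem_closure (fun s hs => (commute_of_mem_closure (k s hs) a.2).symm) b.2)
    have := (this (e.symm (Equiv.swap 0 1)) (e.symm (Equiv.swap 1 2))).map e
    simp only [MulEquiv.apply_symm_apply, commute_iff_eq] at this
    revert this; decide
  refine ⟨x, hx, y, hy, n, Set.Subset.antisymm (fun w hw => ?_) ?_⟩
  · have k : ∀ a b c : Equiv.Perm (Fin 3), a * a = 1 → b * b = 1 → c * c = 1 → c ≠ 1 →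
      a * b ≠ b * a → c = a ∨ c = b ∨ c = a * b * a⁻¹ := by decide
    have sq : ∀ z (hz : z ∈ Dd D d), e ⟨z, subset_closure hz⟩ * e ⟨z, subset_closure hz⟩ = 1 :=
      fun z hz => by rw [← map_mul, e.map_eq_one_iff]; exact Subtype.ext (t.sq z hz.1)
    have := k _ _ _ (sq x hx) (sq y hy) (sq w hw)
      (fun r => t.ne w hw.1 (congrArg Subtype.val (e.map_eq_one_iff.1 r)))
      (fun r => n (commute_coe.1 ((commute_map (φ := e.toMonoidHom) e.injective).1 r)))
    simp only [← map_inv, ← map_mul, e.injective.eq_iff, Subtype.ext_iff] at this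
    exact this
  · rintro _ (rfl | rfl | rfl)
    exacts [hx, hy, c.dd t d _ hx _ hy]

theorem PL.line {D : Set G} (h : PL D) (t : T3 D) {d u v : G} (hd : d ∈ D) (hu : u ∈ Dd D d)
    (hv : v ∈ Dd D d) (ne : u ≠ v) : ¬ Commute u v ∧ Dd D d = {u, v, J u v} := by
  obtain ⟨x, hx, y, hy, n, e⟩ := h d hd
  rw [e] at hu hv ⊢
  have e1 := t.br x hx.1 y hy.1 n
  have e2 := t.JJ hx.1 y
  have e3 : J y (J x y) = x := by rw [e1, t.JJ hy.1]
  have n2 := t.not_commute_J_left n
  have n3 := t.not_commute_J_right hx.1 hy.1 n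
  have e4 : J (J x y) x = y := by rw [J_J_left, ← e1, e2]
  have e5 : J (J x y) y = x := by rw [e1, J_J_left, e3]
  generalize hz : J x y = z at *
  have n' := fun k : Commute y x => n k.symm
  have n2' := fun k : Commute z x => n2 k.symm
  have n3' := fun k : Commute z y => n3 k.symm
  rcases hu with rfl | rfl | rfl <;> rcases hv with rfl | rfl | rfl <;>
    first | exact absurd rfl ne | exact ⟨by assumption, by ext; grind⟩

theorem PL.s5 {D : Set G} (h : PL D) (t : T3 D) (c : Cl D) (ne : D.Nonempty)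
    (w : ∀ d ∈ D, ∀ e ∈ D, Dd D d = Dd D e → e = d) : Nonempty (closure D ≃* Equiv.Perm (Fin 5)) := by
  obtain ⟨d, hd⟩ := ne
  obtain ⟨x, hx, y, hy, n, e⟩ := h d hd
  obtain ⟨d', hd', ne⟩ : ∃ d' ∈ Dd D y, d' ≠ d := by
    obtain ⟨u, hu, v, hv, n, -⟩ := h y hy.1
    by_cases k : u = d
    · exact ⟨v, hv, fun r => n (by rw [k, r])⟩
    · exact ⟨u, hu, k⟩
  have n1 := (h.line t hy.1 hd' ⟨hd, hy.2.1.symm, hy.2.2.symm⟩ ne).1
  have xy : x ≠ y := fun k => n (by rw [k])
  have n2 : ¬ Commute d' x := fun k => ne (w d hd d' hd'.1 (e.trans (h.line t hd'.1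
    ⟨hx.1, fun r => n1 (r ▸ hx.2.2.symm), k⟩ ⟨hy.1, hd'.2.1.symm, hd'.2.2.symm⟩ xy).2.symm))
  obtain ⟨φ, inj, e1, e2, e3, e4⟩ := t.hom5 hd hd'.1 hx.1 hy.1 (fun k => n1 k.symm) n2 n hx.2.2
    hy.2.2 hd'.2.2.symm
  have m01 : φ (Equiv.swap 0 1) ∈ D := e1 ▸ hd
  have m12 : φ (Equiv.swap 1 2) ∈ D := e2 ▸ hd'.1
  have m23 : φ (Equiv.swap 2 3) ∈ D := e3 ▸ hx.1
  have m34 : φ (Equiv.swap 3 4) ∈ D := e4 ▸ hy.1
  have cj : ∀ {a b : Equiv.Perm (Fin 5)}, φ a ∈ D → φ b ∈ D → φ (a * b * a⁻¹) ∈ D :=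
    fun ha hb => by rw [← J_def, map_J]; exact c _ ha _ hb
  have m02 : φ (Equiv.swap 0 2) ∈ D := by convert cj m01 m12 using 2; decide
  have m13 : φ (Equiv.swap 1 3) ∈ D := by convert cj m12 m23 using 2; decide
  have m24 : φ (Equiv.swap 2 4) ∈ D := by convert cj m23 m34 using 2; decide
  have m03 : φ (Equiv.swap 0 3) ∈ D := by convert cj m01 m13 using 2; decide
  have m14 : φ (Equiv.swap 1 4) ∈ D := by convert cj m12 m24 using 2; decide
  have m04 : φ (Equiv.swap 0 4) ∈ D := by convert cj m01 m14 using 2; decide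
  have m : ∀ i j, i ≠ j → φ (Equiv.swap i j) ∈ D := by
    intro i j ij
    wlog lt : i < j generalizing i j
    · rw [Equiv.swap_comm]; exact this j i ij.symm (by omega)
    fin_cases i <;> fin_cases j <;> first | assumption | exact absurd lt (by decide)
  have r : φ.range = closure D := by
    refine le_antisymm ?_ ((closure_le _).2 fun z hz => ?_)
    · rintro _ ⟨g, rfl⟩
      induction g using Equiv.Perm.swap_induction_on with
      | one => simp
      | swap_mul f i j ij ih => rw [map_mul]; exact mul_mem (subset_closure (m i j ij)) ih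
    by_contra nz
    have nc : ∀ i j, i ≠ j → ¬ Commute (φ (Equiv.swap i j)) z := by
      intro i j ij k
      obtain ⟨a, b, c, ab, bc, k1, k2, k3, k4, k5⟩ : ∃ a b c : Fin 5, a ≠ b ∧ b ≠ c ∧
        Equiv.swap a b ≠ Equiv.swap i j ∧ Equiv.swap b c ≠ Equiv.swap i j ∧
        Equiv.swap a b ≠ Equiv.swap b c ∧ Equiv.swap i j * Equiv.swap a b =
        Equiv.swap a b * Equiv.swap i j ∧ Equiv.swap i j * Equiv.swap b c =
        Equiv.swap b c * Equiv.swap i j := by clear k; revert i j; decide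
      have := (h.line t (m i j ij) ⟨m a b ab, inj.ne k1, (commute_map inj).2 k4⟩
        ⟨m b c bc, inj.ne k2, (commute_map inj).2 k5⟩ (inj.ne k3)).2.le
        ⟨hz, fun r => nz ⟨_, r.symm⟩, k⟩
      rcases this with r | r | r
      exacts [nz ⟨_, r.symm⟩, nz ⟨_, r.symm⟩, nz ⟨_, (map_J φ _ _).trans r.symm⟩]
    have key : ∀ i j k l, i ≠ j → k ≠ l → Equiv.swap i j ≠ Equiv.swap k l →
        Equiv.swap i j * Equiv.swap k l = Equiv.swap k l * Equiv.swap i j →
        J (φ (Equiv.swap i j * Equiv.swap k l)) z ∈ Dd D z := fun i j k l a b n cm => by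
      rw [map_mul, J_mul]
      exact ⟨c _ (m i j a) _ (c _ (m k l b) _ hz), t.s4_ne (m i j a) hz (m k l b) (inj.ne n) (nc i j a)
        (nc k l b), t.s4 (m i j a) hz (m k l b) ((commute_map inj).2 cm) (nc i j a) (nc k l b)⟩
    have k1 := key 0 1 2 3 (by decide) (by decide) (by decide) (by decide)
    have k2 := key 0 2 1 3 (by decide) (by decide) (by decide) (by decide)
    have k3 := key 0 3 1 2 (by decide) (by decide) (by decide) (by decide)
    have q : J (φ (Equiv.swap 0 1 * Equiv.swap 2 3)) (J (φ (Equiv.swap 0 2 * Equiv.swap 1 3)) z) =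
        J (φ (Equiv.swap 0 3 * Equiv.swap 1 2)) z := by
      rw [← J_mul, ← map_mul]; congr 2; decide
    refine (h.line t hz k1 k3 fun r => k2.2.1 (J_injective _ (q.trans r.symm))).1 ?_
    rw [← q]; exact commute_J.2 k2.2.2
  exact ⟨(MulEquiv.subgroupCongr r.symm).trans (MonoidHom.ofInjective inj).symm⟩

theorem PL.s33 [Finite G] {D : Set G} (h : PL D) (t : T3 D) (cj : ∀ g, ∀ d ∈ D, J g d ∈ D)
    (o3 : ∀ d ∈ D, Nat.card (pCore 3 (centralizer ({d} : Set G))) = 3) {e e' : G} (he : e ∈ D)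
    (he' : e' ∈ D) (ne : e ≠ e') (w : Dd D e = Dd D e') :
    Nonempty (closure D ≃* Equiv.Perm (Fin 3) × Equiv.Perm (Fin 3)) := by
  have c : Cl D := fun a _ => cj a
  obtain ⟨f, hf, f', hf', n, l1⟩ := h e he
  have hf2 : f ∈ Dd D e' := w ▸ hf
  obtain ⟨ee, l2⟩ := h.line t hf.1 ⟨he, hf.2.1.symm, hf.2.2.symm⟩ ⟨he', hf2.2.1.symm, hf2.2.2.symm⟩ ne
  have all : ∀ d ∈ D, d ∈ Dd D e ∨ d ∈ Dd D f := by
    intro d hd
    by_contra k
    rw [not_or] at k
    have de : ¬ Commute d e := fun r => k.1 ⟨hd, fun q => k.2 (l2.ge (by simp [q])), r.symm⟩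
    have de' : ¬ Commute d e' := fun r => k.1 (w.ge ⟨hd, fun q => k.2 (l2.ge (by simp [q])), r.symm⟩)
    have df : ¬ Commute d f := fun r => k.2 ⟨hd, fun q => k.1 (q ▸ hf), r.symm⟩
    obtain ⟨P, -, -, hom, p0, p1, p2⟩ := t.plane c hd he he' de de' ee fun r => by
      by_cases q : J d e = e'
      · exact k.2 (l2.ge (by simp [← q, t.J_J_self hd he de]))
      · exact t.not_commute_J_right hd he de (w.ge ⟨c _ hd _ he, q, r.symm⟩).2.2
    have fx : ∀ u, Commute (e * e' * J d (e * e')) (P u) := fun u => by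
      rw [← J_eq_self, t.J_eq hd]
      simp only [J_mul]
      rw [← p0, ← p1, ← p2]
      simp only [← hom]
      congr 1; revert u; decide
    have cd := fx 0
    have ce := fx ![1, 0]
    have ce' := fx ![0, 1]
    rw [p0] at cd; rw [p1] at ce; rw [p2] at ce'
    have := normal_closure_conj cj
    have m3 : e * e' ∈ pCore 3 G := H2.pCore_map_subtype_le_of_normal (closure D)
      ⟨_, (sub_tg t c).O3_of_Wr (x := ⟨e, subset_closure he⟩) (w := ⟨e', subset_closure he'⟩) he he' (by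
        ext z
        have := Set.ext_iff.1 w z
        simpa only [Dd, sub, Set.mem_ofPred_eq, commute_coe, Ne, Subtype.ext_iff] using this), rfl⟩
    have m4 : (⟨_, mem_centralizer_singleton_iff.2 cd⟩ : centralizer ({d} : Set G)) ∈ pCore 3 _ :=
      H2.le_pCore (N := (pCore 3 G).subgroupOf _) (H2.pCore_isPGroup.comap_subtype)
        (mul_mem m3 (J_mem_normal d m3))
    by_cases z : e * e' * J d (e * e') = 1
    · have i1 : J d (e * e') = (e * e')⁻¹ := eq_inv_of_mul_eq_one_right z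
      have : Commute (J d f) (e * e') := by
        rw [t.commute_J_swap hd, i1]; exact (hf.2.2.symm.mul_right hf2.2.2.symm).inv_right
      exact de (t.commute_of_J hd hf.1 df hf.2.2 (t.commute_mul he he' (c _ hd _ hf.1) ne this).1.symm).symm
    obtain ⟨x, hx, y, hy, xy, -⟩ := h d hd
    obtain ⟨Q, hQ, mQ, nQ⟩ := (t.mono (E := Dd D d) fun _ h => h.1).exists_three_group (c.dd t d)
      fun a ha b hb r => by_contra fun q => (h.line t hd ha hb q).1 r
    have : (Q.subgroupOf (centralizer {d})).Normal := ⟨fun a ha g =>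
      J_mem_of_normalizer (P := Q) (x := a) (nQ g fun b => by
        have cg := mem_centralizer_singleton_iff.1 g.2
        refine ⟨fun k => ?_, fun k => ?_⟩
        · have := J_mem_Dd (cj g) k
          rwa [J_of_commute cg] at this
        · have := J_mem_Dd (cj (g : G)⁻¹) k
          rwa [J_of_commute (Commute.inv_left cg), ← J_mul, inv_mul_cancel, J_one] at this) ha⟩
    have m5 : (⟨x * y, mem_centralizer_singleton_iff.2 (hx.2.2.mul_right hy.2.2).symm⟩ :
      centralizer ({d} : Set G)) ∈ pCore 3 _ :=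
      H2.le_pCore (N := Q.subgroupOf _) hQ.comap_subtype (mQ x hx y hy)
    have := mem_zpowers_of_prime_card (o3 d hd) (g := ⟨_, m4⟩) (g' := ⟨_, m5⟩) fun r =>
      z (congrArg (fun u => u.1.1) r)
    obtain ⟨j, hj⟩ := this
    have hj' : (e * e' * J d (e * e')) ^ j = x * y := congrArg (fun u => u.1.1) hj
    have xy' : x ≠ y := fun r => xy (by rw [r])
    have c1 := (t.commute_mul hx.1 hy.1 he xy' (hj' ▸ ce.symm.zpow_right j)).1
    have c2 := (t.commute_mul hx.1 hy.1 he' xy' (hj' ▸ ce'.symm.zpow_right j)).1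
    have l3 := (h.line t hx.1 ⟨he, fun r => de (r ▸ hx.2.2), c1.symm⟩
      ⟨he', fun r => de' (r ▸ hx.2.2), c2.symm⟩ ne).2
    exact k.2 ((l3.trans l2.symm).le ⟨hd, hx.2.1.symm, hx.2.2.symm⟩)
  obtain ⟨φ, i1, r1⟩ := t.hom3 he he' ee
  obtain ⟨ψ, i2, r2⟩ := t.hom3 hf.1 hf'.1 n
  have cm : ∀ a b, Commute (φ a) (ψ b) := fun a b => by
    refine commute_of_mem_closure (fun s hs => (commute_of_mem_closure (fun u hu => ?_)
      (r1.le ⟨a, rfl⟩)).symm) (r2.le ⟨b, rfl⟩)
    rcases hs with rfl | rfl <;> rcases hu with rfl | rfl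
    exacts [hf.2.2.symm, hf2.2.2.symm, hf'.2.2.symm, (w.le hf').2.2.symm]
  have inj : Function.Injective (φ.noncommCoprod ψ cm) := by
    rw [injective_iff_map_eq_one]
    rintro ⟨a, b⟩ k
    rw [MonoidHom.noncommCoprod_apply] at k
    have k1 : φ a = (ψ b)⁻¹ := eq_inv_of_mul_eq_one_left k
    have : a = 1 := (by decide : ∀ a : Equiv.Perm (Fin 3), (∀ y, y * a = a * y) → a = 1) a fun y =>
      (commute_map i1).1 (k1 ▸ (cm y b).inv_right)
    subst this
    simpa [i2.eq_iff' (map_one ψ)] using k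
  have r : (φ.noncommCoprod ψ cm).range = closure D := by
    rw [MonoidHom.noncommCoprod_range, r1, r2]
    refine le_antisymm (sup_le (closure_mono ?_) (closure_mono ?_)) ((closure_le _).2 fun z hz => ?_)
    · rintro _ (rfl | rfl) <;> assumption
    · rintro _ (rfl | rfl); exacts [hf.1, hf'.1]
    have s : ∀ a b z : G, z ∈ ({a, b, J a b} : Set G) → z ∈ closure {a, b} := by
      rintro a b _ (rfl | rfl | rfl)
      exacts [subset_closure (by simp), subset_closure (by simp),
        J_mem (subset_closure (by simp)) (subset_closure (by simp))]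
    rcases all z hz with k | k
    exacts [mem_sup_right (s _ _ _ (l1.le k)), mem_sup_left (s _ _ _ (l2.le k))]
  exact ⟨(MulEquiv.subgroupCongr r.symm).trans (MonoidHom.ofInjective inj).symm⟩

end Cfsg.Agent.H19
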