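import Cfsg.Agent.H3.Two
import Cfsg.Agent.H3.Fus2
import Cfsg.Agent.H4.Transfer2
import Cfsg.Agent.H2.Fitting

/-! Groups with cyclic odd Sylow subgroups and a cyclic maximal subgroup in a Sylow `2`-subgroup: the perfect case. -/

set_option autoImplicit false

namespace Cfsg.Agent.H19.Sw

open Cfsg Subgroup FT H3

universe u

variable {G : Type u} [Group G] [Finite G] {H : Type*} [Group H] {a b u x y : G}

/-- odd `p`-subgroups are cyclic -/
def Oc (G : Type*) [Group G] : Prop := ∀ p : ℕ, p.Prime → p ≠ 2 → ∀ P : Subgroup G, IsPGroup p P → IsCyclic P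

/-- `2`-subgroups have a cyclic subgroup of index at most `2` -/
def Tc (G : Type*) [Group G] : Prop := ∀ P : Subgroup G, IsPGroup 2 P → ∃ a ∈ P, #P ≤ 2 * orderOf a

omit [Finite G] in
theorem oc_of (h : ∀ p : ℕ, p.Prime → p ≠ 2 → ∀ P : Sylow p G, IsCyclic P) : Oc G := fun p hp h2 _ hP =>
  let ⟨Q, hQ⟩ := hP.exists_le_sylow
  have := h p hp h2 Q
  Subgroup.isCyclic_of_le hQ

theorem tc_of (h : ∀ S : Sylow 2 G, ∃ C : Subgroup ↥(S : Subgroup G), IsCyclic C ∧ C.index ∣ 2) : Tc G :=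
  fun P hP => by
  obtain ⟨Q, hQ⟩ := hP.exists_le_sylow
  obtain ⟨C, h1, h3⟩ := h Q
  have : IsCyclic (C.comap (inclusion hQ)) := isCyclic_of_injective ((inclusion hQ).subgroupComap C)
    fun x y e => Subtype.ext (inclusion_injective hQ (congrArg Subtype.val e))
  obtain ⟨a, ha⟩ := IsCyclic.exists_ofOrder_eq_natCard (α := C.comap (inclusion hQ))
  refine ⟨a.1.1, a.1.2, ?_⟩
  rw [orderOf_coe, orderOf_coe, ha, ← (C.comap (inclusion hQ)).index_mul_card, index_comap]
  exact Nat.mul_le_mul_right _ ((relIndex_le_of_le_right le_top (by simp [index_ne_zero_of_finite])).trans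
    (by simpa using Nat.le_of_dvd two_pos h3))

omit [Finite G] in
theorem Oc.inj (h : Oc G) (f : H →* G) (hf : Function.Injective f) : Oc H := fun p hp h2 P hP =>
  (P.equivMapOfInjective f hf).isCyclic.2 (h p hp h2 _ (hP.map f))

omit [Finite G] in
theorem Tc.inj (h : Tc G) (f : H →* G) (hf : Function.Injective f) : Tc H := fun P hP => by
  obtain ⟨_, ⟨a, ha, rfl⟩, h1⟩ := h _ (hP.map f)
  exact ⟨a, ha, by rwa [orderOf_injective f hf, card_map_of_injective hf] at h1⟩

theorem Oc.surj (h : Oc G) (f : G →* H) (hf : Function.Surjective f) : Oc H := fun p hp h2 P hP => by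
  have := Fact.mk hp
  obtain ⟨Q, hQ⟩ := hP.exists_le_sylow
  obtain ⟨R, rfl⟩ := Sylow.mapSurjective_surjective hf p Q
  have := h p hp h2 R R.2
  have : IsCyclic ((R : Subgroup G).map f) := isCyclic_of_surjective _ (f.subgroupMap_surjective R)
  exact Subgroup.isCyclic_of_le (H' := (R : Subgroup G).map f) hQ

theorem Oc.zg (h : Oc G) (ho : Odd (Nat.card G)) : IsZGroup G := ⟨fun p hp P => by
  by_cases h2 : p = 2
  · subst h2
    rw [H2.eq_bot_of_isPGroup_of_coprime P.2 ((Nat.coprime_two_right.2 ho).coprime_dvd_left (card_subgroup_dvd_card _))]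
    infer_instance
  · exact h p hp h2 P P.2⟩

theorem Oc.comm (h : Oc G) {p : ℕ} (hp : p.Prime) (h2 : p ≠ 2) (hx : orderOf x = p) (hy : orderOf y = p)
    (e : x * y = y * x) : y ∈ ⟪x⟫ := by
  have := Fact.mk hp
  have h1 : Cyc (⟪x⟫ ⊔ ⟪y⟫) := h p hp h2 _ (IsPGroup.to_sup_of_normal_right'
    (.of_card (n := 1) (by simp [hx])) (.of_card (n := 1) (by simp [hy])) (zpowers_le.2
      (mem_nrm_zpowers (by simp [e]))))
  exact h1.eq_of_card_eq le_sup_right le_sup_left (by simp [hx, hy]) ▸ mem_zpowers y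

theorem Oc.cen [Group.IsPerfect G] (h : Oc G) (C : Subgroup G) [C.Normal] [hC : IsCyclic C] (ho : Odd #C) :
    C = ⊥ := by
  by_contra h0
  obtain ⟨p, hp, hd⟩ := Nat.exists_prime_and_dvd (card_eq_one.not.2 h0)
  have := Fact.mk hp
  obtain ⟨w, hw⟩ := exists_prime_orderOf_dvd_card' p hd
  rw [← orderOf_coe] at hw
  obtain ⟨P, hP⟩ := (IsPGroup.of_card (G := ⟪(w : G)⟫) (n := 1) (p := p) (by simp [hw])).exists_le_sylow
  have := h p hp (by rintro rfl; exact Nat.not_even_iff_odd.2 ho (even_iff_two_dvd.2 hd)) P P.2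
  have h1 := H4.inf_commutator_inf_center_eq_bot (H := (P : Subgroup G)) inferInstance P.card_coprime_index
  have h2 : commutator G ≤ ((hC.mulAutMulEquiv C).toMonoidHom.comp MulAut.conjNormal).ker :=
    Abelianization.commutator_subset_ker _
  have h3 : (w : G) ∈ (⊥ : Subgroup G) := h1 ▸ ⟨⟨hP (mem_zpowers _), by simp⟩, mem_center_iff.2 fun g => by
    have : MulAut.conjNormal g = (1 : MulAut C) := by simpa using h2 (show g ∈ _ by simp)
    simpa [mul_inv_eq_iff_eq_mul] using congrArg (fun θ : MulAut C => (θ w : G)) this⟩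
  exact hp.one_lt.ne (by simpa [mem_bot.1 h3] using hw)

theorem Oc.core [Group.IsPerfect G] (h : Oc G) : oddCore G = ⊥ := by
  have : (oddCore G).Characteristic := H2.pPrimeCore_characteristic
  have ho := H2.odd_card_oddCore (G := G)
  have := (h.inj _ (oddCore G).subtype_injective).zg ho
  have : IsCyclic ((commutator (oddCore G)).map (oddCore G).subtype) :=
    have := IsZGroup.isCyclic_commutator (G := oddCore G)
    isCyclic_of_surjective _ ((oddCore G).subtype.subgroupMap_surjective _)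
  have h1 := h.cen ((commutator (oddCore G)).map (oddCore G).subtype) (ho.of_dvd_nat (card_dvd_of_le (map_subtype_le _)))
  rw [map_eq_bot_iff_of_injective _ (subtype_injective _), commutator_eq_bot_iff] at h1
  have : Group.IsNilpotent (oddCore G) := open scoped IsMulCommutative in inferInstance
  exact h.cen _ ho

theorem inv_uniq (hx : x ∈ ⟪a⟫) (hy : y ∈ ⟪a⟫) (h1 : orderOf x = 2) (h2 : orderOf y = 2) : x = y :=
  ((mem_zpowers_two (h2 ▸ pow_orderOf_eq_one y)).1 ((cyc_zpowers a).eq_of_card_eq (zpowers_le.2 hx)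
    (zpowers_le.2 hy) (by simp [h1, h2]) ▸ mem_zpowers x)).resolve_left (by rintro rfl; simp at h1)

theorem no_two [Group.IsPerfect G] (K : Subgroup G) : K.index ≠ 2 := fun h => by
  have := normal_of_index_eq_two h
  have := Fact.mk Nat.prime_two
  have := isCyclic_of_prime_card (α := G ⧸ K) h
  have := Nat.card_of_subsingleton (1 : G ⧸ K)
  exact absurd (h.symm.trans this) (by decide)

theorem nomod [Group.IsPerfect G] (S : Sylow 2 G) (ha : a ∈ (S : Subgroup G))
    (hi : ⟪a⟫.relIndex S = 2) (hb : b ^ 2 = 1) (h1 : b ∉ ⟪a⟫) (hu : u ∈ ⟪a⟫) (ho : orderOf u = 2 ^ 2)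
    (e : u * b = b * u) : False := by
  have hz : orderOf (u ^ 2) = 2 := by simpa using orderOf_pow_pow (k := 1) Nat.prime_two ho (by omega)
  have hS := syl_top Nat.prime_two S
  obtain ⟨g, hg⟩ : ∃ g, g * b * g⁻¹ ∈ ⟪a⟫ := by
    by_contra! h
    obtain ⟨M, -, h, -⟩ := H4.thompson_transfer (H4.odd_index_sylow S) hi hb h
    exact no_two M h
  replace hg := inv_uniq hg (pow_mem hu 2) ((orderOf_conj _ _).trans (orderOf_eq_prime hb (by
    rintro rfl; exact h1 (one_mem _)))) hz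
  obtain ⟨c, hc, h2⟩ := (hS.subl (K := C[u ^ 2]) (fun s hs => mem_cen1.2 (by
    have := inv_uniq (conj_mem ((hS.pi.nml_of_relIndex Nat.prime_two (zpowers_le.2 ha) hi).nrm hs) (pow_mem hu 2))
      (pow_mem hu 2) ((orderOf_conj _ _).trans hz) hz
    exact mul_inv_eq_iff_eq_mul.1 this)) le_top).syl_elt (x := g * u * g⁻¹) (mem_cen1.2 (by
      rw [← hg]; simpa [mul_assoc] using congrArg (g * · * g⁻¹) e))
      (PiElt.conj ((pElt_iff Nat.prime_two).2 ⟨2, ho ▸ pow_orderOf_eq_one u⟩) g)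
  have h3 := inv_uniq ((mul_mem_iff_of_relIndex_two hi h2 h2).2 Iff.rfl) (pow_mem hu 2) (by
    rw [← sq, conj_pow, conj_pow, orderOf_conj, orderOf_conj, hz]) hz
  rw [← sq, conj_pow, conj_pow, mul_inv_eq_iff_eq_mul, ← mem_cen1.1 hc, mul_right_inj] at h3
  exact h1 (mul_left_cancel (mul_right_cancel (hg.trans h3.symm)) ▸ pow_mem hu 2)

theorem sylow_cases [Group.IsPerfect G] (h : Tc G) (h1 : ¬ PRankLE 2 1 G) : ∃ S : Sylow 2 G,
    (∃ n, 2 ≤ n ∧ Nonempty ((S : Subgroup G) ≃* DihedralGroup n)) ∨ ∃ a b m, MCS (S : Subgroup G) a b m := by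
  obtain ⟨A, -, h2, h3⟩ : ∃ A : Subgroup G, IsMulCommutative A ∧ (∀ a ∈ A, a ^ 2 = 1) ∧ 2 < #A := by
    simpa [PRankLE] using h1
  obtain ⟨S, hS⟩ := (show IsPGroup 2 A from fun g => ⟨1, Subtype.ext (h2 g g.2)⟩).exists_le_sylow
  obtain ⟨a, ha, h4⟩ := h S S.2
  obtain ⟨b, h5, h6⟩ : ∃ b ∈ A, b ∉ ⟪a⟫ := by
    by_contra! h5
    have : IsCyclic A := Subgroup.isCyclic_of_le (H' := ⟪a⟫) h5
    obtain ⟨g, hg⟩ := IsCyclic.exists_ofOrder_eq_natCard (α := A)
    exact h3.not_ge (hg ▸ orderOf_le_of_pow_eq_one two_pos (Subtype.ext (h2 g g.2)))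
  have hb := h2 b h5
  have hi : ⟪a⟫.relIndex S = 2 := by
    have h7 := FT.card_mul_relIndex (zpowers_le.2 ha)
    have h8 := relIndex_eq_one.not.2 fun e : (S : Subgroup G) ≤ ⟪a⟫ => h6 (e (hS h5))
    have h9 := FT.card_pos (S : Subgroup G)
    rw [card_zpowers'] at h7
    generalize ⟪a⟫.relIndex S = i at *
    obtain _ | _ | _ | i := i <;> first | rfl | exact (h8 rfl).elim | nlinarith [orderOf_pos a]
  obtain ⟨n, hn⟩ := (IsPGroup.iff_orderOf.1 S.2) ⟨a, ha⟩
  replace hn : orderOf a = 2 ^ n := (orderOf_coe _).trans hn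
  have hs := sup_zpowers_eq_of_prime (by rw [hi]; exact Nat.prime_two) (zpowers_le.2 ha) (hS h5) h6
  have hu : 2 ≤ n → orderOf (a ^ 2 ^ (n - 2)) = 2 ^ 2 := fun h => by
    rw [orderOf_pow_pow Nat.prime_two hn (Nat.sub_le _ _), Nat.sub_sub_self h]
  refine ⟨S, ?_⟩
  by_cases hc : b * a = a * b
  · obtain _ | _ | n := n
    · have := card_le_of_le hS
      simp only [hn] at h4; omega
    · have := H10.nonempty_closure_equiv_dihedral (c := a) (by rwa [← sq]) (by
        rw [hc, mul_inv_cancel_right, eq_inv_iff_mul_eq_one, ← sq]; exact orderOf_dvd_iff_pow_eq_one.1 hn.dvd) h6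
      rw [closure_pair_eq, hs] at this
      exact .inl ⟨_, hn.ge, this⟩
    · exact (nomod S ha hi hb h6 (npow_mem_zpowers _ _) (hu (by omega)) (Commute.pow_left hc.symm _)).elim
  rcases hs ▸ mc_or_mod_two hn (((syl_top Nat.prime_two S).pi.nml_of_relIndex Nat.prime_two (zpowers_le.2 ha)
    hi).nrm (hS h5)) h6 (hb ▸ one_mem _) hc with h7 | ⟨c, h7⟩
  · rcases h7.cases with h8 | h8 | ⟨c, h8⟩
    · exact .inl ⟨_, Nat.le_self_pow (by have := h7.two_le; omega) 2, h8.iso⟩
    · exact absurd (h8.sq.symm.trans hb) h7.z_ne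
    · exact .inr ⟨_, _, _, h8⟩
  · have h8 := h7.three_le rfl
    exact (nomod S ha hi h7.pow h7.nmem (npow_mem_zpowers _ _) (hu h7.two_le) (((h7.pow_le_center
      (zpowers_pow_pow_le a 2 (show 1 ≤ n - 2 by omega) (mem_zpowers _))).2 c h7.b_mem).symm)).elim

end Cfsg.Agent.H19.Sw
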