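import Cfsg.Agent.H19.Sw1
import Cfsg.Agent.H10.AutPSL3
import Cfsg.Agent.H10.Congr
import Cfsg.Agent.H10.SL

/-! The Suzuki–Wong theorem, granted the Sylow `2`-subgroup recognition theorems. -/

set_option autoImplicit false

namespace Cfsg.Agent.H19.Sw

open Cfsg Subgroup FT H3 H10 Matrix MatrixGroups
open scoped commutatorElement

universe u

variable {G : Type u} [Group G] [Finite G] {H K : Type*} [Group H] [Group K]

/-- a four-group and at most two outer automorphism classes -/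
def O2 (H : Type*) [Group H] : Prop :=
  (∃ x y : H, x * x = 1 ∧ y * y = 1 ∧ x * y = y * x ∧ x ≠ 1 ∧ y ≠ 1 ∧ x * y ≠ 1) ∧
  ∀ θ θ' : MulAut H, (∃ h, ∀ x, θ x = h * x * h⁻¹) ∨ (∃ h, ∀ x, θ' x = h * x * h⁻¹) ∨
    ∃ h, ∀ x, θ (θ' x) = h * x * h⁻¹

theorem O2.congr (h : O2 H) (e : K ≃* H) : O2 K := by
  obtain ⟨⟨x, y, h1, h2, h3, h4, h5, h6⟩, h7⟩ := h
  refine ⟨⟨e.symm x, e.symm y, ?_⟩, fun θ θ' => (h7 (MulAut.congr e θ) (MulAut.congr e θ')).imp ?_ (Or.imp ?_ ?_)⟩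
  · simp [← map_mul, h1, h2, h4, h5, h6]; exact h3
  all_goals exact fun ⟨h, h8⟩ => ⟨e.symm h, fun x => e.injective (by simpa using h8 (e x))⟩

theorem o2_psl {p : ℕ} [Fact p.Prime] (h2 : p ≠ 2) : O2 PSL(2, ZMod p) := by
  have t0 : (2 : ZMod p) ≠ 0 := Ring.two_ne_zero (by rwa [ZMod.ringChar_zmod_n])
  constructor
  · obtain ⟨a, b, h⟩ := ZMod.sq_add_sq p (-1)
    have h1 : ∀ A : SL(2, ZMod p), A.1 0 0 = -A.1 1 1 → slQ _ _ A * slQ _ _ A = 1 ∧ slQ _ _ A ≠ 1 := fun A hA => by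
      have hd := A.2
      rw [det_fin_two, hA] at hd
      rw [← map_mul, ← map_one (slQ _ _), Ne, slQ_eq_iff, slQ_eq_iff]
      refine ⟨⟨-1, ?_⟩, fun ⟨c, hc⟩ => ?_⟩
      · ext i j; fin_cases i <;> fin_cases j <;> simp [Matrix.mul_apply, hA] <;>
          first | ring1 | linear_combination -hd
      · simp [hc] at hA hd
        rw [show c = 0 from mul_left_cancel₀ t0 (by linear_combination hA)] at hd
        simp at hd
    let i : SL(2, ZMod p) := ⟨!![0, 1; -1, 0], by simp⟩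
    let j : SL(2, ZMod p) := ⟨!![a, b; b, -a], by simp; linear_combination -h⟩
    refine ⟨_, _, (h1 i (by simp [i])).1, (h1 j (by simp [j])).1, ?_, (h1 i (by simp [i])).2,
      (h1 j (by simp [j])).2, (h1 (i * j) (by rw [slv_mul]; simp [i, j])).2⟩
    rw [← map_mul, ← map_mul, slQ_eq_iff]
    exact ⟨-1, by rw [slv_mul, slv_mul]; simp [i, j]⟩
  intro θ θ'
  obtain ⟨g, σ, rfl⟩ := aut_PSL2 θ
  obtain ⟨g', σ', rfl⟩ := aut_PSL2 θ'
  have h1 : ∀ σ : RingAut (ZMod p), σ = 1 := fun σ => RingEquiv.ext fun x => by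
    obtain ⟨n, rfl⟩ := ZMod.intCast_surjective x; simp
  have h3 : ∀ g : GL (Fin 2) (ZMod p), IsSquare ((GeneralLinearGroup.det g : (ZMod p)ˣ) : ZMod p) →
      ∃ h, ∀ x, pDiag g x = h * x * h⁻¹ := fun g ⟨c, hc⟩ => by
    have c0 : c ≠ 0 := by rintro rfl; exact Units.ne_zero _ (hc.trans (mul_zero _))
    obtain ⟨h, e⟩ := (pDiag_mem_inn_iff (g := g) (by simp)).2 ⟨Units.mk0 c c0, Units.ext (by simp [hc, sq])⟩
    exact ⟨h, fun x => by rw [← e]; rfl⟩
  simp only [h1 σ, h1 σ', map_one, mul_one, ← MulAut.mul_apply, ← map_mul]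
  refine or_iff_not_imp_left.2 fun h4 => or_iff_not_imp_left.2 fun h5 => h3 _ ?_
  rw [← quadraticChar_one_iff_isSquare (Units.ne_zero _), map_mul, Units.val_mul, map_mul,
    quadraticChar_neg_one_iff_not_isSquare.2 (mt (h3 g) h4), quadraticChar_neg_one_iff_not_isSquare.2 (mt (h3 g') h5)]
  rfl

theorem card_prime {F : Type*} [Field F] [Fintype F] (ho : Odd (Fintype.card F)) (h : Oc PSL(2, F)) :
    (Fintype.card F).Prime := by
  obtain ⟨p, hp, _⟩ : ∃ p, Fact p.Prime ∧ CharP F p :=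
    ⟨ringChar F, ⟨CharP.char_is_prime F _⟩, inferInstance⟩
  have h2 : p ≠ 2 := by
    rintro rfl
    exact Nat.not_even_iff_odd.2 ho (Nat.even_iff.2 (FiniteField.even_card_of_char_two (ringChar.eq F 2)))
  let φ : Multiplicative F →* PSL(2, F) := MonoidHom.mk' (fun t => slQ _ F (xT t.toAdd)) fun s t => by
    rw [toAdd_mul, xT_add, map_mul]
  have h1 : ∀ g : Multiplicative F, g ^ p = 1 := fun g => Multiplicative.toAdd.injective (by simp)
  have := h.inj φ (fun s t e => slQ_xT_inj (F := F) e) p Fact.out h2 ⊤ fun g => ⟨1, Subtype.ext (by simpa using h1 g)⟩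
  obtain ⟨g, hg⟩ := IsCyclic.exists_ofOrder_eq_natCard (α := (⊤ : Subgroup (Multiplicative F)))
  rw [← orderOf_coe, card_top, Nat.card_eq_fintype_card, Fintype.card_multiplicative] at hg
  rw [((Nat.dvd_prime hp.out).1 (hg ▸ orderOf_dvd_of_pow_eq_one (h1 g))).resolve_left Fintype.one_lt_card.ne']
  exact hp.out

theorem not_a7 : ¬ Oc (alternatingGroup (Fin 7)) := fun h => by
  have h3 : ∀ x : alternatingGroup (Fin 7), x.1 ^ 3 = 1 → x.1 ≠ 1 → orderOf x = 3 := fun x h1 h2 =>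
    (orderOf_coe x).symm.trans (orderOf_eq_prime h1 h2)
  obtain ⟨x, hx⟩ : ∃ x : alternatingGroup (Fin 7), x.1 = c[0, 1, 2] :=
    ⟨⟨_, Equiv.Perm.mem_alternatingGroup.2 (by decide)⟩, rfl⟩
  obtain ⟨y, hy⟩ : ∃ x : alternatingGroup (Fin 7), x.1 = c[3, 4, 5] :=
    ⟨⟨_, Equiv.Perm.mem_alternatingGroup.2 (by decide)⟩, rfl⟩
  obtain ⟨i, hi⟩ := mem_zpowers_iff.1 (h.comm (x := x) (y := y) Nat.prime_three (by decide)
    (h3 _ (by rw [hx]; decide) (by rw [hx]; decide)) (h3 _ (by rw [hy]; decide) (by rw [hy]; decide))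
    (Subtype.ext (by rw [coe_mul, coe_mul, hx, hy]; decide)))
  have h1 := Equiv.Perm.zpow_apply_eq_self_of_apply_eq_self (f := x.1) (x := 3) (by rw [hx]; decide) i
  rw [show x.1 ^ i = y.1 from congrArg Subtype.val hi, hy] at h1
  exact absurd h1 (by decide)

theorem Tc.tri (h : Tc G) {P : Subgroup G} (hP : IsPGroup 2 P) :
    ∃ a ∈ P, ∀ u ∈ P, ∀ v ∈ P, u ∉ ⟪a⟫ → v ∉ ⟪a⟫ → u * v ∈ ⟪a⟫ := by
  obtain ⟨a, ha, h4⟩ := h P hP
  refine ⟨a, ha, fun u hu v hv h6 => mul_mem_of_relIndex_two ?_ hu hv h6⟩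
  have h7 := FT.card_mul_relIndex (zpowers_le.2 ha)
  have h8 := relIndex_eq_one.not.2 fun e : P ≤ ⟪a⟫ => h6 (e hu)
  have h9 := FT.card_pos P
  rw [card_zpowers'] at h7
  generalize ⟪a⟫.relIndex P = i at *
  obtain _ | _ | _ | i := i <;> first | rfl | exact (h8 rfl).elim | nlinarith [orderOf_pos a]

omit [Finite G] in
theorem zq (L : Subgroup G) (l : L) : (l : L ⧸ center L) = 1 ↔ (l : G) ∈ C(L) :=
  (QuotientGroup.eq_one_iff l).trans (mem_center_iff.trans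
    ⟨fun h g hg => congrArg Subtype.val (h ⟨g, hg⟩), fun h g => Subtype.ext (h g g.2)⟩)

theorem cent_le (h : Tc G) (L : Subgroup G) [L.Normal] (hZ : ∀ l ∈ center L, l * l = 1)
    (hV : O2 (L ⧸ center L)) : C(L) ≤ oddCore G ⊔ L := by
  have hc : ∀ t ∈ L ⊓ C(L), t * t = 1 := fun t ht => congrArg Subtype.val
    (hZ ⟨t, ht.1⟩ ((QuotientGroup.eq_one_iff _).1 ((zq L _).2 ht.2)))
  have h1 : ¬ 2 ∣ (L.subgroupOf C(L)).index := fun h1 => by
    obtain ⟨t, ht⟩ := exists_prime_orderOf_dvd_card' (G := C(L) ⧸ L.subgroupOf C(L)) 2 h1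
    obtain ⟨⟨t, h2⟩, rfl⟩ := QuotientGroup.mk_surjective t
    have h3 : t ∉ L := fun e => by
      rw [(QuotientGroup.eq_one_iff (N := L.subgroupOf C(L)) ⟨t, h2⟩).2 e] at ht; simp at ht
    have h4 : t * t ∈ L := (QuotientGroup.eq_one_iff (N := L.subgroupOf C(L)) (⟨t, h2⟩ * ⟨t, h2⟩)).1 (by
      rw [QuotientGroup.mk_mul, ← sq, ← ht, pow_orderOf_eq_one])
    obtain ⟨⟨x, y, h5, h6, h7, h8, h9, h10⟩, -⟩ := hV
    let Q := ((⟪x⟫ ⊔ ⟪y⟫).comap (QuotientGroup.mk' (center L))).map L.subtype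
    have h11 : ∀ w ∈ ⟪t⟫ ⊔ Q, w * w ∈ L ⊓ C(L) := fun w hw => by
      obtain ⟨_, ⟨i, rfl⟩, _, ⟨q, hq, rfl⟩, rfl⟩ := (mem_sup_norm (B := Q) (fun _ ⟨q, _, e⟩ =>
        mem_nrm_zpowers (by simp [← e, h2 q q.2]))).1 hw
      obtain ⟨s, hs, r, hr, e⟩ := (mem_sup_norm (zpowers_le.2 (mem_nrm_zpowers (by simp [← h7])))).1 hq
      have h12 : ((q * q : L) : L ⧸ center L) = 1 := by
        rw [QuotientGroup.mk_mul, show (q : L ⧸ center L) = _ from e]
        rcases (mem_zpowers_two (by rwa [sq])).1 hs with rfl | rfl <;>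
          rcases (mem_zpowers_two (by rwa [sq])).1 hr with rfl | rfl
        exacts [by simp, by simpa, by simpa, by rw [mul_assoc, ← mul_assoc r, ← h7, mul_assoc, h6, mul_one, h5]]
      have h13 : Commute (q : G) t := h2 q q.2
      convert mul_mem (zpow_mem (show t * t ∈ L ⊓ C(L) from ⟨h4, mul_mem h2 h2⟩) i)
        (show _ ∈ L ⊓ C(L) from ⟨(q * q).2, (zq L _).1 h12⟩) using 1
      simp only [coe_subtype, coe_mul, (Commute.refl t).mul_zpow, mul_assoc]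
      rw [← mul_assoc (q : G), (h13.zpow_right i).eq, mul_assoc]
    obtain ⟨a, ha, h12⟩ := h.tri (P := ⟪t⟫ ⊔ Q) fun g => ⟨2, Subtype.ext (by
      simpa [pow_succ, mul_assoc] using hc _ (h11 g g.2))⟩
    have h13 : ⟪a ^ 2⟫ ≤ C(L) := zpowers_le.2 (sq a ▸ (h11 a ha).2)
    have h14 : ∀ l : L, (l : G) ∈ ⟪a⟫ → (l : L ⧸ center L) ≠ 1 → ∃ z ∈ ⟪a ^ 2⟫, (l : G) = z * a :=
      fun l h1 h2 => (mem_zpowers_sq_or h1).resolve_left fun e => h2 ((zq L l).2 (h13 e))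
    obtain ⟨x, rfl⟩ := QuotientGroup.mk_surjective x
    obtain ⟨y, rfl⟩ := QuotientGroup.mk_surjective y
    have hx : (x : G) ∈ ⟪t⟫ ⊔ Q := mem_sup_right ⟨x, mem_sup_left (mem_zpowers _), rfl⟩
    have hy : (y : G) ∈ ⟪t⟫ ⊔ Q := mem_sup_right ⟨y, mem_sup_right (mem_zpowers _), rfl⟩
    have h15 : ⟪a⟫ ≤ L := by
      obtain ⟨l, h1, h2⟩ : ∃ l : L, (l : G) ∈ ⟪a⟫ ∧ (l : L ⧸ center L) ≠ 1 := by
        by_contra! h1
        exact h10 (h1 (x * y) (h12 _ hx _ hy (mt (h1 x) h8) (mt (h1 y) h9)))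
      obtain ⟨z, h3, e⟩ := h14 l h1 h2
      exact zpowers_le.2 ((mul_mem_cancel_left (zpowers_le.2 (sq a ▸ (h11 a ha).1) h3)).1 (e ▸ l.2))
    have h16 : ∀ l : L, (l : G) ∈ ⟪t⟫ ⊔ Q → (l : G) ∈ ⟪a⟫ := fun l hl => by_contra fun e => h3
      ((mul_mem_cancel_left l.2).1 (h15 (h12 _ hl _ (mem_sup_left (mem_zpowers t)) e fun e => h3 (h15 e))))
    obtain ⟨z, h17, e⟩ := h14 x (h16 x hx) h8
    obtain ⟨z', h18, e'⟩ := h14 y (h16 y hy) h9
    refine h10 ((zq L (x * y)).2 (h13 ?_))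
    rw [coe_mul, e, e', mul_assoc, ← mul_assoc a, comm_of_mem_zpowers (mem_zpowers a) (zpowers_pow_le _ _ h18),
      mul_assoc, ← sq]
    exact mul_mem h17 (mul_mem h18 (mem_zpowers _))
  let S := (show IsPGroup 2 (L.subgroupOf C(L)) from fun g => ⟨1, Subtype.ext (Subtype.ext (by
    simpa [sq] using hc _ ⟨g.2, g.1.2⟩))⟩).toSylow h1
  obtain ⟨M, _, h2⟩ : ∃ M : Subgroup C(L), M.Normal ∧ M.IsComplement' S :=
    ⟨_, inferInstance, MonoidHom.ker_transferSylow_isComplement' S fun g _ l hl => Subtype.ext (g.2 l hl)⟩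
  intro d hd
  obtain ⟨⟨m, s⟩, e⟩ := h2.2 ⟨d, hd⟩
  exact (show (m.1 : G) * s.1 = d from congrArg Subtype.val e) ▸ (mul_mem (mem_sup_left
    (H2.pPrimeCore_map_subtype_le_of_normal C(L) ⟨m, H2.le_pPrimeCore (by
      rw [← h2.index_eq_card]; exact ((Nat.Prime.coprime_iff_not_dvd Nat.prime_two).2 h1).symm) m.2, rfl⟩))
    (mem_sup_right s.2))

theorem index_two (h : Tc G) (L : Subgroup G) [L.Normal] [Group.IsPerfect L] (hZ : ∀ l ∈ center L, l * l = 1)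
    (hV : O2 (L ⧸ center L)) : (oddCore G ⊔ L).index ∣ 2 := by
  let Φ := (autBar L).comp (MulAut.conjNormal (H := L))
  have h1 : Φ.ker ≤ C(L) := by
    have h1 : ⁅⁅Φ.ker, L⁆, L⁆ = ⊥ := commutator_eq_bot_iff_le_centralizer.2 (commutator_le.2 fun k hk l hl =>
      (zq L (MulAut.conjNormal k ⟨l, hl⟩ * ⟨l, hl⟩⁻¹)).1 (mul_inv_eq_one.2
        (congrArg (fun θ : MulAut (L ⧸ center L) => θ (⟨l, hl⟩ : L)) hk)))
    generalize Φ.ker = K at *
    rw [← commutator_eq_bot_iff_le_centralizer, commutator_comm]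
    nth_rw 1 [← L.commutator_eq_self]
    exact commutator_commutator_eq_bot_of_rotate (by rwa [commutator_comm L]) h1
  have h2 : ∀ g, (∃ h, ∀ x, Φ g x = h * x * h⁻¹) → g ∈ oddCore G ⊔ L := fun g ⟨l, hl⟩ => by
    obtain ⟨l, rfl⟩ := QuotientGroup.mk_surjective l
    refine (mul_mem_cancel_left (inv_mem (mem_sup_right l.2))).1 (cent_le h L hZ hV (h1 ?_))
    rw [MonoidHom.mem_ker, map_mul, map_inv, inv_mul_eq_one]
    refine MulEquiv.ext fun x => ?_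
    obtain ⟨x, rfl⟩ := QuotientGroup.mk_surjective x
    exact (hl x).symm
  by_cases h3 : ∀ g, g ∈ oddCore G ⊔ L
  · exact index_dvd_two_iff.2 ⟨1, fun g => .inr (h3 g)⟩
  obtain ⟨g, hg⟩ := not_forall.1 h3
  exact index_dvd_two_iff.2 ⟨g, fun b => ((hV.2 (Φ b) (Φ g)).imp (h2 b) fun e => h2 _ (by
    simpa using e.resolve_left (mt (h2 g) hg))).symm⟩

/-- Part (I) of the Suzuki–Wong theorem. -/
theorem partI
    (hD : ∀ {X : Type u} [Group X] [Finite X] [Group.IsPerfect X] (S : Sylow 2 X) (n : ℕ), 2 ≤ n →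
      Nonempty ((S : Subgroup X) ≃* DihedralGroup n) →
      (∃ (F : Type) (_ : Field F) (_ : Fintype F), Odd (Fintype.card F) ∧ 3 < Fintype.card F ∧
        Nonempty (X ⧸ oddCore X ≃* PSL(2, F))) ∨ Nonempty (X ⧸ oddCore X ≃* alternatingGroup (Fin 7)))
    (hQ : ∀ {X : Type u} [Group X] [Finite X], Group.IsPerfect X → PRankLE 2 1 X → Even (Nat.card X) →
      (∃ (F : Type) (_ : Field F) (_ : Fintype F), Odd (Fintype.card F) ∧ 3 < Fintype.card F ∧
        Nonempty (X ⧸ oddCore X ≃* SL(2, F))) ∨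
      IsNonsplitDoubleCover (X ⧸ oddCore X) ↥(alternatingGroup (Fin 7)))
    (noQD : ∀ (L : Type u) [Group L] [Finite L], (∀ p : ℕ, p.Prime → p ≠ 2 → ∀ P : Sylow p L, IsCyclic P) →
      ∀ (S : Sylow 2 L) (a b : L) (m : ℕ), MCS (S : Subgroup L) a b m → (S : Subgroup L) ≤ pResidual 2 L → False)
    (hns : ¬ Group.IsSolvable G) (hodd : ∀ p : ℕ, p.Prime → p ≠ 2 → ∀ P : Sylow p G, IsCyclic P)
    (h2 : ∀ S : Sylow 2 G, ∃ C : Subgroup ↥(S : Subgroup G), IsCyclic C ∧ C.index ∣ 2) :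
    ∃ G₀ : Subgroup G, G₀.Normal ∧ G₀.index ∣ 2 ∧
      ∃ X L : Subgroup ↥G₀, X.Normal ∧ L.Normal ∧ X ⊓ L = ⊥ ∧ X ⊔ L = ⊤ ∧ (Nat.card X).Coprime (Nat.card L) ∧
        Odd (Nat.card X) ∧ (∃ (C : Subgroup ↥X) (_ : C.Normal), IsCyclic C ∧ IsCyclic (↥X ⧸ C)) ∧
        ∃ (p : ℕ) (_ : Fact p.Prime), 5 ≤ p ∧
          (Nonempty (↥L ≃* PSL(2, ZMod p)) ∨ Nonempty (↥L ≃* SL(2, ZMod p))) := by
  have ho := oc_of hodd
  obtain ⟨_, ⟨n, rfl⟩, h1⟩ := wellFounded_lt.has_min (Set.range (derivedSeries G)) ⟨_, 0, rfl⟩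
  have hP : Group.IsPerfect (derivedSeries G n) := isPerfect_iff.2 (eq_of_le_of_not_lt (commutator_le_left _ _)
    (h1 _ ⟨n + 1, rfl⟩))
  have h3 : Nontrivial (derivedSeries G n) := (nontrivial_iff_ne_bot _).2 fun e => hns ⟨⟨n, e⟩⟩
  have hN := derivedSeries_normal G n
  generalize derivedSeries G n = L at hP h3 hN
  have hL := ho.inj _ L.subtype_injective
  have e : L ≃* L ⧸ oddCore L := QuotientGroup.quotientBot.symm.trans (QuotientGroup.quotientMulEquivOfEq hL.core.symm)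
  obtain ⟨p, _, h4, h5⟩ : ∃ (p : ℕ) (_ : Fact p.Prime), 5 ≤ p ∧
      (Nonempty (L ≃* PSL(2, ZMod p)) ∨ Nonempty (L ≃* SL(2, ZMod p))) := by
    have h4 : ∀ {n : ℕ}, Odd n → 3 < n → 5 ≤ n := fun ⟨k, h⟩ _ => by omega
    by_cases h5 : PRankLE 2 1 L
    · rcases hQ hP h5 (Nat.not_odd_iff_even.1 fun h => have := hL.zg h
        Group.IsPerfect.not_isSolvable L inferInstance) with ⟨F, _, _, h6, h7, ⟨f⟩⟩ | ⟨-, ⟨f⟩, -⟩
      · have := Fact.mk (card_prime h6 (hL.surj ((slQ _ F).comp (e.trans f).toMonoidHom)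
          (slQ_surjective.comp (e.trans f).surjective)))
        exact ⟨_, this, h4 h6 h7, .inr ⟨(e.trans f).trans (slCongr (FiniteField.ringEquivOfCardEq (by simp)))⟩⟩
      · exact (not_a7 (hL.surj ((f.toMonoidHom.comp (QuotientGroup.mk' _)).comp e.toMonoidHom)
          ((f.surjective.comp (QuotientGroup.mk'_surjective _)).comp e.surjective))).elim
    obtain ⟨S, ⟨n, h6, h7⟩ | ⟨a, b, m, h6⟩⟩ := sylow_cases ((tc_of h2).inj _ L.subtype_injective) h5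
    · rcases hD S n h6 h7 with ⟨F, _, _, h6, h7, ⟨f⟩⟩ | ⟨⟨f⟩⟩
      · have := Fact.mk (card_prime h6 (hL.surj (e.trans f).toMonoidHom (e.trans f).surjective))
        exact ⟨_, this, h4 h6 h7, .inl ⟨(e.trans f).trans (pslCongr (FiniteField.ringEquivOfCardEq (by simp)))⟩⟩
      · exact (not_a7 (hL.surj (e.trans f).toMonoidHom (e.trans f).surjective)).elim
    · exact (noQD L (fun p hp h P => hL p hp h P P.2) S a b m h6 (by rw [no_index_iff.1 no_two]; exact le_top)).elim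
  have h6 : (oddCore G ⊔ L).index ∣ 2 := by
    have h6 := o2_psl (p := p) (by omega)
    obtain ⟨⟨f⟩⟩ | ⟨⟨f⟩⟩ := h5
    · have : Group.IsPerfect SL(2, ZMod p) := ⟨commutator_SL_fin_eq_top le_rfl fun _ => by simp; omega⟩
      have h8 : center PSL(2, ZMod p) = ⊥ := Group.IsPerfect.center_quotient_center_eq_bot SL(2, ZMod p)
      have h7 : center L = ⊥ := eq_bot_iff.2 fun l hl => f.injective ((mem_bot.1
        (h8.le ((MulEquivClass.apply_mem_center_iff f).2 hl))).trans (map_one f).symm)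
      exact index_two (tc_of h2) L (by simp [h7]) (h6.congr (((QuotientGroup.quotientMulEquivOfEq h7).trans
        QuotientGroup.quotientBot).trans f))
    · refine index_two (tc_of h2) L (fun l hl => f.injective ?_) (h6.congr (quotientCenterCongr f))
      obtain ⟨c, h7, h8⟩ := Matrix.SpecialLinearGroup.mem_center_iff.1 ((MulEquivClass.apply_mem_center_iff f).2 hl)
      refine Subtype.ext ?_
      rw [map_mul, slv_mul, ← h8, ← map_mul, ← sq, show c ^ 2 = 1 by simpa using h7]; simp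
  have h7 : oddCore G ⊓ L = ⊥ := by
    rw [← H2.pPrimeCore_map_subtype_of_isSubnormal hN.isSubnormal, show pPrimeCore 2 L = ⊥ from hL.core,
      Subgroup.map_bot]
  have h8 := H2.odd_card_oddCore (G := G)
  have e1 := subgroupOfEquivOfLe (le_sup_left : oddCore G ≤ oddCore G ⊔ L)
  have e2 := subgroupOfEquivOfLe (le_sup_right : L ≤ oddCore G ⊔ L)
  have := ((ho.inj _ (oddCore G).subtype_injective).inj e1.toMonoidHom e1.injective).zg (Nat.card_congr e1.toEquiv ▸ h8)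
  refine ⟨_, inferInstance, h6, (oddCore G).subgroupOf _, L.subgroupOf _, inferInstance, inferInstance,
    by rw [subgroupOf, subgroupOf, ← comap_inf, h7, MonoidHom.comap_bot, ker_subtype],
    by rw [← subgroupOf_sup le_sup_left le_sup_right, subgroupOf_self], ?_, Nat.card_congr e1.toEquiv ▸ h8,
    ⟨_, inferInstance, IsZGroup.isCyclic_commutator _, IsZGroup.isCyclic_abelianization⟩, p, ‹_›, h4,
    h5.imp (fun ⟨f⟩ => ⟨e2.trans f⟩) fun ⟨f⟩ => ⟨e2.trans f⟩⟩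
  rw [Nat.card_congr e1.toEquiv, Nat.card_congr e2.toEquiv]
  refine Nat.Coprime.symm (Nat.coprime_of_dvd fun r hr h9 h10 => ?_)
  have := Fact.mk hr
  obtain ⟨x, hx⟩ := exists_prime_orderOf_dvd_card' r h10
  obtain ⟨y, hy⟩ := exists_prime_orderOf_dvd_card' r h9
  rw [← orderOf_coe] at hx hy
  have h11 : (y : G) ∈ oddCore G ⊓ L := ⟨zpowers_le.2 x.2 (ho.comm hr (by
    rintro rfl; exact Nat.not_even_iff_odd.2 h8 (even_iff_two_dvd.2 h10)) hx hy
      (commute_of_normal_of_disjoint _ _ inferInstance hN (disjoint_iff.2 h7) _ _ x.2 y.2)), y.2⟩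
  exact hr.one_lt.ne (by simpa [mem_bot.1 (h7 ▸ h11)] using hy)

end Cfsg.Agent.H19.Sw
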