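import Cfsg.Agent.H11.FinQuad

/-! Products of two classes in `GL₂`. -/

set_option autoImplicit false
set_option maxHeartbeats 400000

namespace Cfsg.Agent.H19.Th

open Matrix

variable {F : Type*} [Field F]

/-- the companion matrix -/
def comp (t d : F) : Matrix (Fin 2) (Fin 2) F := !![0, -d; 1, t]

theorem exists_comp (A : Matrix (Fin 2) (Fin 2) F) (hA : ∀ l : F, A ≠ l • 1) :
    ∃ P : GL (Fin 2) F, A = P.1 * comp A.trace A.det * (P⁻¹).1 := by
  suffices ∃ P : Matrix (Fin 2) (Fin 2) F, P.det ≠ 0 ∧ A * P = P * comp A.trace A.det by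
    obtain ⟨P, h1, h2⟩ := this
    exact ⟨.mkOfDetNeZero P h1, (Units.eq_mul_inv_iff_mul_eq _).2 h2⟩
  rw [trace_fin_two, det_fin_two, comp]
  by_cases h1 : A 1 0 = 0
  · by_cases h2 : A 0 1 = 0
    · refine ⟨!![1, A 0 0; 1, A 1 1], fun h => hA (A 0 0) ?_, ?_⟩
      · have : A 1 1 = A 0 0 := by simpa [sub_eq_zero] using h
        ext i j; fin_cases i <;> fin_cases j <;> simp [h1, h2, this]
      · ext i j; fin_cases i <;> fin_cases j <;> simp [mul_apply, h1, h2] <;> ring
    · refine ⟨!![0, A 0 1; 1, A 1 1], by simpa using h2, ?_⟩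
      ext i j; fin_cases i <;> fin_cases j <;> simp [mul_apply] <;> ring
  · refine ⟨!![1, A 0 0; 0, A 1 0], by simpa using h1, ?_⟩
    ext i j; fin_cases i <;> fin_cases j <;> simp [mul_apply] <;> ring

theorem exists_fact [Finite F] {A : Matrix (Fin 2) (Fin 2) F} (hA : ∀ l : F, A ≠ l • 1)
    {t d s e : F} (hd : d ≠ 0) (h1 : A.det = d * e)
    (h : ∀ l, A.trace = 2 * l → A.det = l ^ 2 → t * l ≠ d * s) :
    ∃ Y Z : Matrix (Fin 2) (Fin 2) F, A = Y * Z ∧ Y.trace = t ∧ Y.det = d ∧ Z.trace = s ∧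
      Z.det = e := by
  obtain ⟨P, hP⟩ := exists_comp A hA
  generalize A.trace = τ at hP h
  rw [h1] at hP h
  obtain ⟨a, c, h2⟩ : ∃ a c, a ^ 2 + τ * a * c + d * e * c ^ 2 - t * a - d * s * c + d = 0 := by
    obtain ⟨x, y, z, h2, h3⟩ := H11.ternary_isotropic 1 (d * e) d τ (-t) (-(d * s))
    by_cases hz : z = 0
    · subst hz
      have hy : y ≠ 0 := by rintro rfl; simp at h2 h3; exact h2 h3
      obtain ⟨l, hl⟩ : ∃ l, l ^ 2 - τ * l + d * e = 0 :=
        ⟨-x / y, by field_simp; linear_combination h3⟩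
      obtain ⟨a, ha⟩ : ∃ a, a * (τ - 2 * l) + t * l - d * s ≠ 0 := by
        by_contra! h4
        have h5 := h4 0
        have h6 : τ = 2 * l := by linear_combination h4 1 - h5
        exact h l h6 (by linear_combination hl + l * h6) (by linear_combination h5)
      obtain ⟨c, hc⟩ : ∃ c, c * (a * (τ - 2 * l) + t * l - d * s) = -(a ^ 2 - t * a + d) :=
        ⟨_, div_mul_cancel₀ _ ha⟩
      exact ⟨a - l * c, c, by linear_combination hc + c ^ 2 * hl⟩
    · exact ⟨x / z, y / z, by field_simp; linear_combination h3⟩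
  let Y := !![a, d * e * c + a * τ - d * s; c, t - a]
  have h3 : Y.det = d := by simp [Y]; linear_combination -h2
  refine ⟨P.1 * Y * (P⁻¹).1, P.1 * (d⁻¹ • (adjugate Y * comp τ (d * e))) * (P⁻¹).1, ?_,
    by rw [trace_units_conj]; simp [Y], by rw [det_units_conj, h3], ?_, ?_⟩
  · rw [hP]
    simp only [mul_assoc, Units.inv_mul_cancel_left, Matrix.mul_smul, Matrix.smul_mul]
    rw [← mul_assoc Y, mul_adjugate, h3]
    simp [hd]
  · rw [trace_units_conj]; simp [Y, comp, trace_fin_two]; field_simp; ring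
  · rw [det_units_conj, det_smul, det_mul, det_adjugate, h3]; simp [comp]; field_simp

theorem exists_X [Fintype F] (h3 : 3 ≤ Fintype.card F) : ∃ X : Matrix (Fin 2) (Fin 2) F,
    X ^ (Fintype.card F ^ 2 - 1) = 1 ∧ X.trace ≠ 0 ∧ X.det ≠ 1 ∧
      ∀ l, l ^ 2 - X.trace * l + X.det ≠ 0 := by
  obtain ⟨p, hp⟩ := CharP.exists F
  have := Fact.mk (CharP.char_is_prime F p)
  let E := FiniteField.Extension F p 2
  have hE : Nat.card Eˣ = Fintype.card F ^ 2 - 1 := by
    rw [Nat.card_units, FiniteField.natCard_extension, Nat.card_eq_fintype_card]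
  obtain ⟨θ, hθ⟩ := IsCyclic.exists_ofOrder_eq_natCard (α := Eˣ)
  rw [hE, ← orderOf_units] at hθ
  let b := Module.finBasisOfFinrankEq F E (FiniteField.finrank_extension F p 2)
  let φ := Algebra.leftMulMatrix b
  have hφ : Function.Injective φ := φ.toRingHom.injective
  have key : ∀ l : F, θ.1 ^ 2 ≠ algebraMap F E l := fun l hl => by
    have h0 : l ≠ 0 := by rintro rfl; simp at hl
    have h1 : θ.1 ^ (2 * (Fintype.card F - 1)) = 1 := by
      rw [pow_mul, hl, ← map_pow, FiniteField.pow_card_sub_one_eq_one l h0, map_one]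
    have := Nat.le_of_dvd (by omega) (hθ ▸ orderOf_dvd_of_pow_eq_one h1)
    generalize Fintype.card F = q at *
    have : 3 * q ≤ q ^ 2 := by nlinarith
    omega
  have ch : ∀ X : Matrix (Fin 2) (Fin 2) F, X ^ 2 = X.trace • X - algebraMap F _ X.det :=
    fun X => by
    ext i j; fin_cases i <;> fin_cases j <;>
      simp [sq, mul_apply, trace_fin_two, det_fin_two, algebraMap_matrix_apply] <;> ring
  refine ⟨φ θ, by rw [← map_pow, ← hθ, pow_orderOf_eq_one, map_one], fun h => key (-(φ θ).det)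
    (hφ (by rw [map_pow, ch, h, AlgHom.commutes]; simp)), fun h => ?_, fun l h => key (l ^ 2) ?_⟩
  · have h1 := FiniteField.algebraMap_norm_eq_pow (K := F) (x := θ.1)
    rw [Algebra.norm_eq_matrix_det b, h, map_one, FiniteField.natCard_extension,
      Nat.card_eq_fintype_card] at h1
    have h2 := hθ ▸ orderOf_dvd_of_pow_eq_one h1.symm
    generalize Fintype.card F = q at *
    have h4 : 3 * q ≤ q ^ 2 := by nlinarith
    have h5 := Nat.div_lt_self (n := q ^ 2 - 1) (k := q - 1) (by omega) (by omega)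
    exact h5.not_ge (Nat.le_of_dvd (Nat.div_pos (by omega) (by omega)) h2)
  · have h1 : Algebra.norm F (algebraMap F E l - θ) = 0 := by
      rw [Algebra.norm_eq_matrix_det b, map_sub, AlgHom.commutes, ← h]
      simp [det_fin_two, trace_fin_two, algebraMap_matrix_apply, φ]; ring
    rw [← sub_eq_zero.1 (Algebra.norm_eq_zero_iff.1 h1), map_pow]

end Cfsg.Agent.H19.Th
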