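import Cfsg.Agent.H19.Th1

/-! The square of a semisimple class of `PSp₄(q)`. -/

set_option autoImplicit false
set_option maxHeartbeats 400000

namespace Cfsg.Agent.H19.Th

open Matrix SymplecticGroup

variable {F : Type*} [Field F] {A B C D : Matrix (Fin 2) (Fin 2) F} {t d : F}
  {g y z : symplecticGroup (Fin 2) F}

theorem mem_blk : fromBlocks A B C D ∈ symplecticGroup (Fin 2) F ↔
    Cᵀ * A = Aᵀ * C ∧ Aᵀ * D = Cᵀ * B + 1 ∧ Dᵀ * B = Bᵀ * D := by
  rw [mem_iff', J, fromBlocks_transpose, fromBlocks_multiply, fromBlocks_multiply, fromBlocks_inj]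
  simp only [mul_zero, mul_one, zero_add, mul_neg, add_zero, neg_mul, add_neg_eq_zero]
  refine ⟨fun h => ⟨h.1, by rw [← neg_inj, eq_neg_add_iff_add_eq.2 h.2.1]; abel, h.2.2.2⟩,
    fun h => ⟨h.1, by rw [h.2.1]; abel, ?_, h.2.2⟩⟩
  have := congrArg transpose h.2.1
  simp only [transpose_mul, transpose_transpose, transpose_add, transpose_one] at this
  rw [this]; abel

theorem inv_blk (h : g.1 = fromBlocks A B C D) : (g⁻¹).1 = fromBlocks Dᵀ (-Bᵀ) (-Cᵀ) Aᵀ := by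
  rw [coe_inv, h, J, fromBlocks_neg, fromBlocks_transpose, fromBlocks_multiply, fromBlocks_multiply]
  simp

theorem exists_inv (h : A.det ≠ 0) : ∃ A' : Matrix (Fin 2) (Fin 2) F, A * A' = 1 ∧ A' * A = 1 ∧
    Aᵀ * A'ᵀ = 1 ∧ A'ᵀ * Aᵀ = 1 :=
  ⟨A⁻¹, mul_nonsing_inv _ h.isUnit, nonsing_inv_mul _ h.isUnit, by
    rw [← transpose_mul, nonsing_inv_mul _ h.isUnit, transpose_one], by
    rw [← transpose_mul, mul_nonsing_inv _ h.isUnit, transpose_one]⟩

/-- lower triangular elements with given invariants -/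
def Lw (t d : F) (y : symplecticGroup (Fin 2) F) : Prop :=
  ∃ A C D, y.1 = fromBlocks A 0 C D ∧ A.trace = t ∧ A.det = d

/-- regularity of the Levi part -/
def Reg (t d : F) : Prop := d ≠ 1 ∧ ∀ l, l ^ 2 - t * l + d ≠ 0

theorem Reg.ne (h : Reg t d) : d ≠ 0 := by simpa using h.2 0

theorem Reg.inv (h : Reg t d) : Reg (t / d) d⁻¹ :=
  ⟨by simpa using h.1, fun l hl => h.2 (d * l) (by
    have := h.ne
    field_simp at hl
    linear_combination d * hl)⟩

theorem Lw.std [Finite F] (h : Reg t d) (hy : Lw t d y) :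
    ∃ z D, IsConj y z ∧ z.1 = fromBlocks (comp t d) 0 0 D := by
  obtain ⟨A, C, D, h1, rfl, rfl⟩ := hy
  obtain ⟨P, hP⟩ := exists_comp A fun l hl => h.2 l (by rw [hl]; simp; ring)
  generalize A.trace = t at *
  generalize A.det = d at *
  let u : symplecticGroup (Fin 2) F := ⟨fromBlocks P.1 0 0 (P⁻¹).1ᵀ, mem_blk.2 ⟨by simp, by
    rw [← transpose_mul]; simp, by simp⟩⟩
  obtain ⟨C', D', h2⟩ : ∃ C' D', (u⁻¹ * y * u).1 = fromBlocks (comp t d) 0 C' D' := ⟨_, _, by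
    rw [Submonoid.coe_mul, Submonoid.coe_mul, inv_blk rfl, h1, fromBlocks_multiply,
      fromBlocks_multiply, hP, fromBlocks_inj]
    exact ⟨by simp only [transpose_transpose, transpose_zero, neg_zero, zero_mul, add_zero,
      mul_zero, mul_assoc, Units.inv_mul_cancel_left, Units.inv_mul, mul_one], by simp, rfl, rfl⟩⟩
  obtain ⟨h3, h4, -⟩ := mem_blk.1 (h2 ▸ (u⁻¹ * y * u).2)
  obtain ⟨⟨a, b, c⟩, h5⟩ := Finite.surjective_of_injective (f := fun p : F × F × F =>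
      (p.2.2 - p.1, -d * p.2.1 + t * p.2.2 - p.2.1,
        d ^ 2 * p.1 - 2 * d * t * p.2.1 + t ^ 2 * p.2.2 - p.2.2)) (fun p q e => by
    simp only [Prod.mk.injEq] at e
    obtain ⟨e1, e2, e3⟩ := e
    have k1 := sub_ne_zero.2 h.1
    have k2 := h.2 1
    have k3 := h.2 (-1)
    have k4 : p.1 = q.1 := mul_left_cancel₀ (mul_ne_zero k1 (mul_ne_zero k2 k3)) (by
      linear_combination (1 + d) * e3 - 2 * d * t * e2 - ((1 + d) * (t ^ 2 - 1) - 2 * d * t ^ 2) * e1)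
    have k5 : p.2.2 = q.2.2 := by linear_combination e1 + k4
    refine Prod.ext k4 (Prod.ext (mul_left_cancel₀ (mul_ne_zero (mul_ne_zero h.ne k1)
      (mul_ne_zero k2 k3)) ?_) k5)
    rw [k4, k5] at e3
    rw [k5] at e2
    linear_combination (-(d * (d - 1) * (1 + d)) + d * t ^ 2) * e2 - t * e3)
    (((comp t d)ᵀ * C') 0 0, ((comp t d)ᵀ * C') 0 1, ((comp t d)ᵀ * C') 1 1)
  have h6 : (comp t d)ᵀ * !![a, b; b, c] * comp t d = (comp t d)ᵀ * C' + !![a, b; b, c] := by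
    have h7 : ((comp t d)ᵀ * C') 1 0 = ((comp t d)ᵀ * C') 0 1 := congrFun (congrFun
      (show ((comp t d)ᵀ * C')ᵀ = (comp t d)ᵀ * C' by rw [transpose_mul, transpose_transpose, h3]) 0) 1
    simp only [Prod.mk.injEq] at h5
    ext i j
    fin_cases i <;> fin_cases j <;> simp only [Matrix.add_apply, Fin.zero_eta, Fin.mk_one, h7,
      ← h5.1, ← h5.2.1, ← h5.2.2] <;> simp [comp, mul_apply, vecMul, dotProduct] <;> ring
  let v : symplecticGroup (Fin 2) F := ⟨fromBlocks 1 0 !![a, b; b, c] 1, mem_blk.2 ⟨by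
    ext i j; fin_cases i <;> fin_cases j <;> simp, by simp, by simp⟩⟩
  refine ⟨v⁻¹ * (u⁻¹ * y * u) * v, D', isConj_iff.2 ⟨v⁻¹ * u⁻¹, by group⟩, ?_⟩
  rw [Submonoid.coe_mul, Submonoid.coe_mul, inv_blk rfl, h2, fromBlocks_multiply,
    fromBlocks_multiply, fromBlocks_inj]
  refine ⟨by simp, by simp, ?_, by simp⟩
  have h7 : (!![a, b; b, c])ᵀ = !![a, b; b, c] := by ext i j; fin_cases i <;> fin_cases j <;> rfl
  rw [mul_zero, zero_add] at h4
  rw [h7]
  generalize !![a, b; b, c] = S at *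
  simp only [transpose_one, transpose_zero, neg_zero, mul_one, one_mul, mul_zero, zero_add]
  have h8 : S * comp t d = D' * ((comp t d)ᵀ * C' + S) := by
    rw [← h6, mul_assoc, ← mul_assoc D', mul_eq_one_comm.1 h4, one_mul]
  rw [neg_mul, h8, mul_add, ← mul_assoc, mul_eq_one_comm.1 h4, one_mul]
  abel

theorem Lw.conj [Finite F] (h : Reg t d) (hy : Lw t d y) (hz : Lw t d z) : IsConj y z := by
  obtain ⟨a, D, h1, h2⟩ := hy.std h
  obtain ⟨b, D', h3, h4⟩ := hz.std h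
  have h5 := (mem_blk.1 (h2 ▸ a.2)).2.1
  have h6 := (mem_blk.1 (h4 ▸ b.2)).2.1
  rw [mul_zero, zero_add] at h5 h6
  obtain rfl : D = D' := right_inv_eq_right_inv h5 h6
  exact h1.trans (Subtype.ext (h2.trans h4.symm) ▸ h3.symm)

theorem conj_J (h : g.1 = fromBlocks A B C D) :
    (symJ _ _ * g * (symJ _ _)⁻¹).1 = fromBlocks D (-C) (-B) A := by
  rw [Submonoid.coe_mul, Submonoid.coe_mul, inv_blk (g := symJ _ _) rfl, h, coe_J, J,
    fromBlocks_multiply, fromBlocks_multiply]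
  simp

theorem up_lw (h : z.1 = fromBlocks A B 0 D) :
    ∃ y, IsConj z y ∧ Lw (A.trace / A.det) A.det⁻¹ y := by
  have h1 := (mem_blk.1 (h ▸ z.2)).2.1
  rw [transpose_zero, zero_mul, zero_add] at h1
  have h2 := congrArg det h1
  rw [det_mul, det_transpose, det_one] at h2
  refine ⟨_, isConj_iff.2 ⟨symJ _ _, rfl⟩, D, -B, A, by rw [conj_J h, neg_zero], ?_,
    eq_inv_of_mul_eq_one_right h2⟩
  have h3 := congrArg (fun M => (adjugate Aᵀ * M).trace) h1
  simp only [← mul_assoc, adjugate_mul, det_transpose, smul_mul_assoc, one_mul, trace_smul] at h3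
  rw [eq_div_iff (left_ne_zero_of_mul_eq_one h2), mul_comm, ← smul_eq_mul, h3]
  simp [adjugate_fin_two, trace_fin_two, add_comm]

theorem exists_split (h : g.1 = fromBlocks A B C D) {Y Z : Matrix (Fin 2) (Fin 2) F}
    (hA : A = Y * Z) (h0 : A.det ≠ 0) : ∃ y z, g = y * z ∧ Lw Y.trace Y.det y ∧
      ∃ B D, z.1 = fromBlocks Z B 0 D := by
  obtain ⟨A', a1, a2, a3, a4⟩ := exists_inv h0
  obtain ⟨Y', b1, b2, b3, b4⟩ := exists_inv (A := Y)
    (left_ne_zero_of_mul (by rwa [hA, det_mul] at h0))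
  have h1 := (mem_blk.1 (h ▸ g.2)).1
  have h2 : A'ᵀ * Cᵀ = C * A' := by
    rw [← mul_one (_ * Cᵀ), ← a1, ← mul_assoc, mul_assoc A'ᵀ, h1, ← mul_assoc, a4, one_mul]
  let y : symplecticGroup (Fin 2) F := ⟨fromBlocks Y 0 (C * A' * Y) Y'ᵀ, mem_blk.2 ⟨by
    simp only [transpose_mul, h2, mul_assoc], by simp [b3], by simp⟩⟩
  exact ⟨y, y⁻¹ * g, by simp, ⟨_, _, _, rfl, rfl, rfl⟩, _, _, by
    rw [Submonoid.coe_mul, inv_blk rfl, h, fromBlocks_multiply, fromBlocks_inj]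
    exact ⟨by simp [hA, ← mul_assoc, b2], rfl, by
      simp only [transpose_mul, h2, mul_assoc, neg_mul, a2, mul_one, neg_add_cancel], rfl⟩⟩

theorem exists_C (hg : ∀ l : F, g.1 ≠ l • 1) :
    ∃ z A B C D, IsConj g z ∧ z.1 = fromBlocks A B C D ∧ C ≠ 0 := by
  by_contra! h
  obtain ⟨A, B, C, D, h1⟩ : ∃ A B C D, g.1 = fromBlocks A B C D :=
    ⟨_, _, _, _, (fromBlocks_toBlocks _).symm⟩
  obtain rfl := h _ _ _ _ _ (.refl _) h1
  obtain rfl := neg_eq_zero.1 (h _ _ _ _ _ (isConj_iff.2 ⟨_, rfl⟩) (conj_J h1))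
  have key : ∀ S : Matrix (Fin 2) (Fin 2) F, Sᵀ = S → S * A = D * S := fun S hS => by
    let v : symplecticGroup (Fin 2) F := ⟨fromBlocks 1 0 S 1, mem_blk.2 ⟨by simp [hS], by simp,
      by simp⟩⟩
    have := h (v * g * v⁻¹) _ _ _ _ (isConj_iff.2 ⟨v, rfl⟩) (by
      rw [Submonoid.coe_mul, Submonoid.coe_mul, inv_blk rfl, h1, fromBlocks_multiply,
        fromBlocks_multiply])
    simpa [hS, add_neg_eq_zero] using this
  obtain rfl : A = D := by simpa using key 1 transpose_one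
  have h2 := key !![1, 0; 0, 0] (by ext i j; fin_cases i <;> fin_cases j <;> rfl)
  have h3 := key !![0, 1; 1, 0] (by ext i j; fin_cases i <;> fin_cases j <;> rfl)
  have h4 : A 0 1 = 0 := by simpa [mul_apply, vecMul, dotProduct] using congrFun (congrFun h2 0) 1
  have h5 : A 1 0 = 0 := by
    simpa [mul_apply, vecMul, dotProduct, eq_comm] using congrFun (congrFun h2 1) 0
  have h6 : A 1 1 = A 0 0 := by
    simpa [mul_apply, vecMul, dotProduct] using congrFun (congrFun h3 0) 1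
  have h7 : A = A 0 0 • 1 := by ext i j; fin_cases i <;> fin_cases j <;> simp [h4, h5, h6]
  exact hg (A 0 0) (by rw [h1, ← fromBlocks_one, fromBlocks_smul, ← h7, smul_zero])

theorem conj_up (h : g.1 = fromBlocks A B C D) {S : Matrix (Fin 2) (Fin 2) F} (hS : Sᵀ = S) :
    ∃ z B C' D, IsConj g z ∧ z.1 = fromBlocks (A + S * C) B C' D := by
  let v : symplecticGroup (Fin 2) F := ⟨fromBlocks 1 S 0 1, mem_blk.2 ⟨by simp,
    by simp, by simp [hS]⟩⟩
  exact ⟨v * g * v⁻¹, _, _, _, isConj_iff.2 ⟨v, rfl⟩, by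
    rw [Submonoid.coe_mul, Submonoid.coe_mul, inv_blk rfl, h, fromBlocks_multiply,
      fromBlocks_multiply, fromBlocks_inj]
    exact ⟨by simp only [one_mul, transpose_one, mul_one, transpose_zero, neg_zero, mul_zero,
      add_zero], rfl, rfl, rfl⟩⟩

end Cfsg.Agent.H19.Th
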