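import Cfsg.Agent.H19.Th2

/-! The square of a semisimple class of `PSp₄(q)`: the choice of the Levi part. -/

set_option autoImplicit false
set_option maxHeartbeats 400000

namespace Cfsg.Agent.H19.Th

open Matrix SymplecticGroup

variable {F : Type*} [Field F] [Finite F] {A B C D : Matrix (Fin 2) (Fin 2) F} {t d : F}
  {g x : symplecticGroup (Fin 2) F}

/-- products of two good classes of `GL₂` -/
def Gd (t d : F) (A : Matrix (Fin 2) (Fin 2) F) : Prop :=
  ∃ Y Z, A = Y * Z ∧ Y.trace = t ∧ Y.det = d ∧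
    (Z.trace = t / d ∧ Z.det = d⁻¹ ∨ Z.trace = t ∧ Z.det = d)

theorem Gd.prod (hr : Reg t d) {X X' : Matrix (Fin 2) (Fin 2) F} (hx : x.1 = fromBlocks X 0 0 X')
    (h1 : X.trace = t) (h2 : X.det = d) (h : g.1 = fromBlocks A B C D) (hA : Gd t d A) :
    ∃ y z, IsConj x y ∧ IsConj x z ∧ g = y * z := by
  obtain ⟨Y, Z, hA, h3, h4, h5⟩ := hA
  have h0 := hr.ne
  obtain ⟨y, z, rfl, hy, B', D', hz⟩ := exists_split h hA (by
    rw [hA, det_mul, h4]
    rcases h5 with h5 | h5 <;> simp [h5.2, h0])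
  have h6 : Lw t d x := ⟨_, _, _, hx, h1, h2⟩
  obtain ⟨w, h7, h8⟩ := up_lw hz
  refine ⟨y, z, h6.conj hr (h3 ▸ h4 ▸ hy), ?_, rfl⟩
  rcases h5 with h5 | h5 <;> rw [h5.1, h5.2] at h8
  · rw [inv_inv, div_inv_eq_mul, div_mul_cancel₀ _ h0] at h8
    exact (h6.conj hr h8).trans h7.symm
  · obtain ⟨w', h9, h10⟩ := up_lw hx
    rw [h1, h2] at h10
    exact h9.trans ((h10.conj hr.inv h8).trans h7.symm)

omit [Finite F] in
theorem gd_one (hd : d ≠ 0) : Gd t d (1 : Matrix (Fin 2) (Fin 2) F) :=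
  ⟨comp t d, !![t / d, 1; -d⁻¹, 0], by
    ext i j; fin_cases i <;> fin_cases j <;> simp [comp, hd, div_eq_mul_inv],
    by simp [comp], by simp [comp], .inl ⟨by simp, by simp⟩⟩

theorem gd_odd (hd : d ≠ 0) (ht : t ≠ 0) (h2 : (2 : F) ≠ 0) (hA : A.det = 1) :
    Gd t d A ∨ Gd t d (-A) := by
  have key : ∀ A : Matrix (Fin 2) (Fin 2) F, (∀ l : F, A ≠ l • 1) → A.det = 1 → A.trace ≠ 2 →
      Gd t d A := fun A h hA h3 => by
    obtain ⟨Y, Z, h4, h5, h6, h7⟩ := exists_fact (t := t) (s := t / d) (e := d⁻¹) h hd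
      (by rw [hA, mul_inv_cancel₀ hd]) fun l h4 _ h5 => h3 (by
        rw [h4, mul_left_cancel₀ ht (h5.trans (by field_simp) : t * l = t * 1), mul_one])
    exact ⟨Y, Z, h4, h5, h6, .inl h7⟩
  by_cases h : ∀ l : F, A ≠ l • 1
  · by_cases h3 : A.trace = 2
    · refine .inr (key _ (fun l hl => h (-l) (by rw [neg_smul, ← hl, neg_neg])) (by simp [det_neg, hA])
        fun h4 => mul_ne_zero h2 h2 ?_)
      rw [trace_neg, h3] at h4
      linear_combination -h4
    · exact .inl (key _ h hA h3)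
  · push Not at h
    obtain ⟨l, rfl⟩ := h
    rcases sq_eq_one_iff.1 (show l ^ 2 = 1 by simpa using hA) with rfl | rfl
    · exact .inl (by simpa using gd_one hd)
    · exact .inr (by simpa using gd_one hd)

theorem gd_even (hd : d ≠ 0) (h2 : (2 : F) = 0) (hA : A.det = 1 ∨ A.det = d ^ 2)
    (h : A.trace ≠ 0) : Gd t d A := by
  have h1 : ∀ l : F, A ≠ l • 1 := fun l hl => h (by simp [hl, h2])
  rcases hA with hA | hA
  · obtain ⟨Y, Z, h4, h5, h6, h7⟩ := exists_fact (t := t) (s := t / d) (e := d⁻¹) h1 hd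
      (by rw [hA, mul_inv_cancel₀ hd]) fun l h4 => (h (by rw [h4, h2, zero_mul])).elim
    exact ⟨Y, Z, h4, h5, h6, .inl h7⟩
  · obtain ⟨Y, Z, h4, h5, h6, h7⟩ := exists_fact (t := t) (s := t) (e := d) h1 hd
      (by rw [hA, sq]) fun l h4 => (h (by rw [h4, h2, zero_mul])).elim
    exact ⟨Y, Z, h4, h5, h6, .inr h7⟩

omit [Finite F] in
theorem exists_sym (h : C ≠ 0) (h0 : C.det = 0) :
    ∃ S : Matrix (Fin 2) (Fin 2) F, Sᵀ = S ∧ (S * C).trace = 1 := by
  have key : ∀ a b c : F, (!![a, b; b, c])ᵀ = !![a, b; b, c] := fun a b c => by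
    ext i j; fin_cases i <;> fin_cases j <;> rfl
  by_cases h1 : C 0 0 = 0
  · by_cases h2 : C 1 1 = 0
    · refine ⟨_, key 0 (C 0 1 + C 1 0)⁻¹ 0, ?_⟩
      have h3 : C 0 1 + C 1 0 ≠ 0 := fun h3 => h (by
        rw [det_fin_two, h1, eq_neg_of_add_eq_zero_right h3] at h0
        have h4 : C 0 1 = 0 := by simpa using h0
        rw [h4, zero_add] at h3
        ext i j; fin_cases i <;> fin_cases j <;> simp [h1, h2, h3, h4])
      simp [trace_fin_two, mul_apply, vecMul, dotProduct]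
      field_simp
      ring
    · exact ⟨_, key 0 0 (C 1 1)⁻¹, by simp [trace_fin_two, mul_apply, vecMul, dotProduct, h2]⟩
  · exact ⟨_, key (C 0 0)⁻¹ 0 0, by simp [trace_fin_two, mul_apply, vecMul, dotProduct, h1]⟩

theorem exists_gd (hr : Reg t d) (ht : t ≠ 0) (h : g.1 = fromBlocks A B C D) (hC : C ≠ 0) :
    ∃ S : Matrix (Fin 2) (Fin 2) F, Sᵀ = S ∧ (Gd t d (A + S * C) ∨ Gd t d (-(A + S * C))) := by
  obtain ⟨h1, h2, -⟩ := mem_blk.1 (h ▸ g.2)
  have hd := hr.ne
  by_cases h0 : C.det = 0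
  · have h3 : C * adjugate A ≠ 0 := fun h3 => by
      have h4 : A.det = 0 := by
        have := congrArg (· * A) h3
        simpa [mul_assoc, adjugate_mul, hC] using this
      have h5 := congrArg (fun M => Mᵀ * adjugate A) h2
      simp only [transpose_mul, transpose_transpose, transpose_add, transpose_one, add_mul,
        mul_assoc, mul_adjugate, h3, h4, zero_smul, mul_zero, zero_add, one_mul] at h5
      have h6 := congrArg adjugate h5
      rw [adjugate_adjugate _ (by simp), adjugate_zero] at h6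
      simp only [Fintype.card_fin, tsub_self, pow_zero, one_smul] at h6
      rw [← h6, transpose_zero, zero_mul, eq_comm, add_eq_zero_iff_eq_neg] at h2
      simpa [h0, det_neg] using congrArg det h2
    obtain ⟨S, s1, s2⟩ := exists_sym h3 (by rw [det_mul, h0, zero_mul])
    obtain ⟨T, t1, t2⟩ := exists_sym hC h0
    have h4 : ∀ S : Matrix (Fin 2) (Fin 2) F, (A + S * C).det =
        A.det + (S * (C * adjugate A)).trace + S.det * C.det := fun S => by
      simp [det_fin_two, trace_fin_two, adjugate_fin_two, mul_apply]; ring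
    by_cases h5 : (2 : F) = 0
    · obtain ⟨a, b, h6, h7⟩ : ∃ a b, (A.det + a + b * (T * (C * adjugate A)).trace = 1 ∨
          A.det + a + b * (T * (C * adjugate A)).trace = d ^ 2) ∧
          A.trace + a * (S * C).trace + b ≠ 0 := by
        by_contra! h6
        have k1 := h6 (1 - A.det) 0 (.inl (by ring))
        have k2 := h6 (d ^ 2 - A.det) 0 (.inr (by ring))
        have k3 := h6 (1 - A.det - (T * (C * adjugate A)).trace) 1 (.inl (by ring))
        have k4 : (S * C).trace = 0 := (mul_eq_zero.1 (by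
          linear_combination k2 - k1 + (1 - d) * (S * C).trace * h5 :
            (d - 1) ^ 2 * (S * C).trace = 0)).resolve_left (pow_ne_zero _ (sub_ne_zero.2 hr.1))
        rw [k4] at k1 k3
        exact one_ne_zero (by linear_combination k3 - k1 : (1 : F) = 0)
      refine ⟨a • S + b • T, by simp [s1, t1], .inl (gd_even hd h5 ?_ ?_)⟩
      · rw [h4]; simpa [h0, add_mul, s2, add_assoc] using h6
      · simpa [add_mul, t2, add_assoc] using h7
    · exact ⟨(1 - A.det) • S, by simp [s1], gd_odd hd ht h5 (by rw [h4]; simp [h0, s2])⟩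
  · obtain ⟨C', c1, c2, c3, c4⟩ := exists_inv h0
    suffices ∃ S : Matrix (Fin 2) (Fin 2) F, Sᵀ = S ∧ (Gd t d (S * C) ∨ Gd t d (-(S * C))) by
      obtain ⟨S, s1, s2⟩ := this
      refine ⟨S - A * C', ?_, by simpa [sub_mul, mul_assoc, c2] using s2⟩
      rw [transpose_sub, s1, transpose_mul, ← mul_one (_ * Aᵀ), ← c1, ← mul_assoc, mul_assoc C'ᵀ,
        ← h1, ← mul_assoc, c4, one_mul]
    by_cases h5 : (2 : F) = 0
    · by_cases h6 : Cᵀ = C
      · exact ⟨C', right_inv_eq_right_inv (h6 ▸ c3) c1, .inl (c2 ▸ gd_one hd)⟩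
      · obtain ⟨r, h7⟩ := FiniteField.isSquare_of_char_two ((ringChar.spec F 2).1 (by simpa using h5)
          |> fun h => (Nat.prime_dvd_prime_iff_eq (CharP.char_is_prime F _) Nat.prime_two).1 h) (-C.det⁻¹)
        refine ⟨!![0, r; r, 0], by ext i j; fin_cases i <;> fin_cases j <;> rfl,
          .inl (gd_even hd h5 (.inl (by rw [det_mul]; simp [← h7, h0])) fun h8 => h6 ?_)⟩
        have h9 : r ≠ 0 := by rintro rfl; simp [h0] at h7
        have h10 : C 1 0 = C 0 1 := mul_left_cancel₀ h9 (by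
          simp [trace_fin_two, mul_apply, vecMul, dotProduct] at h8
          linear_combination h8 - r * C 0 1 * h5)
        ext i j; fin_cases i <;> fin_cases j <;> simp [h10]
    · exact ⟨!![1, 0; 0, C.det⁻¹], by ext i j; fin_cases i <;> fin_cases j <;> rfl,
        gd_odd hd ht h5 (by rw [det_mul]; simp [h0])⟩

omit [Finite F] in
theorem scalar_center {l : F} (h : g.1 = l • 1) : g ∈ Subgroup.center _ :=
  Subgroup.mem_center_iff.2 fun y => Subtype.ext (by simp [h])

theorem main [Fintype F] (h3 : 3 ≤ Fintype.card F) : ∃ x : symplecticGroup (Fin 2) F,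
    x ^ (Fintype.card F ^ 2 - 1) = 1 ∧ ∀ g, g ∉ Subgroup.center _ →
      ∃ c ∈ Subgroup.center _, ∃ y z, IsConj x y ∧ IsConj x z ∧ c * g = y * z := by
  obtain ⟨X, h1, h2, hr⟩ := exists_X h3
  obtain ⟨X', a1, a2, a3, a4⟩ := exists_inv (Reg.ne hr)
  let x : symplecticGroup (Fin 2) F := ⟨fromBlocks X 0 0 X'ᵀ, mem_blk.2 ⟨by simp, by simp [a3],
    by simp⟩⟩
  refine ⟨x, Subtype.ext ?_, fun g hg => ?_⟩
  · have : X' ^ (Fintype.card F ^ 2 - 1) = 1 := by
      rw [← one_mul (X' ^ _), ← h1, ← Commute.mul_pow (a1.trans a2.symm), a1, one_pow, h1]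
    rw [SubmonoidClass.coe_pow, fromBlocks_diagonal_pow, h1, ← transpose_pow, this]
    simp
  · obtain ⟨z, A, B, C, D, h4, h5, h6⟩ := exists_C (g := g) fun l hl => hg (scalar_center hl)
    obtain ⟨S, s1, s2⟩ := exists_gd hr h2 h5 h6
    obtain ⟨w, B', C', D', h7, h8⟩ := conj_up h5 s1
    obtain ⟨u, rfl⟩ := isConj_iff.1 (h4.trans h7).symm
    suffices ∃ c ∈ Subgroup.center _, ∃ y z, IsConj x y ∧ IsConj x z ∧ c * w = y * z by
      obtain ⟨c, h9, y, z, h10, h11, h12⟩ := this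
      refine ⟨c, h9, _, _, h10.trans (isConj_iff.2 ⟨u, rfl⟩), h11.trans (isConj_iff.2 ⟨u, rfl⟩), ?_⟩
      rw [← mul_assoc, ← mul_assoc, ← Subgroup.mem_center_iff.1 h9, mul_assoc u, h12]
      group
    rcases s2 with s2 | s2
    · exact ⟨1, one_mem _, by simpa using s2.prod hr (x := x) rfl rfl rfl h8⟩
    · refine ⟨⟨-1, neg_mem (one_mem _)⟩, scalar_center (l := -1) (by simp),
        s2.prod hr (x := x) (B := -B') (C := -C') (D := -D') rfl rfl rfl ?_⟩
      simp [h8, fromBlocks_neg]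

end Cfsg.Agent.H19.Th
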